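import Cfsg.Agent.H35.S4Defs

/-!
# Standard subgroups of type `Sp₄(q)`, type III: the Heisenberg coordinates
-/

set_option autoImplicit false

namespace Cfsg.Agent.H64.S4L

open Cfsg Cfsg.Agent.H63 Cfsg.Agent.H63.SL Cfsg.Agent.H35.S4 Subgroup
open scoped commutatorElement

universe u v

section Add

variable {G : Type u} [Group G] {B : Type v} [CommRing B] {f : B → G}

theorem f_zero (h : ∀ a b, f (a + b) = f a * f b) : f 0 = 1 :=
  mul_left_cancel (a := f 0) (by rw [← h, add_zero, mul_one])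

theorem f_sq (h2 : (2 : B) = 0) (h : ∀ a b, f (a + b) = f a * f b) (a : B) : f a * f a = 1 := by
  rw [← h, ← two_mul, h2, zero_mul, f_zero h]

theorem f_inv (h2 : (2 : B) = 0) (h : ∀ a b, f (a + b) = f a * f b) (a : B) : (f a)⁻¹ = f a :=
  inv_eq_of_mul_eq_one_right (f_sq h2 h a)

theorem f_inj (h2 : (2 : B) = 0) (h : ∀ a b, f (a + b) = f a * f b) (hi : ∀ a, f a = 1 → a = 0)
    {a b : B} (e : f a = f b) : a = b := by
  have := hi (a + b) (by rw [h, e, f_sq h2 h])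
  linear_combination this - b * h2

theorem cm_mul_right (p a b : G) : ⁅p, a * b⁆ = ⁅p, a⁆ * (a * ⁅p, b⁆ * a⁻¹) := by
  simp only [commutatorElement_def]; group

theorem cm_mul_left (p p' a : G) : ⁅p * p', a⁆ = p * ⁅p', a⁆ * p⁻¹ * ⁅p, a⁆ := by
  simp only [commutatorElement_def]; group

theorem cm_conj (g p a : G) : ⁅g * p * g⁻¹, g * a * g⁻¹⁆ = g * ⁅p, a⁆ * g⁻¹ := by
  simp only [commutatorElement_def]; group

end Add

variable {F : Type v} [Field F] {G : Type u} [Group G] {A : Type v} [CommRing A]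
  {L : Subgroup G} {x : ZMod 8 → F → G} {t : G} {j : F →+* A} {σ : A ≃+* A}
  {y : ZMod 8 → A → G} {Yh : ZMod 8 → Subgroup G} {S P R W2 W4 : Subgroup G} {s : G → A}

theorem x_inj (hC : Ctx L x t) {i : ZMod 8} {a b : F} (e : x i a = x i b) : a = b :=
  f_inj hC.mod.pin.two (hC.mod.pin.add i) (hC.mod.pin.inj i) e

theorem n_inv (hC : Ctx L x t) (k : ZMod 8) : (n2 x k)⁻¹ = n2 x k :=
  inv_eq_of_mul_eq_one_right (hC.kb.nsq k)

theorem nn_cancel (hC : Ctx L x t) (k : ZMod 8) (g : G) :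
    n2 x k * (n2 x k * g * (n2 x k)⁻¹) * (n2 x k)⁻¹ = g := by
  rw [n_inv hC]
  calc _ = (n2 x k * n2 x k) * g * (n2 x k * n2 x k) := by simp only [mul_assoc]
    _ = g := by rw [hC.kb.nsq, one_mul, mul_one]

/-- The rotations. -/
theorem n_rot (hC : Ctx L x t) {a b c d : ZMod 8} (h : 2 * a - 2 * b = 2 * c - 2 * d) :
    n2 x a * n2 x b = n2 x c * n2 x d := by
  have key : ∀ a b i r, n2 x a * n2 x b * x i r * (n2 x a * n2 x b)⁻¹ =
      x (2 * a - 2 * b + i) r := by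
    intro a b i r
    calc _ = n2 x a * (n2 x b * x i r * (n2 x b)⁻¹) * (n2 x a)⁻¹ := by group
      _ = _ := by
        rw [hC.kp.nn, hC.kp.nn]
        congr 1
        ring
  rw [← inv_mul_eq_one]
  refine hC.kb.ext _ (mul_mem (inv_mem (mul_mem (hC.kb.nL _) (hC.kb.nL _)))
    (mul_mem (hC.kb.nL _) (hC.kb.nL _))) fun i r => ?_
  have e := key c d i r
  rw [← h, ← key a b i r] at e
  generalize n2 x a * n2 x b = p at e
  generalize n2 x c * n2 x d = q at e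
  change p⁻¹ * q * x i r = x i r * (p⁻¹ * q)
  calc p⁻¹ * q * x i r = p⁻¹ * (q * x i r * q⁻¹) * q := by group
    _ = _ := by rw [e]; group

theorem torN (hC : Ctx L x t) {h : G} (hL : h ∈ L) {α β : Fˣ} (hT : Tor x h α β) (k : ZMod 8) :
    ∃ α' β', n2 x k * h * (n2 x k)⁻¹ ∈ L ∧ Tor x (n2 x k * h * (n2 x k)⁻¹) α' β' ∧
      ∀ i, wt α' β' (2 * k + 4 - i) = wt α β i := by
  have hH := hC.kb.nH k h (hC.kb.torH h hL α β hT)
  obtain ⟨α', β', hT'⟩ := hC.kp.memH _ hH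
  refine ⟨α', β', hH.1, hT', fun i => Units.ext ?_⟩
  have e := hT' (2 * k + 4 - i) 1
  rw [← hC.kp.nn k i 1, show n2 x k * h * (n2 x k)⁻¹ * (n2 x k * x i 1 * (n2 x k)⁻¹) *
    (n2 x k * h * (n2 x k)⁻¹)⁻¹ = n2 x k * (h * x i 1 * h⁻¹) * (n2 x k)⁻¹ by group, hT,
    hC.kp.nn, mul_one, mul_one] at e
  exact (x_inj hC e).symm

variable (L x t j σ y Yh S P R W2 W4 s) in
/-- All hypotheses. -/
structure Hy : Prop where
  c : Ctx L x t
  T : T3 L x t j σ y Yh S P R W2 W4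
  B : Lv3b y W2 W4
  hW : ∀ p, p ∈ W2 ↔ p ∈ TldS L x t 2
  V : Lv4 L x t j σ y W2 W4 s

variable (x y W2 W4 s) in
/-- The coordinates of an element of `W_4`. -/
def Co (e' : G) (z ν : A) : Prop :=
  e' ∈ W4 ∧ s (n2 x 1 * e' * (n2 x 1)⁻¹) = z ∧ ∃ e ∈ W2, ⁅y 1 1, e'⁆ = e * y 3 ν

namespace Hy

variable (H : Hy L x t j σ y Yh S P R W2 W4 s)
include H

theorem two : (2 : A) = 0 := H.T.ds.quad.two

theorem σσ (a : A) : σ (σ a) = a := H.T.ds.quad.sq a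

theorem σj (u : F) : σ (j u) = j u := (H.T.ds.quad.fix _).2 ⟨u, rfl⟩

theorem exj {a : A} (h : σ a = a) : ∃ u, j u = a :=
  let ⟨u, e⟩ := (H.T.ds.quad.fix a).1 h
  ⟨u, e.symm⟩

theorem exN (a : A) : ∃ n, j n = a * σ a := H.exj (by rw [map_mul, H.σσ, mul_comm])

theorem exT (a : A) : ∃ n, j n = a + σ a := H.exj (by rw [map_add, H.σσ, add_comm])

theorem y1a (a b : A) : y 1 (a + b) = y 1 a * y 1 b := H.T.ds.add 1 (by decide) a b

theorem y3a (a b : A) : y 3 (a + b) = y 3 a * y 3 b := H.T.ds.add 3 (by decide) a b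

theorem j_inj {u w : F} (e : j u = j w) : u = w := by
  refine x_inj H.c (i := 1) ?_
  rw [← H.T.ds.res 1 (by decide), ← H.T.ds.res 1 (by decide), e]

theorem W2R {e : G} (he : e ∈ W2) : e ∈ R := (H.T.l3.two ▸ he :).1

theorem W4R {e : G} (he : e ∈ W4) : e ∈ R := (H.T.l3.four ▸ he :).1

theorem cS {e g : G} (he : e ∈ R) (hg : g ∈ S) : Commute e g :=
  (((H.T.l2.mem e).1 he).2.1 g hg).symm

theorem c2 {e : G} (he : e ∈ R) (a : F) : Commute e (x 2 a) :=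
  H.cS he ((H.T.l1.memS _).2 ⟨a, 0, 0, by
    rw [f_zero H.y3a, f_zero (H.c.mod.pin.add 4), mul_one, mul_one]⟩)

theorem c3 {e : G} (he : e ∈ R) (b : A) : Commute e (y 3 b) :=
  H.cS he ((H.T.l1.memS _).2 ⟨0, b, 0, by
    rw [f_zero (H.c.mod.pin.add 2), f_zero (H.c.mod.pin.add 4), mul_one, one_mul]⟩)

theorem c23 (a : F) (b : A) : Commute (y 3 b) (x 2 a) := (H.T.ds.c1 3 (by decide) b a).2

theorem x2W (a : F) : x 2 a ∈ W2 := H.T.l3.le (H.T.hl.le 2 (by decide) a)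

theorem n14 (a : F) : n2 x 1 * x 4 a * (n2 x 1)⁻¹ = x 2 a := H.c.kp.nn 1 4 a

theorem x4W (a : F) : x 4 a ∈ W4 := (H.T.l3.sw _).2 (H.n14 a ▸ H.x2W a)

theorem s_x2 (a : F) : s (x 2 a) = 0 :=
  (H.V.ker _ (H.x2W a)).2 ((H.c.kp.memX _ _).2 ⟨a, rfl⟩)

theorem uniq {e e1 : G} (he : e ∈ W2) (he1 : e1 ∈ W2) {b b1 : A} (h : e * y 3 b = e1 * y 3 b1) :
    e = e1 ∧ b = b1 := by
  obtain ⟨a1, a2, -⟩ := H.T.l3.uniq (e1⁻¹ * e) (mul_mem (inv_mem he1) he) (b + b1) 1 (one_mem _) (by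
    rw [H.y3a, mul_one, mul_assoc, ← mul_assoc e, h, mul_assoc, f_sq H.two H.y3a, mul_one,
      inv_mul_cancel])
  exact ⟨(inv_mul_eq_one.1 a1).symm, by linear_combination a2 - b1 * H.two⟩

theorem y1_y3 (a b : A) {n : F} (hn : j n = a * b + σ (a * b)) :
    y 1 a * y 3 b * (y 1 a)⁻¹ = x 2 n * y 3 b := by
  have e : ⁅y 1 a, y 3 b⁆ = x 2 n := H.T.ds.s2 1 (by decide) a b n hn
  rw [← e, commutatorElement_def, inv_mul_cancel_right]

theorem y1_x4 (a : A) {n : F} (hn : j n = a * σ a) (u : F) :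
    ⁅y 1 a, x 4 u⁆ = x 2 (n * u) * y 3 (σ a * j u) := (H.T.ds.s3 1 (by decide) a n hn u).1

/-- The commutator with a product. -/
theorem cm_right {a b b' : A} {e' e'' e e1 : G} (h1 : e' ∈ W4) (he1 : e1 ∈ W2)
    (r : ⁅y 1 a, e'⁆ = e * y 3 b) (r' : ⁅y 1 a, e''⁆ = e1 * y 3 b') :
    ⁅y 1 a, e' * e''⁆ =
      e * e1 * y 3 (b + b' + σ (s e1) * s (n2 x 1 * e' * (n2 x 1)⁻¹)) := by
  have l := H.V.l2 e1 he1 e' h1
  have l' : e' * e1 * e'⁻¹ = e1 * y 3 (σ (s e1) * s (n2 x 1 * e' * (n2 x 1)⁻¹)) := by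
    rw [(H.c3 (H.W2R he1) _).eq, ← f_inv H.two H.y3a, ← l, commutatorElement_def]
    group
  rw [cm_mul_right, r, r', H.y3a, H.y3a]
  calc _ = e * y 3 b * (e' * e1 * e'⁻¹ * (e' * y 3 b' * e'⁻¹)) := by group
    _ = e * (y 3 b * e1) * (y 3 (σ (s e1) * s (n2 x 1 * e' * (n2 x 1)⁻¹)) * y 3 b') := by
        rw [l', (H.c3 (H.W4R h1) _).eq, mul_inv_cancel_right]; simp only [mul_assoc]
    _ = _ := by
        rw [← (H.c3 (H.W2R he1) _).eq, ← H.y3a, add_comm, H.y3a]; simp only [mul_assoc]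

/-- The commutator of a product. -/
theorem cm_left {a a' b b' : A} {e' e e1 : G} (he : e ∈ W2) (he1 : e1 ∈ W2)
    (r : ⁅y 1 a, e'⁆ = e * y 3 b) (r' : ⁅y 1 a', e'⁆ = e1 * y 3 b') {n : F}
    (hn : j n = a * b' + σ (a * b')) :
    ⁅y 1 (a + a'), e'⁆ = e1 * e * x 2 n * y 3 (b' + b) := by
  rw [H.y1a, cm_mul_left, r, r', H.y3a]
  calc _ = (y 1 a * e1 * (y 1 a)⁻¹) * (y 1 a * y 3 b' * (y 1 a)⁻¹) * (e * y 3 b) := by group
    _ = e1 * (x 2 n * (y 3 b' * e)) * y 3 b := by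
        rw [(H.B.c1 a e1 he1).eq, mul_inv_cancel_right, H.y1_y3 a b' hn]; simp only [mul_assoc]
    _ = _ := by
        rw [← (H.c3 (H.W2R he) _).eq, ← mul_assoc (x 2 n), ← (H.c2 (H.W2R he) _).eq]
        simp only [mul_assoc]

theorem cm_sq {a b : A} {e' e : G} (he : e ∈ W2) (r : ⁅y 1 a, e'⁆ = e * y 3 b) :
    a * b + σ (a * b) = s e * σ (s e) := by
  obtain ⟨n, hn⟩ := H.exT (a * b)
  obtain ⟨m, hm⟩ := H.exN (s e)
  have e1 := H.cm_left he he r r hn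
  rw [← two_mul, ← two_mul, H.two, zero_mul, zero_mul, f_zero H.y1a, f_zero H.y3a, mul_one,
    commutatorElement_one_left, H.V.sq e he m hm, ← H.c.mod.pin.add] at e1
  have e2 := congrArg j (H.c.mod.pin.inj _ _ e1.symm)
  rw [map_add, map_zero, hn, hm] at e2
  linear_combination e2 - (s e * σ (s e)) * H.two

theorem s4_mul {e' e'' : G} (h1 : e' ∈ W4) (h2 : e'' ∈ W4) :
    s (n2 x 1 * (e' * e'') * (n2 x 1)⁻¹) =
      s (n2 x 1 * e' * (n2 x 1)⁻¹) + s (n2 x 1 * e'' * (n2 x 1)⁻¹) := by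
  rw [← H.V.add _ ((H.T.l3.sw _).1 h1) _ ((H.T.l3.sw _).1 h2)]
  congr 1
  group

theorem co_ex {e' : G} (h : e' ∈ W4) : ∃ z ν, Co x y W2 W4 s e' z ν :=
  let ⟨e, he, b, r⟩ := H.B.l3 1 e' h
  ⟨_, b, h, rfl, e, he, r⟩

theorem co_fun {e' : G} {z ν z' ν' : A} (h : Co x y W2 W4 s e' z ν)
    (h' : Co x y W2 W4 s e' z' ν') : z = z' ∧ ν = ν' := by
  obtain ⟨-, a, e, he, r⟩ := h
  obtain ⟨-, a', e1, he1, r'⟩ := h'
  exact ⟨a.symm.trans a', (H.uniq he he1 (r.symm.trans r')).2⟩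

theorem co_hz {e' : G} {z ν : A} (h : Co x y W2 W4 s e' z ν) : Hz σ z ν := by
  obtain ⟨h4, a, e, he, r⟩ := h
  have := H.cm_sq he r
  rwa [H.V.l3 1 e' h4 e he ν r, a, one_mul, one_mul] at this

theorem co_mul {e' e'' : G} {z ν z' ν' : A} (h : Co x y W2 W4 s e' z ν)
    (h' : Co x y W2 W4 s e'' z' ν') :
    Co x y W2 W4 s (e' * e'') (z + z') (ν + ν' + z * σ z') := by
  obtain ⟨h4, a, e, he, r⟩ := h
  obtain ⟨h4', a', e1, he1, r'⟩ := h'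
  refine ⟨mul_mem h4 h4', by rw [H.s4_mul h4 h4', a, a'], e * e1, mul_mem he he1, ?_⟩
  rw [H.cm_right h4 he1 r r', H.V.l3 1 e'' h4' e1 he1 ν' r', a, a', one_mul, mul_comm z]

theorem co_x4 (u : F) : Co x y W2 W4 s (x 4 u) 0 (j u) :=
  ⟨H.x4W u, by rw [H.n14, H.s_x2], x 2 (1 * u), H.x2W _, by
    rw [H.y1_x4 1 (n := 1) (by simp), map_one, one_mul (j u)]⟩

theorem co_uniq {e' e'' : G} {z ν : A} (h : Co x y W2 W4 s e' z ν)
    (h' : Co x y W2 W4 s e'' z ν) : e' = e'' := by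
  have h4 : e'⁻¹ * e'' ∈ W4 := mul_mem (inv_mem h.1) h'.1
  have e1 := H.s4_mul h.1 h4
  rw [mul_inv_cancel_left, h.2.1, h'.2.1, left_eq_add, H.V.ker _ ((H.T.l3.sw _).1 h4),
    H.c.kp.memX] at e1
  obtain ⟨u, hu⟩ := e1
  have e2 : e'' = e' * x 4 u := by
    rw [← H.n14, mul_left_inj, mul_right_inj] at hu
    rw [← hu, mul_inv_cancel_left]
  have e3 := (H.co_fun (H.co_mul h (H.co_x4 u)) (e2 ▸ h')).2
  rw [map_zero, mul_zero, add_zero, add_eq_left, ← map_zero j] at e3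
  rw [e2, H.j_inj e3, f_zero (H.c.mod.pin.add 4), mul_one]

theorem hz_diff {z ν ν' : A} (h : Hz σ z ν) (h' : Hz σ z ν') : ∃ u, ν' = ν + j u := by
  obtain ⟨u, hu⟩ := H.exj (a := ν + ν') (by
    rw [map_add]
    unfold Hz at h h'
    linear_combination h + h' + (z * σ z - ν - ν') * H.two)
  exact ⟨u, by linear_combination -hu - ν * H.two⟩

theorem co_surj0 (z : A) : ∃ e' ν, Co x y W2 W4 s e' z ν := by
  obtain ⟨e, he, hs⟩ := H.V.surj z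
  have h4 : n2 x 1 * e * (n2 x 1)⁻¹ ∈ W4 := (H.T.l3.sw _).2 (by rwa [nn_cancel H.c])
  obtain ⟨z', ν, h⟩ := H.co_ex h4
  have : z' = z := by rw [← h.2.1, nn_cancel H.c, hs]
  exact ⟨_, ν, this ▸ h⟩

theorem co_surj {z ν : A} (h : Hz σ z ν) : ∃ e', Co x y W2 W4 s e' z ν := by
  obtain ⟨e', ν', h'⟩ := H.co_surj0 z
  obtain ⟨u, rfl⟩ := H.hz_diff (H.co_hz h') h
  have := H.co_mul h' (H.co_x4 u)
  rw [map_zero, mul_zero, add_zero, add_zero] at this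
  exact ⟨_, this⟩

/-- The coordinates of `e x₂(n)`, read in `W_4`. -/
theorem co_two {e e1 : G} {z ν z' ν' : A} (h : Co x y W2 W4 s (n2 x 1 * e * (n2 x 1)⁻¹) z ν)
    (h' : Co x y W2 W4 s (n2 x 1 * e1 * (n2 x 1)⁻¹) z' ν') (n : F) :
    Co x y W2 W4 s (n2 x 1 * (e * e1 * x 2 n) * (n2 x 1)⁻¹) (z + z') (ν + ν' + z * σ z' + j n) := by
  have := H.co_mul (H.co_mul h h') (H.co_x4 n)
  rw [add_zero, map_zero, mul_zero, add_zero] at this
  have e2 : x 4 n = n2 x 1 * x 2 n * (n2 x 1)⁻¹ := (H.c.kp.nn 1 2 n).symm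
  rwa [e2, show n2 x 1 * e * (n2 x 1)⁻¹ * (n2 x 1 * e1 * (n2 x 1)⁻¹) *
    (n2 x 1 * x 2 n * (n2 x 1)⁻¹) = n2 x 1 * (e * e1 * x 2 n) * (n2 x 1)⁻¹ by group] at this

theorem co_ex2 {e : G} (he : e ∈ W2) :
    ∃ ν, Co x y W2 W4 s (n2 x 1 * e * (n2 x 1)⁻¹) (s e) ν := by
  obtain ⟨z, ν, h⟩ := H.co_ex ((H.T.l3.sw _).2 (by rwa [nn_cancel H.c]) :
    n2 x 1 * e * (n2 x 1)⁻¹ ∈ W4)
  have : z = s e := by rw [← h.2.1, nn_cancel H.c]
  exact ⟨ν, this ▸ h⟩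

/-- The symmetric relation coming from `π π' = π' π`. -/
theorem cm_sym {a a' b b' : A} {e' e e1 : G} (he : e ∈ W2) (he1 : e1 ∈ W2)
    (r : ⁅y 1 a, e'⁆ = e * y 3 b) (r' : ⁅y 1 a', e'⁆ = e1 * y 3 b') :
    a * b' + σ (a * b') + s e1 * σ (s e) = a' * b + σ (a' * b) + s e * σ (s e1) := by
  obtain ⟨n, hn⟩ := H.exT (a * b')
  obtain ⟨n', hn'⟩ := H.exT (a' * b)
  have e2 := H.cm_left he he1 r r' hn
  rw [add_comm a, H.cm_left he1 he r' r hn', add_comm b, mul_left_inj] at e2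
  obtain ⟨ν, h⟩ := H.co_ex2 he
  obtain ⟨ν', h'⟩ := H.co_ex2 he1
  have := (H.co_fun (H.co_two h h' n') (e2 ▸ H.co_two h' h n)).2
  rw [hn, hn'] at this
  linear_combination -this

theorem beta {a b z ν : A} {e' e : G} (h : Co x y W2 W4 s e' z ν) (he : e ∈ W2)
    (r : ⁅y 1 a, e'⁆ = e * y 3 b) : b = σ a * ν := by
  have hz : ν + σ ν = z * σ z := H.co_hz h
  obtain ⟨h4, hs, e0, he0, r0⟩ := h
  obtain ⟨ω, hω⟩ := H.T.ds.quad.tr
  obtain ⟨e1, he1, b1, r1⟩ := H.B.l3 ω e' h4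
  have s0 := H.V.l3 _ e' h4 _ he0 _ r0
  have s1 := H.V.l3 _ e' h4 _ he1 _ r1
  have sa := H.V.l3 _ e' h4 _ he _ r
  rw [hs] at s0 s1 sa
  have key : ∀ δ : A, δ + σ δ = 0 → ω * δ + σ (ω * δ) = 0 → δ = 0 := fun δ h1 h2 => by
    rw [map_mul, hω] at h2
    linear_combination h1 - h2 + ω * h1
  have q1 := H.cm_sym he0 he1 r0 r1
  have q2 := H.cm_sq he1 r1
  have q3 := H.cm_sym he0 he r0 r
  have q4 := H.cm_sym he1 he r1 r
  simp only [s0, s1, sa, map_mul, map_one, one_mul] at q1 q2 q3 q4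
  have k1 : b1 + σ ω * ν = 0 := key _ (by
      simp only [map_add, map_mul, H.σσ]
      linear_combination q1 + (ω + σ ω) * hz + (σ ω * z * σ z) * H.two) (by
      simp only [map_add, map_mul, H.σσ]
      linear_combination q2 + (ω * σ ω) * hz + (ω * σ ω * z * σ z) * H.two)
  have k2 : b1 = σ ω * ν := by linear_combination k1 - (σ ω * ν) * H.two
  subst k2
  simp only [map_mul, H.σσ] at q4
  have k3 : b + σ a * ν = 0 := key _ (by
      simp only [map_add, map_mul, H.σσ]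
      linear_combination q3 + (a + σ a) * hz + (σ a * z * σ z) * H.two) (by
      simp only [map_add, map_mul, H.σσ]
      linear_combination q4 + (a * σ ω + σ a * ω) * hz + (ω * σ a * z * σ z) * H.two)
  linear_combination k3 - (σ a * ν) * H.two

theorem memT {e : G} : e ∈ W4 ↔ e ∈ TldS L x t 4 := by
  rw [H.T.l3.sw, H.hW]
  refine ⟨fun h => ?_, H.c.kb.tldN 1 4 e⟩
  have := H.c.kb.tldN 1 2 _ h
  rwa [nn_cancel H.c] at this

theorem conj_W2 {h e : G} (hh : h ∈ HH x L) (he : e ∈ W2) : h * e * h⁻¹ ∈ W2 :=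
  (H.hW _).2 (H.c.kb.tldH h hh 2 e ((H.hW e).1 he))

theorem t_W2 {e : G} (he : e ∈ W2) : t * e * t⁻¹ ∈ W2 := by
  rw [H.T.l3.two] at he ⊢
  refine ⟨(mem_normalizer_iff.1 H.T.l2.nR.1 e).1 he.1, fun g hg => ?_⟩
  have c1 : Commute t g := H.c.kb.tL g hg.1.1
  have c2 : Commute e g := (he.2 g hg).symm
  exact ((c1.mul_left c2).mul_left c1.inv_left).symm

theorem co_t {e' : G} {z ν : A} (h : Co x y W2 W4 s e' z ν) :
    Co x y W2 W4 s (t * e' * t⁻¹) (σ z) (σ ν) := by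
  obtain ⟨h4, hs, e, he, r⟩ := h
  have c : Commute t (n2 x 1) := H.c.kb.tL _ (H.c.kb.nL 1)
  have e1 : n2 x 1 * (t * e' * t⁻¹) * (n2 x 1)⁻¹ = t * (n2 x 1 * e' * (n2 x 1)⁻¹) * t⁻¹ := by
    calc _ = (n2 x 1 * t) * e' * (n2 x 1 * t)⁻¹ := by group
      _ = _ := by rw [← c.eq]; group
  have h2 := (H.T.l3.sw _).1 h4
  refine ⟨(H.T.l3.sw _).2 (e1 ▸ H.t_W2 h2), by rw [e1, H.V.conj _ h2, hs], _, H.t_W2 he, ?_⟩
  have e2 := H.T.ds.conj 1 (by decide) 1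
  rw [map_one] at e2
  rw [← e2, cm_conj, r, ← H.T.ds.conj 3 (by decide)]
  group

theorem co_tor {h : G} (hL : h ∈ L) {α β : Fˣ} (hT : Tor x h α β) {r : F} (hr : r ^ 2 = β)
    {e' : G} {z ν : A} (hc : Co x y W2 W4 s e' z ν) :
    Co x y W2 W4 s (h * e' * h⁻¹) (j r * z) (j (r ^ 2) * ν) := by
  have hH := H.c.kb.torH h hL α β hT
  obtain ⟨α', β', hL', hT', hw⟩ := torN H.c hL hT 1
  have h2 := (H.T.l3.sw _).1 hc.1
  refine ⟨H.memT.2 (H.c.kb.tldH h hH 4 _ (H.memT.1 hc.1)), ?_, ?_⟩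
  · rw [← hc.2.1, ← H.V.tor _ hL' α' β' hT' r (hr.trans (congrArg Units.val (hw 4)).symm) _ h2]
    congr 1
    group
  · obtain ⟨e, he, b, r1⟩ := H.B.l3 (j (α⁻¹ : Fˣ)) e' hc.1
    have e1 := H.T.ds.tor h hL α β hT 1 (by decide) (j (α⁻¹ : Fˣ))
    have e3 := H.T.ds.tor h hL α β hT 3 (by decide) b
    rw [show wt α β 1 = α from rfl, ← map_mul, Units.mul_inv, map_one] at e1
    rw [show wt α β 3 = α * β from rfl, H.beta hc he r1, H.σj, ← mul_assoc, ← map_mul,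
      Units.val_mul, mul_right_comm, Units.mul_inv, one_mul, ← hr] at e3
    refine ⟨_, H.conj_W2 hH he, ?_⟩
    rw [← e1, cm_conj, r1, ← e3, H.beta hc he r1, H.σj]
    group

theorem n2_W4 {e' : G} (h : e' ∈ W4) : n2 x 2 * e' * (n2 x 2)⁻¹ = e' := by
  have k : (x 6 1 : G) ∈ KK x (4 + 2) := mem_sup_left ((H.c.kp.memX _ _).2 ⟨1, rfl⟩)
  have k' : (x 2 1 : G) ∈ KK x (4 + 2) := mem_sup_right ((H.c.kp.memX _ _).2 ⟨1, rfl⟩)
  have : n2 x 2 ∈ KK x (4 + 2) := mul_mem (mul_mem k' k) k'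
  rw [(H.memT.1 h).2.1 _ this, mul_inv_cancel_right]

end Hy

/-- Half of a long index. -/
def kk (i : ZMod 8) : ZMod 8 := (i.val / 2 : ℕ)

theorem kk1 : ∀ i : ZMod 8, ¬ sh i → 2 * kk i + 4 - i = 4 ∧ 2 * kk i + 4 - 4 = i := by decide

theorem kk2 : ∀ k i : ZMod 8, ¬ sh i →
    2 * k - 2 * kk i = 2 * kk (2 * k + 4 - i) - 2 * 2 := by decide

variable (x y W2 W4 s) in
/-- The element of `W_4` with given coordinates. -/
noncomputable def E4 (z ν : A) : G := Classical.epsilon fun e' => Co x y W2 W4 s e' z ν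

variable (x y W2 W4 s) in
/-- The elements over all long roots. -/
noncomputable def EE (i : ZMod 8) (z ν : A) : G :=
  n2 x (kk i) * E4 x y W2 W4 s z ν * (n2 x (kk i))⁻¹

namespace Hy

variable (H : Hy L x t j σ y Yh S P R W2 W4 s)
include H

theorem co_E {z ν : A} (h : Hz σ z ν) : Co x y W2 W4 s (E4 x y W2 W4 s z ν) z ν :=
  Classical.epsilon_spec (H.co_surj h)

theorem E_eq {e' : G} {z ν : A} (h : Co x y W2 W4 s e' z ν) : E4 x y W2 W4 s z ν = e' :=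
  H.co_uniq (H.co_E (H.co_hz h)) h

theorem EE4 {z ν : A} (h : Hz σ z ν) : EE x y W2 W4 s 4 z ν = E4 x y W2 W4 s z ν :=
  H.n2_W4 (H.co_E h).1

theorem EE2 {e : G} {z ν : A} (h : Co x y W2 W4 s (n2 x 1 * e * (n2 x 1)⁻¹) z ν) :
    EE x y W2 W4 s 2 z ν = e := by
  change n2 x 1 * E4 x y W2 W4 s z ν * (n2 x 1)⁻¹ = e
  rw [H.E_eq h, nn_cancel H.c]

/-- The defect. -/
theorem exf (a z : A) : ∃ f : F, ∀ e' ν, Co x y W2 W4 s e' z ν → ∃ e ∈ W2,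
    ⁅y 1 a, e'⁆ = e * y 3 (σ a * ν) ∧
      Co x y W2 W4 s (n2 x 1 * e * (n2 x 1)⁻¹) (a * z) (a * σ a * ν + j f) := by
  obtain ⟨e0, ν0, h0⟩ := H.co_surj0 z
  obtain ⟨e, he, b, r⟩ := H.B.l3 a e0 h0.1
  obtain ⟨μ, hμ⟩ := H.co_ex2 he
  rw [H.V.l3 a e0 h0.1 e he b r, h0.2.1] at hμ
  obtain ⟨f, rfl⟩ := H.hz_diff (z := a * z) (ν := a * σ a * ν0) (by
    have := H.co_hz h0
    unfold Hz at this ⊢
    simp only [map_mul, H.σσ]
    linear_combination (a * σ a) * this) (H.co_hz hμ)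
  refine ⟨f, fun e' ν h => ?_⟩
  obtain ⟨u, rfl⟩ := H.hz_diff (H.co_hz h0) (H.co_hz h)
  have h1 := H.co_mul h0 (H.co_x4 u)
  rw [map_zero, mul_zero, add_zero, add_zero] at h1
  obtain rfl := H.co_uniq h1 h
  obtain ⟨n, hn⟩ := H.exN a
  have r1 := H.cm_right h0.1 (H.x2W _) r (H.y1_x4 a hn u)
  refine ⟨_, mul_mem he (H.x2W (n * u)), ?_, ?_⟩
  · rw [r1, ← H.beta h (mul_mem he (H.x2W _)) r1]
  · have h2 := H.co_mul hμ (H.co_x4 (n * u))
    have e2 : x 4 (n * u) = n2 x 1 * x 2 (n * u) * (n2 x 1)⁻¹ := (H.c.kp.nn 1 2 _).symm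
    rw [e2, map_zero, mul_zero, add_zero, add_zero, map_mul, hn] at h2
    convert h2 using 1
    · group
    · ring

theorem dbl : ∃ f, DblF L x t j σ y (EE x y W2 W4 s) f := by
  choose f hf using H.exf
  have hC := H.c
  have cj : ∀ (n a b : G), n * a * n⁻¹ * (n * b * n⁻¹) = n * (a * b) * n⁻¹ := fun _ _ _ => by group
  have fadd : ∀ a a' z, f (a + a') z = f a z + f a' z := by
    intro a a' z
    obtain ⟨e', ν, h⟩ := H.co_surj0 z
    have hz : ν + σ ν = z * σ z := H.co_hz h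
    obtain ⟨e, he, r, c⟩ := hf a z e' ν h
    obtain ⟨e1, he1, r1, c1⟩ := hf a' z e' ν h
    obtain ⟨e2, he2, r2, c2⟩ := hf (a + a') z e' ν h
    obtain ⟨n, hn⟩ := H.exT (a * (σ a' * ν))
    obtain ⟨rfl, -⟩ := H.uniq he2 (mul_mem (mul_mem he1 he) (H.x2W n))
      (r2.symm.trans (H.cm_left he he1 r r1 hn))
    have := (H.co_fun c2 (H.co_two c1 c n)).2
    refine H.j_inj ?_
    rw [hn] at this
    simp only [map_add, map_mul, H.σσ] at this ⊢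
    linear_combination this - (a' * σ a) * hz + (a' * σ a * σ ν) * H.two
  refine ⟨f, fun i hi p => ?_, fun k hk kt ko p hp => ?_, fun i _ z ν z' ν' h h' => ?_,
    fun i _ z ν h e => ?_, fun i hi u => ?_, fun i _ z ν h => ?_, fun z ν z' ν' h h' => ?_,
    fun a z ν h => ?_, fadd, fun u a z => ?_, fun k i hi z ν h => ?_,
    fun h hL α β hT i hi r hr z ν hz => ?_⟩
  · constructor
    · intro hp
      have h1 := hC.kb.tldN (kk i) i p hp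
      rw [(kk1 i hi).1] at h1
      obtain ⟨z, ν, h⟩ := H.co_ex (H.memT.2 h1)
      exact ⟨z, ν, H.co_hz h, by rw [EE, H.E_eq h, nn_cancel hC]⟩
    · rintro ⟨z, ν, h, rfl⟩
      have h1 := hC.kb.tldN (kk i) 4 _ (H.memT.1 (H.co_E h).1)
      rwa [(kk1 i hi).2] at h1
  · exact ((H.T.l2.mem p).1 (H.W2R ((H.hW p).2 hp))).2.2.1 k hk kt ko p rfl
  · rw [EE, EE, EE, cj, H.E_eq (H.co_mul (H.co_E h) (H.co_E h'))]
  · have e1 : E4 x y W2 W4 s z ν = x 4 0 := by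
      rw [f_zero (hC.mod.pin.add 4), ← nn_cancel hC (kk i) (E4 x y W2 W4 s z ν)]
      change n2 x (kk i) * EE x y W2 W4 s i z ν * _ = 1
      rw [e, mul_one, mul_inv_cancel]
    have := H.co_fun (H.co_E h) (e1 ▸ H.co_x4 0)
    rwa [map_zero] at this
  · rw [EE, H.E_eq (H.co_x4 u), hC.kp.nn, (kk1 i hi).2]
  · have c : Commute t (n2 x (kk i)) := hC.kb.tL _ (hC.kb.nL _)
    rw [EE, EE, H.E_eq (H.co_t (H.co_E h))]
    calc _ = (t * n2 x (kk i)) * E4 x y W2 W4 s z ν * (t * n2 x (kk i))⁻¹ := by group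
      _ = _ := by rw [c.eq]; group
  · have c := H.co_E h
    have c' := H.co_E h'
    rw [H.EE4 h']
    change ⁅n2 x 1 * E4 x y W2 W4 s z ν * (n2 x 1)⁻¹, _⁆ = _
    rw [H.V.l2 _ ((H.T.l3.sw _).1 c.1) _ c'.1, c.2.1, c'.2.1]
  · obtain ⟨e, he, r, c⟩ := hf a z _ ν (H.co_E h)
    rw [H.EE4 h, H.EE2 c, r]
  · by_cases hu : u = 0
    · have := fadd 0 0 z
      rw [add_zero, left_eq_add] at this
      rw [hu, map_zero, zero_mul, this]
      ring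
    obtain ⟨h, hH, hT⟩ := hC.kp.tor (Units.mk0 u hu) 1
    obtain ⟨e', ν, hc⟩ := H.co_surj0 z
    obtain ⟨e, he, r, c⟩ := hf a z e' ν hc
    obtain ⟨e1, he1, r1, c1⟩ := hf (j u * a) z e' ν hc
    have h4 : h * e' * h⁻¹ = e' := by
      have := (H.T.l3.four ▸ hc.1 :).2 h ((hC.kb.memT 4 h).2 ⟨hH.1, _, _, hT, rfl⟩)
      rw [this, mul_inv_cancel_right]
    have y1 := H.T.ds.tor h hH.1 _ _ hT 1 (by decide) a
    have y3 := H.T.ds.tor h hH.1 _ _ hT 3 (by decide) (σ a * ν)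
    rw [show wt (Units.mk0 u hu) 1 1 = Units.mk0 u hu from rfl, Units.val_mk0] at y1
    have r2 : ⁅y 1 (j u * a), e'⁆ = h * e * h⁻¹ * (h * y 3 (σ a * ν) * h⁻¹) := by
      rw [← y1, cj, ← r, ← cm_conj, h4]
    rw [y3] at r2
    obtain ⟨rfl, -⟩ := H.uniq he1 (H.conj_W2 hH he) (r1.symm.trans r2)
    obtain ⟨α', β', hL', hT', hw⟩ := torN hC hH.1 hT 1
    have c2 := H.co_tor hL' hT' (r := u) (by
      have := congrArg Units.val (hw 2)
      rw [show wt α' β' (2 * 1 + 4 - 2) = β' from rfl] at this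
      rw [this, show wt (Units.mk0 u hu) 1 2 = Units.mk0 u hu ^ 2 * 1 from rfl]
      simp) c
    rw [show n2 x 1 * h * (n2 x 1)⁻¹ * (n2 x 1 * e * (n2 x 1)⁻¹) * (n2 x 1 * h * (n2 x 1)⁻¹)⁻¹ =
      n2 x 1 * (h * e * h⁻¹) * (n2 x 1)⁻¹ by group] at c2
    have := (H.co_fun c1 c2).2
    refine H.j_inj ?_
    simp only [map_mul, map_pow, H.σj] at this ⊢
    linear_combination this
  · rw [EE, EE]
    calc _ = (n2 x k * n2 x (kk i)) * E4 x y W2 W4 s z ν * (n2 x k * n2 x (kk i))⁻¹ := by group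
      _ = n2 x (kk (2 * k + 4 - i)) * (n2 x 2 * E4 x y W2 W4 s z ν * (n2 x 2)⁻¹) *
          (n2 x (kk (2 * k + 4 - i)))⁻¹ := by rw [n_rot hC (kk2 k i hi)]; group
      _ = _ := by rw [H.n2_W4 (H.co_E h).1]
  · obtain ⟨α', β', hL', hT', hw⟩ := torN hC hL hT (kk i)
    have hw' := congrArg Units.val (hw i)
    rw [(kk1 i hi).1, ← hr] at hw'
    rw [EE, EE, H.E_eq (H.co_tor hL' hT' hw'.symm (H.co_E hz))]
    conv_lhs => rw [← nn_cancel hC (kk i) h]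
    group

end Hy

/-- **LV4B** -/
theorem lv4b : Lv4bStmt.{u, v} := by
  intro F _ _ G _ _ L x t hC A _ j σ y Yh S P R W2 W4 s T B hW V
  exact ⟨_, Hy.dbl ⟨hC, T, B, hW, V⟩⟩

end Cfsg.Agent.H64.S4L
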