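import Cfsg.Agent.H64.S4Lv4b

/-!
# Standard subgroups of type `Sp₄(q)`, type II: the long component of the commutator
-/

set_option autoImplicit false

namespace Cfsg.Agent.H64.S4L

open Cfsg Cfsg.Agent.H63 Cfsg.Agent.H63.SL Cfsg.Agent.H35.S4 Subgroup
open scoped commutatorElement

universe u v

variable {F : Type v} [Field F] {G : Type u} [Group G] {A : Type v} [CommRing A]
  {L : Subgroup G} {x : ZMod 8 → F → G} {t : G} {j : F →+* A} {σ : A ≃+* A}
  {y : ZMod 8 → A → G} {m : A → A → A}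

theorem m_eq (hC : Ctx L x t) (h : Pre2 L x t j σ y m)
    (hm : ∀ a b b', b * b' = 1 → m a b = m (a * b) b') (a b : A) : m a b = a ^ 2 * b := by
  have two := h.quad.two
  have twoF := hC.mod.pin.two
  obtain ⟨ω, hω⟩ := h.quad.tr
  have σj : ∀ u, σ (j u) = j u := fun u => (h.quad.fix _).2 ⟨u, rfl⟩
  obtain ⟨n, hn⟩ := (h.quad.fix (ω * σ ω)).1 (by rw [map_mul, h.quad.sq, mul_comm])
  rw [hω] at hn
  have bas : ∀ a : A, ∃ u w, a = j u * 1 + j w * ω := by
    intro a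
    obtain ⟨w, hw⟩ := (h.quad.fix (a + σ a)).1 (by rw [map_add, h.quad.sq, add_comm])
    obtain ⟨u, hu⟩ := (h.quad.fix (a + j w * ω)).1 (by
      rw [map_add, map_mul, σj, hω]
      linear_combination hw + (j w - a) * two)
    exact ⟨u, w, by linear_combination hu - (j w * ω) * two⟩
  have sc1 : ∀ u a b, m (j u * a) b = j u ^ 2 * m a b := fun u a b => by
    have := h.msc u 1 a b
    rwa [map_one, one_mul, mul_one, map_pow] at this
  have sc2 : ∀ w a b, m a (j w * b) = j w * m a b := fun w a b => by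
    have := h.msc 1 w a b
    rwa [map_one, one_mul, one_pow, one_mul] at this
  have key : ∀ c : F, n + c + c ^ 2 ≠ 0 → m ω (ω + j c) = ω ^ 2 * (ω + j c) := by
    intro c hc
    set N := n + c + c ^ 2 with hN
    have e0 : j N⁻¹ * j N = 1 := by rw [← map_mul, inv_mul_cancel₀ hc, map_one]
    have e1 : (ω + 1 + j c) * (ω + j c) = j N := by
      rw [hN, map_add, map_add, map_pow]
      linear_combination hn + (ω * j c) * two
    have e2 := hm 1 (j (N⁻¹ * (1 + c)) * 1 + j N⁻¹ * ω) (ω + j c) (by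
      rw [map_mul, map_add, map_one]
      linear_combination j N⁻¹ * e1 + e0)
    rw [h.mone, one_mul, h.madd, sc1, sc1, h.mone, map_mul, map_add, map_one] at e2
    have e3 : j N ^ 2 * (j N⁻¹ * (1 + j c) * 1 + j N⁻¹ * ω) =
        (1 + j c) ^ 2 * (ω + j c) + m ω (ω + j c) := by
      rw [e2]
      linear_combination ((1 + j c) ^ 2 * (ω + j c) + m ω (ω + j c)) * (j N⁻¹ * j N + 1) * e0
    linear_combination -e3 + (j N * (1 + j c + ω)) * e0 - (1 + j c + ω) * e1 +
      ((ω + j c) * ω * (1 + j c)) * two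
  obtain ⟨c, hc⟩ : ∃ c : F, n + c + c ^ 2 ≠ 0 := by
    by_contra hne
    push Not at hne
    obtain ⟨γ, h1, -⟩ := hC.kb.ne1
    have e1 := hne 0
    have e2 := hne γ
    refine h1 (Units.ext (mul_left_cancel₀ γ.ne_zero ?_))
    rw [Units.val_one]
    linear_combination e2 - e1 - (γ : F) * twoF
  have k1 := key c hc
  have k2 := key (c + 1) (by
    intro e
    exact hc (by linear_combination e - (c + 1) * twoF))
  rw [map_add, map_one, ← add_assoc, h.madd', k1] at k2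
  have k3 : m ω 1 = ω ^ 2 := by linear_combination k2
  rw [h.madd', ← mul_one (j c), sc2, k3] at k1
  have k4 : m ω ω = ω ^ 2 * ω := by linear_combination k1
  obtain ⟨u, w, rfl⟩ := bas a
  obtain ⟨u', w', rfl⟩ := bas b
  rw [h.madd, sc1, sc1, h.mone, h.madd', sc2, sc2, k3, k4]
  linear_combination (-(j u * j w * ω * (j u' + j w' * ω))) * two

theorem idx1 : ∀ i : ZMod 8, ¬ sh i → ∃ k, 2 * k + 4 - 1 = i + 3 ∧ 2 * k + 4 - 4 = i ∧
    2 * k + 4 - 2 = i + 2 ∧ 2 * k + 4 - 3 = i + 1 := by decide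

theorem idx2 : ∀ i : ZMod 8, sh i → ∃ k, 2 * k + 4 - 0 = i + 3 ∧ 2 * k + 4 - (0 + 3) = i ∧
    2 * k + 4 - (0 + 1) = i + 2 ∧ 2 * k + 4 - (0 + 2) = i + 1 := by decide

theorem transport (h : Pre2 L x t j σ y m) (k : ZMod 8) {i1 i2 i3 i4 : ZMod 8} {a b c d : A}
    (e : ⁅y i1 a, y i2 b⁆ = y i3 c * y i4 d) :
    ⁅y (2 * k + 4 - i2) b, y (2 * k + 4 - i1) a⁆ = y (2 * k + 4 - i4) d * y (2 * k + 4 - i3) c := by
  rw [← commutatorElement_inv, ← h.wey, ← h.wey, cm_conj, e, ← f_inv h.quad.two (h.add _) d,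
    ← f_inv h.quad.two (h.add (2 * k + 4 - i3)) c, ← h.wey, ← h.wey]
  group

/-- **MON2** -/
theorem mon2 : Mon2Stmt.{u, v} := by
  intro F _ _ G _ _ L x t hC A _ j σ y m h hm
  have rl : ∀ i, ¬ sh i → ∀ a b,
      ⁅y i a, y (i + 3) b⁆ = y (i + 1) (a * b) * y (i + 2) (a * b ^ 2) := by
    intro i hi a b
    obtain ⟨k, e1, e2, e3, e4⟩ := idx1 i hi
    have := transport h k (h.rs b a)
    rwa [e1, e2, e3, e4, m_eq hC h hm, mul_comm b, mul_comm (b ^ 2)] at this
  refine ⟨h.quad, ⟨h.quad.two, h.add, h.inj, h.c1, h.c2, fun i hi a b => ?_, rl⟩, h.res, h.conj,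
    h.hat, h.odd⟩
  obtain ⟨k, e1, e2, e3, e4⟩ := idx2 i hi
  have := transport h k (rl 0 (by decide) b a)
  rwa [e1, e2, e3, e4, mul_comm b, mul_comm b] at this

end Cfsg.Agent.H64.S4L
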