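import Mathlib
import Cfsg.Agent.H42.FvDefs

/-! The stabiliser of the filtration contains the torus and the root groups of nonnegative weight;
the action of the monomial group on the filtrations. -/

set_option autoImplicit false

namespace Cfsg.Agent.H64.FvPst

open Equiv Cfsg.Lie H37 H40 H34 H29 Module H50.E83 H42.Fv
open scoped Matrix

theorem xg_fwd (ent : EntStmt) (ad : AddRStmt) {l : Rt → ℝ} (hl : AddR l) {r : Rt} (hr : 0 ≤ l r)
    (t : K) (m : ℝ) (v : V) (hv : Vge l m v) : Vge l m (act (C8.xg K r t) v) := by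
  obtain ⟨cf, hcf, he⟩ := ent
  obtain ⟨hadd, hneg, -⟩ := ad l hl
  obtain ⟨h1, h2⟩ := he K r t v
  have e : act (C8.xg K r t) v = xR K r t *ᵥ v := by
    rw [act_eq_ac, ac, xg_eq]
  have hn : 0 < m → v (Sum.inr (C8.R.neg r)) = 0 := fun hm =>
    hv.2 _ (by rw [hneg]; linarith)
  rw [e]
  refine ⟨fun hm i => ?_, fun s hs => ?_⟩
  · rw [h1 i, hv.1 hm i, hn hm, mul_zero, zero_mul, add_zero]
  · rw [h2 s, hv.2 s hs, zero_add]
    have a1 : (if s = r then -(al r v * t) - t ^ 2 * v (Sum.inr (C8.R.neg r)) else 0) = 0 := by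
      split_ifs with h
      · have hm : 0 < m := lt_of_le_of_lt hr (h ▸ hs)
        have : al r v = 0 := Finset.sum_eq_zero fun i _ => by rw [hv.1 hm i, zero_mul]
        rw [this, hn hm, zero_mul, mul_zero, neg_zero, sub_zero]
      · rfl
    rw [a1, zero_add]
    refine Finset.sum_eq_zero fun s' _ => ?_
    by_cases h : cf r s' s = 0
    · rw [h, Int.cast_zero, zero_mul, zero_mul]
    · have := hadd _ _ _ (hcf r s' s h)
      rw [hv.2 s' (by linarith), mul_zero]

theorem pst (ent : EntStmt) (tact : TactStmt) (ad : AddRStmt) : PstStmt := by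
  intro l hl
  refine ⟨fun h hh => ?_, Split.U_le fun r hr x hx => ?_⟩
  · obtain ⟨c, hc⟩ := tact K h hh
    refine mem_Pst.2 fun m v => ?_
    obtain ⟨h1, h2⟩ := hc v
    rw [act_eq_ac]
    refine and_congr (imp_congr_right fun _ => forall_congr' fun i => by rw [h1 i])
      (forall_congr' fun r => imp_congr_right fun _ => ?_)
    rw [h2 r, Units.mul_right_eq_zero]
  · obtain ⟨t, rfl⟩ := Cert.mem_X.1 hx
    refine mem_Pst.2 fun m v => ⟨fun h => ?_, xg_fwd ent ad hl hr t m v⟩
    have := xg_fwd ent ad hl hr (-t) m _ h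
    rwa [Cert.xg_neg, act_inv_act] at this

theorem cp_eq_zero {v : V} : cp v = 0 ↔ ∀ i, v (Sum.inl i) = 0 := by
  refine ⟨fun h i => congrFun h (Sum.inl i), fun h => funext fun j => ?_⟩
  rcases j with i | r
  · exact h i
  · rfl

theorem nvg (na : Nact2Stmt) : NvgStmt := by
  intro l n hn m v
  obtain ⟨c, hc⟩ := na n hn
  obtain ⟨h1, -, h3⟩ := hc v
  refine and_congr (imp_congr_right fun _ => ?_) ⟨fun h r hr => ?_, fun h s hs => ?_⟩
  · rw [← cp_eq_zero, ← cp_eq_zero, h3]
    refine ⟨fun h => ?_, fun h => by rw [h, map_zero]⟩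
    rw [← act_inv_act n (cp v), h, map_zero]
  · have := h _ hr
    rwa [h1 r, Units.mul_right_eq_zero] at this
  · obtain ⟨r, rfl⟩ := (P8.ν n).surjective s
    rw [h1 r, h r hs, mul_zero]

end Cfsg.Agent.H64.FvPst
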