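import Cfsg.Agent.H53.DgDefs

/-!
Project DG, piece PERP: the Mackey sum of an orthogonal double coset vanishes for the
permutation character on points.
-/

set_option autoImplicit false

namespace Cfsg.Agent.H64.DgPerp

open Module Cfsg.Agent.H26 Cfsg.Agent.H26.PForm Cfsg.Agent.H53.Dg
open scoped ComplexConjugate

variable {F V : Type} [Field F] [AddCommGroup V] [Module F V] {P : PForm F V}

/-- The torus of a hyperbolic pair. -/
theorem exists_tor [FiniteDimensional F V] (hσ : ∀ a, P.σ a = a) {e f : V} (he : P.Sing e)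
    (hf : P.Sing f) (hfe : P.f f e = 1) {t : F} (ht : t ≠ 0) :
    ∃ τ ∈ P.isom, ∀ v, τ v = v + ((t - 1) * P.ε * P.f v f) • e + ((t⁻¹ - 1) * P.f v e) • f := by
  let L : V →ₗ[F] V := LinearMap.id + (((t - 1) * P.ε) • P.fL f).smulRight e +
    ((t⁻¹ - 1) • P.fL e).smulRight f
  have hL : ∀ v, L v = v + ((t - 1) * P.ε * P.f v f) • e + ((t⁻¹ - 1) * P.f v e) • f := by
    intro v
    simp [L, fL_apply]
  have hef : P.f e f = P.ε := f_symm_one hfe
  have hti : t * t⁻¹ = 1 := mul_inv_cancel₀ ht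
  have hiso : ∀ v u, P.f (L v) (L u) = P.f v u := by
    intro v u
    simp only [hL, P.f_add_left, P.f_smul_left, f_add_right, f_smul_right, hσ, he.f_self,
      hf.f_self, hfe, hef]
    rw [P.herm u e, P.herm u f, hσ, hσ]
    generalize t⁻¹ = s at hti
    rcases P.ε_cases with hε | hε <;> rw [hε]
    · linear_combination (P.f v f * P.f u e + P.f v e * P.f u f) * hti
    · linear_combination (P.f v f * P.f u e - P.f v e * P.f u f) * hti
  have hinj : Function.Injective L := by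
    rw [injective_iff_map_eq_zero]
    intro v hv
    exact eq_zero_of_f_left (P := P) fun u => by rw [← hiso, hv, f_zero_left]
  refine ⟨LinearEquiv.ofInjectiveEndo L hinj, ⟨hiso, fun v => ?_⟩, hL⟩
  change P.h (L v) - P.h v ∈ P.Λ
  rw [hL]
  have h1 := h_add_smul_sing hf (v + ((t - 1) * P.ε * P.f v f) • e) ((t⁻¹ - 1) * P.f v e)
  have h2 := h_add_smul_sing he v ((t - 1) * P.ε * P.f v f)
  have h3 := P.Λ_ge ((1 - t) * P.f v e * P.f v f)
  rw [hσ] at h1 h2 h3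
  rw [P.f_add_left, P.f_smul_left, hef] at h1
  have := P.Λ.add_mem (P.Λ.add_mem h1 h2) h3
  convert this using 1
  generalize t⁻¹ = s at hti
  rcases P.ε_cases with hε | hε <;> rw [hε]
  · linear_combination (P.f v e * P.f v f) * hti
  · linear_combination (P.f v e * P.f v f) * hti

theorem ts_f {X : Submodule F V} (hX : TS P X) {a b : V} (ha : a ∈ X) (hb : b ∈ X) :
    P.f a b = 0 := hX.2 ha b hb

theorem ts_map {g : V ≃ₗ[F] V} (hg : Sim P g) {A : Submodule F V} (hA : TS P A) :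
    TS P (mp g A) := by
  refine ⟨?_, ?_⟩
  · rintro _ ⟨a, ha, rfl⟩
    exact hg.2 a (hA.1 a ha)
  · rintro _ ⟨a, ha, rfl⟩ _ ⟨b, hb, rfl⟩
    exact hg.1 a b (ts_f hA ha hb)

theorem ts_sup {B : Submodule F V} (hB : TS P B) {z : V} (hz : P.Sing z) (hzB : z ∈ P.perp B) :
    TS P (B ⊔ F ∙ z) := by
  refine ⟨?_, ?_⟩
  · intro v hv
    obtain ⟨s, hs, c, rfl⟩ := mem_sup_span.1 hv
    exact (hB.1 s hs).add (hz.smul c) (by rw [f_smul_right, f_of_mem_perp' hzB hs, mul_zero])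
  · intro v hv
    obtain ⟨s, hs, c, rfl⟩ := mem_sup_span.1 hv
    refine mem_perp_sup_span.2 ⟨add_mem (hB.2 hs) (Submodule.smul_mem _ _ hzB), ?_⟩
    rw [P.f_add_left, P.f_smul_left, f_of_mem_perp' hzB hs, hz.f_self, mul_zero, add_zero]

theorem top_stab [FiniteDimensional F V] {X A : Submodule F V} {g : V ≃ₗ[F] V} (hg : Top P X g)
    (hXA : X ≤ A) (hA : A ≤ P.perp X) : g ∈ stabSub A := by
  refine mem_stabSub.2 fun v hv => ?_
  have := A.add_mem (hXA (hg v (hA hv))) hv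
  rwa [sub_add_cancel] at this

theorem npt_mul [FiniteDimensional F V] {X : Submodule F V} {g : V ≃ₗ[F] V} (hg : Top P X g)
    (h : V ≃ₗ[F] V) : npt P X (h * g) = npt P X h := by
  unfold npt
  refine Nat.card_congr (Equiv.subtypeEquivRight fun A => ?_)
  refine and_congr_right fun hA => and_congr_right fun hXA => and_congr_right fun _ => ?_
  exact (stabSub A).mul_mem_cancel_right (top_stab hg hXA (hA.2.trans (perp_anti hXA)))

/-- The choice of `Y` and `Z` for VAN. -/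
theorem exists_YZ [FiniteDimensional F V] {X X' B : Submodule F V} (hX : TS P X) (hB : TS P B)
    (hXB : X' ≤ B) (h2 : 2 ≤ finrank F X) (hd : finrank F X' = finrank F X)
    (hdB : finrank F B = finrank F X + 1) (hp : X' ≤ P.perp X) (hi : X ⊓ X' = ⊥) :
    ∃ Y Z : Submodule F V, TS P Y ∧ B ≤ Y ∧ (Z = X ⊓ Y ∨ Z = X ⊓ P.perp Y) ∧ Z ≠ ⊥ ∧ Z ≠ X := by
  by_cases h1 : X ⊓ B = ⊥
  · by_cases h3 : X ≤ P.perp B
    · have hX0 : X ≠ ⊥ := by
        rintro rfl
        simp at h2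
      obtain ⟨z, hz, hz0⟩ := Submodule.exists_mem_ne_zero_of_ne_bot hX0
      have hzX : (F ∙ z) ≤ X := (Submodule.span_singleton_le_iff_mem z X).2 hz
      refine ⟨B ⊔ F ∙ z, F ∙ z, ts_sup hB (hX.1 z hz) (h3 hz), le_sup_left, Or.inl ?_, ?_, ?_⟩
      · rw [inf_comm, sup_comm, sup_inf_assoc_of_le _ hzX, inf_comm B, h1, sup_bot_eq]
      · simpa using hz0
      · intro h
        have := finrank_span_singleton_le (F := F) z
        rw [h] at this
        omega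
    · refine ⟨B, X ⊓ P.perp B, hB, le_rfl, Or.inr rfl, ?_, fun h => h3 (inf_eq_left.1 h)⟩
      intro h0
      have e1 := P.finrank_perp B
      have e2 := P.finrank_perp X'
      have e3 := Submodule.finrank_sup_add_finrank_inf_eq X (P.perp B)
      have e4 : finrank F ↥(X ⊔ P.perp B) ≤ finrank F (P.perp X') :=
        Submodule.finrank_mono (sup_le (le_perp_comm.1 hp) (perp_anti hXB))
      rw [h0, finrank_bot] at e3
      omega
  · refine ⟨B, X ⊓ B, hB, le_rfl, Or.inl rfl, h1, fun h => ?_⟩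
    have e3 := Submodule.finrank_sup_add_finrank_inf_eq X X'
    have e4 : finrank F ↥(X ⊔ X') ≤ finrank F B :=
      Submodule.finrank_mono (sup_le (inf_eq_left.1 h) hXB)
    rw [hi, finrank_bot] at e3
    omega

/-- The choice of the torus element for points. -/
theorem exists_tau [FiniteDimensional F V] (hσ : ∀ a, P.σ a = a) {X X' B : Submodule F V}
    (hX : TS P X) (hB : TS P B) (hXB : X' ≤ B) (h1 : finrank F X = 1) (hp : X' ≤ P.perp X)
    (hi : X ⊓ X' = ⊥) (t : X ≃ₗ[F] X) :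
    ∃ τ ∈ P.isom, Top P X τ ∧ (∀ v ∈ X', τ v = v) ∧ τ ∈ stabSub B ∧ rs X τ = t := by
  obtain ⟨e, he0, he⟩ := finrank_eq_one_iff'.1 h1
  obtain ⟨c, hc⟩ := he (t e)
  have hc0 : c ≠ 0 := by
    rintro rfl
    rw [zero_smul] at hc
    exact he0 (t.injective (by rw [← hc, map_zero]))
  have hes : P.Sing (e : V) := hX.1 _ e.2
  have heX' : (e : V) ∉ X' := fun h => he0 (Subtype.ext (by
    have : (e : V) ∈ X ⊓ X' := ⟨e.2, h⟩
    rwa [hi, Submodule.mem_bot] at this))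
  have hf : ∃ f ∈ P.perp X', P.Sing f ∧ P.f f e = 1 ∧
      ∀ v ∈ B, ∀ a b : F, (a * P.f v f) • (e : V) + (b * P.f v e) • f ∈ B := by
    by_cases h2 : (e : V) ∈ P.perp B
    · by_cases h3 : (e : V) ∈ B
      · obtain ⟨f, hf, hs, h⟩ := hes.exists_partner (le_perp_comm.1 hp e.2) heX'
        refine ⟨f, hf, hs, h, fun v hv a b => ?_⟩
        rw [f_of_mem_perp' h2 hv, mul_zero, zero_smul, add_zero]
        exact B.smul_mem _ h3
      · obtain ⟨f, hf, hs, h⟩ := hes.exists_partner h2 h3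
        refine ⟨f, perp_anti hXB hf, hs, h, fun v hv a b => ?_⟩
        rw [f_of_mem_perp' h2 hv, f_of_mem_perp' hf hv]
        simp
    · rw [mem_perp'] at h2
      push Not at h2
      obtain ⟨w, hw, hwe⟩ := h2
      have hm : (P.f w e)⁻¹ • w ∈ B := B.smul_mem _ hw
      refine ⟨_, perp_anti hXB (hB.2 hm), hB.1 _ hm, f_smul_inv_left hwe, fun v hv a b => ?_⟩
      rw [ts_f hB hv hm, mul_zero, zero_smul, zero_add]
      exact B.smul_mem _ hm
  obtain ⟨f, hf, hs, hfe, hfB⟩ := hf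
  obtain ⟨τ, hτ, hτa⟩ := exists_tor hσ hes hs hfe hc0
  have htop : Top P X τ := fun v hv => by
    rw [hτa, f_of_mem_perp hv e.2, mul_zero, zero_smul, add_zero, add_sub_cancel_left]
    exact X.smul_mem _ e.2
  refine ⟨τ, hτ, htop, fun v hv => ?_, mem_stabSub.2 fun v hv => ?_, ?_⟩
  · rw [hτa, f_of_mem_perp (hp hv) e.2, f_of_mem_perp' hf hv]
    simp
  · rw [hτa, add_assoc]
    exact B.add_mem hv (hfB v hv _ _)
  · ext y
    obtain ⟨d, rfl⟩ := he y
    rw [rs_apply (top_stab htop le_rfl hX.2), map_smul t, ← hc, Submodule.coe_smul, map_smul, hτa,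
      hes.f_self, f_symm_one hfe, mul_assoc, P.ε_sq, Submodule.coe_smul, Submodule.coe_smul]
    module

/-- The subgroup over which the Mackey sum runs. -/
def HH (G : Subgroup (V ≃ₗ[F] V)) (X : Submodule F V) (x : V ≃ₗ[F] V) : Subgroup (V ≃ₗ[F] V) :=
  G ⊓ stabSub X ⊓ (stabSub X).comap (MulAut.conj x⁻¹).toMonoidHom

theorem mem_HH {G : Subgroup (V ≃ₗ[F] V)} {X : Submodule F V} {x h : V ≃ₗ[F] V} :
    h ∈ HH G X x ↔ (h ∈ G ∧ h ∈ stabSub X) ∧ x⁻¹ * h * x ∈ stabSub X := by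
  simp [HH, Subgroup.mem_inf, Subgroup.mem_comap]

theorem mT_eq (G : Subgroup (V ≃ₗ[F] V)) (X : Submodule F V) (x : G)
    (ξ ξ' : (V ≃ₗ[F] V) → ℂ) :
    mT (stab G X) (fun h => ξ h) (fun h => ξ' h) x =
      ∑ᶠ h : HH G X x, ξ h * conj (ξ' (x.1⁻¹ * h * x)) := by
  let e : {h : G // h ∈ stab G X ∧ x⁻¹ * h * x ∈ stab G X} ≃ HH G X x :=
    { toFun := fun h => ⟨h.1.1, mem_HH.2 ⟨⟨h.1.2, h.2.1⟩, h.2.2⟩⟩
      invFun := fun h => ⟨⟨h.1, (mem_HH.1 h.2).1.1⟩, (mem_HH.1 h.2).1.2, (mem_HH.1 h.2).2⟩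
      left_inv := fun _ => rfl
      right_inv := fun _ => rfl }
  unfold mT
  rw [← finsum_comp_equiv e]
  rfl

theorem conj_fix {x g : V ≃ₗ[F] V} {A : Submodule F V} (h : ∀ v ∈ mp x A, g v = v) :
    ∀ v ∈ A, (x⁻¹ * g * x) v = v := fun v hv => by
  rw [mul_apply', mul_apply', h (x v) ⟨v, hv, rfl⟩, inv_apply_apply]

theorem conj_stab [FiniteDimensional F V] {x g : V ≃ₗ[F] V} {A : Submodule F V}
    (h : g ∈ stabSub (mp x A)) : x⁻¹ * g * x ∈ stabSub A := by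
  refine mem_stabSub.2 fun v hv => ?_
  obtain ⟨w, hw, e⟩ := mem_stabSub.1 h (x v) ⟨v, hv, rfl⟩
  rw [mul_apply', mul_apply', ← e]
  change x⁻¹ (x w) ∈ A
  rwa [inv_apply_apply]

theorem stab_of_fix [FiniteDimensional F V] {g : V ≃ₗ[F] V} {A : Submodule F V}
    (h : ∀ v ∈ A, g v = v) : g ∈ stabSub A :=
  mem_stabSub.2 fun v hv => by rwa [h v hv]

theorem rs_of_fix [FiniteDimensional F V] {g : V ≃ₗ[F] V} {A : Submodule F V}
    (h : ∀ v ∈ A, g v = v) : rs A g = 1 := by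
  ext y
  rw [rs_apply (stab_of_fix h), h _ y.2]
  rfl

open Classical in
/-- The part of the summand attached to one flag. -/
noncomputable def Phi (P : PForm F V) (X A : Submodule F V) (ψ' : (X ≃ₗ[F] X) → ℂ)
    (x h : V ≃ₗ[F] V) : ℂ :=
  npt P X h * (conj (ψ' (rs X (x⁻¹ * h * x))) * if x⁻¹ * h * x ∈ stabSub A then 1 else 0)

theorem good [FiniteDimensional F V] {G : Subgroup (V ≃ₗ[F] V)} {X A : Submodule F V}
    (ψ' : (X ≃ₗ[F] X) → ℂ) {x g : V ≃ₗ[F] V} (hG : P.isom ≤ G) (hX : TS P X)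
    (hg : g ∈ P.isom) (ht : Top P X g) (hf : ∀ v ∈ mp x X, g v = v)
    (hs : g ∈ stabSub (mp x A)) :
    g ∈ HH G X x ∧ ∀ h ∈ HH G X x, Phi P X A ψ' x (h * g) = Phi P X A ψ' x h := by
  refine ⟨mem_HH.2 ⟨⟨hG hg, top_stab ht le_rfl hX.2⟩, stab_of_fix (conj_fix hf)⟩, fun h hh => ?_⟩
  have e : x⁻¹ * (h * g) * x = (x⁻¹ * h * x) * (x⁻¹ * g * x) := by group
  unfold Phi
  rw [npt_mul ht, e, rs_mul (mem_HH.1 hh).2 (stab_of_fix (conj_fix hf)), rs_of_fix (conj_fix hf),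
    mul_one]
  have e2 : x⁻¹ * h * x * (x⁻¹ * g * x) ∈ stabSub A ↔ x⁻¹ * h * x ∈ stabSub A :=
    (stabSub A).mul_mem_cancel_right (conj_stab hs)
  by_cases h0 : x⁻¹ * h * x ∈ stabSub A
  · rw [if_pos h0, if_pos (e2.2 h0)]
  · rw [if_neg h0, if_neg fun h1 => h0 (e2.1 h1)]

theorem flag_zero (hv : VanStmt) [Finite F] [Finite V] {G : Subgroup (V ≃ₗ[F] V)}
    {X A : Submodule F V} (ψ ψ' : (X ≃ₗ[F] X) → ℂ) {x : V ≃ₗ[F] V} (hσ : ∀ a, P.σ a = a)
    (hG : P.isom ≤ G) (hx : Sim P x) (hX : TS P X)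
    (hψ : (2 ≤ finrank F X ∧ IsCusp ψ) ∨
      (finrank F X = 1 ∧ (∀ a b, ψ (a * b) = ψ a * ψ b) ∧ ∃ t, ψ t ≠ 1))
    (hp : mp x X ≤ P.perp X) (hi : X ⊓ mp x X = ⊥) (hA : TS P A) (hXA : X ≤ A)
    (hd : finrank F A = finrank F X + 1) :
    ∑ᶠ h : HH G X x, ψ (rs X h) * Phi P X A ψ' x h = 0 := by
  have hB : TS P (mp x A) := ts_map hx hA
  have hXB : mp x X ≤ mp x A := Submodule.map_mono hXA
  rcases hψ with ⟨h2, hc⟩ | ⟨h1, hm, t, ht⟩
  · obtain ⟨Y, Z, hY, hBY, hZ, hZ0, hZX⟩ := exists_YZ hX hB hXB h2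
      (LinearEquiv.finrank_map_eq x X) ((LinearEquiv.finrank_map_eq x A).trans hd) hp hi
    have key : ∀ g ∈ P.E, Rad P Y g → Top P X g →
        g ∈ HH G X x ∧ ∀ h ∈ HH G X x, Phi P X A ψ' x (h * g) = Phi P X A ψ' x h :=
      fun g hg hr ht => good ψ' hG hX (E_le_isom hg) ht (fun v hv => hr.1 v (hBY (hXB hv)))
        (stab_of_fix fun v hv => hr.1 v (hBY hv))
    exact hv F V P X Y Z ψ (HH G X x) _ hσ hX hY hZ hZ0 hZX hc (fun h hh => (mem_HH.1 hh).1.2)
      (fun g hg hr ht => (key g hg hr ht).1) fun h hh g hg hr ht => (key g hg hr ht).2 h hh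
  · obtain ⟨τ, hτ, htop, hf, hs, hrs⟩ := exists_tau hσ hX hB hXB h1 hp hi t
    obtain ⟨hτH, hΦ⟩ := good ψ' hG hX hτ htop hf hs
    have := Fintype.ofFinite (HH G X x)
    rw [finsum_eq_sum_of_fintype]
    have e := Equiv.sum_comp (Equiv.mulRight (⟨τ, hτH⟩ : HH G X x))
      fun h : HH G X x => ψ (rs X h) * Phi P X A ψ' x h
    have e2 : ∀ h : HH G X x, ψ (rs X (h * τ)) * Phi P X A ψ' x (h * τ) =
        ψ t * (ψ (rs X h) * Phi P X A ψ' x h) := fun h => by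
      rw [rs_mul (mem_HH.1 h.2).1.2 (mem_HH.1 hτH).1.2, hm, hrs, hΦ h h.2]
      ring
    simp only [Equiv.coe_mulRight, Subgroup.coe_mul, e2, ← Finset.mul_sum] at e
    by_contra h0
    exact ht (mul_right_cancel₀ h0 (by rw [e, one_mul]))

open Classical in
theorem npt_eq_sum [Finite V] (X : Submodule F V) (g : V ≃ₗ[F] V)
    [Fintype {A : Submodule F V // TS P A ∧ X ≤ A ∧ finrank F A = finrank F X + 1}] :
    (npt P X g : ℂ) = ∑ A : {A : Submodule F V // TS P A ∧ X ≤ A ∧ finrank F A = finrank F X + 1},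
      if g ∈ stabSub A.1 then 1 else 0 := by
  rw [Finset.sum_boole, ← Fintype.card_subtype, ← Nat.card_eq_fintype_card, npt]
  congr 1
  refine Nat.card_congr ((Equiv.subtypeEquivRight fun A => ?_).trans
    (Equiv.subtypeSubtypeEquivSubtypeInter _ fun A : Submodule F V => g ∈ stabSub A).symm)
  simp only [and_assoc]

/-- PERP. -/
theorem perp (hv : VanStmt) : PerpStmt := by
  intro F V _ _ _ _ _ P G X ψ ψ' x hσ hG hS hX hψ hp hi
  classical
  have : Finite (Submodule F V) := Finite.of_injective _ SetLike.coe_injective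
  have := Fintype.ofFinite {A : Submodule F V // TS P A ∧ X ≤ A ∧ finrank F A = finrank F X + 1}
  have := Fintype.ofFinite (HH G X x)
  rw [mT_eq G X x (fun h => ψ (rs X h) * npt P X h) fun h => ψ' (rs X h) * npt P X h,
    finsum_eq_sum_of_fintype]
  have e : ∀ h : HH G X x, ψ (rs X h) * npt P X h *
      conj (ψ' (rs X (x.1⁻¹ * h * x)) * npt P X (x.1⁻¹ * h * x)) =
      ∑ A : {A : Submodule F V // TS P A ∧ X ≤ A ∧ finrank F A = finrank F X + 1},
        ψ (rs X h) * Phi P X A ψ' x h := fun h => by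
    rw [map_mul, map_natCast, npt_eq_sum X (x.1⁻¹ * h * x), mul_assoc, Finset.mul_sum,
      Finset.mul_sum, Finset.mul_sum]
    rfl
  rw [Finset.sum_congr rfl fun h _ => e h, Finset.sum_comm]
  refine Finset.sum_eq_zero fun A _ => ?_
  rw [← finsum_eq_sum_of_fintype]
  exact flag_zero hv ψ ψ' hσ hG (hS x x.2) hX hψ hp hi A.2.1 A.2.2.1 A.2.2.2

end Cfsg.Agent.H64.DgPerp
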