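import Mathlib
import Cfsg.Agent.H63.LtDefs

/-! Project L40, chapter T: passing to the quotient `N(O) / O`. -/

set_option autoImplicit false

namespace Cfsg.Agent.H64.LtQt

open Subgroup Cfsg.Agent.H40.L3 Cfsg.Agent.H46.L40 Cfsg.Agent.H63.LT

universe u

theorem m_norm : ∀ (s : Bool) (m : M true), ∀ b ∈ [M.T, Gs s, M.Z], ∃ i j k : Bool,
    m⁻¹ * b * m = bp M.T i * bp (Gs s) j * bp M.Z k := by decide +kernel

theorem m_sq : ∀ (s : Bool), ∀ b ∈ [M.T, Gs s, M.Z], b * b = 1 := by decide +kernel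

theorem m_rel : Gs false = M.T * M.Gm ∧ Gs true = M.T * (M.Z * M.Gm) ∧
    ∀ s : Bool, M.D = M.T * (Gs s * (bp M.Z s * M.W⁻¹)) := by decide +kernel

theorem s_rel : r0 * z0 * r0⁻¹ = a0 ∧ r0 * a0 * r0⁻¹ = a0 * z0 ∧ r0 * r0 * r0 = 1 ∧
    w0 * a0 * r0 * (w0 * a0)⁻¹ = r0⁻¹ ∧ k0 * w0 * k0⁻¹ = q0 ∧ k0 * q0 * k0⁻¹ = w0 * q0 * z0 ∧
    k0 * k0 * k0 = 1 ∧ tr r0 = r0 ∧ z0 * z0 = 1 ∧
    ∀ s : Bool, tr (bp z0 s * w0⁻¹ * k0 * (bp z0 s * w0⁻¹)⁻¹) = k0 := by decide +kernel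

variable {G : Type u} [Group G]

theorem exists_s (f : Fr2 G true) :
    ∃ s : Bool, ∀ x, f.D.ι (Gs s) * f.φ x * (f.D.ι (Gs s))⁻¹ = f.φ (tr x) := by
  have ht : ∀ x, f.t * f.φ x * f.t⁻¹ = f.φ x := fun x => by rw [f.tL, mul_inv_cancel_right]
  rcases f.gtr with h | ⟨-, h⟩
  · refine ⟨false, fun x => ?_⟩
    rw [m_rel.1, map_mul, f.iT, ← ht (tr x), ← h]; group
  · refine ⟨true, fun x => ?_⟩
    have e : tr x = z0 * (z0 * tr x * z0⁻¹) * z0⁻¹ := by
      calc tr x = z0 * z0 * tr x * (z0 * z0)⁻¹ := by rw [s_rel.2.2.2.2.2.2.2.2.1]; group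
        _ = _ := by group
    rw [m_rel.2.1, map_mul, map_mul, f.iT, f.iZ, ← ht (tr x), e, map_mul, map_mul, ← h, map_inv]
    group

theorem eq_one_of_odd {x : G} (h : Odd (orderOf x)) {n : ℕ} (h2 : x ^ 2 ^ n = 1) : x = 1 :=
  orderOf_eq_one_iff.1 (Nat.Coprime.eq_one_of_dvd ((Nat.coprime_two_right.2 h).pow_right n)
    (orderOf_dvd_of_pow_eq_one h2))

theorem bp_mem {H : Type*} [Group H] {U : Subgroup H} {x : H} (h : x ∈ U) (c : Bool) : bp x c ∈ U := by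
  cases c
  exacts [one_mem U, h]

theorem qt : QtS.{u} := by
  intro cb G _ _ f
  obtain ⟨s, hs⟩ := exists_s f
  obtain ⟨O, -, hφ, hO, hC⟩ := cb G f s hs
  have hb : ∀ o ∈ O, ∀ b ∈ [M.T, Gs s, M.Z], o * f.D.ι b = f.D.ι b * o := fun o ho b hb => by
    obtain ⟨-, h1, h2, h3⟩ := (hO o).1 ho
    simp only [List.mem_cons, List.not_mem_nil, or_false] at hb
    rcases hb with rfl | rfl | rfl
    exacts [h1, h2, h3]
  have nι : ∀ m, f.D.ι m ∈ normalizer (O : Set G) := fun m =>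
    mem_normalizer_fintype fun o ho => by
      have c : ∀ b ∈ [M.T, Gs s, M.Z], f.D.ι m * o * (f.D.ι m)⁻¹ * f.D.ι b =
          f.D.ι b * (f.D.ι m * o * (f.D.ι m)⁻¹) := fun b hb' => by
        obtain ⟨i, j, k, e⟩ := m_norm s m b hb'
        have u : ∀ b ∈ [M.T, Gs s, M.Z], b ∈ (centralizer {o}).comap f.D.ι := fun b h =>
          mem_centralizer_singleton_iff.2 (hb o ho b h).symm
        have : m⁻¹ * b * m ∈ (centralizer {o}).comap f.D.ι := e ▸ mul_mem (mul_mem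
          (bp_mem (u _ (by simp)) i) (bp_mem (u _ (by simp)) j)) (bp_mem (u _ (by simp)) k)
        have := mem_centralizer_singleton_iff.1 this
        rw [map_mul, map_mul, map_inv] at this
        calc _ = f.D.ι m * (o * ((f.D.ι m)⁻¹ * f.D.ι b * f.D.ι m)) * (f.D.ι m)⁻¹ := by group
          _ = _ := by rw [← this]; group
      refine (hO _).2 ⟨?_, c _ (by simp), c _ (by simp), c _ (by simp)⟩
      have := (MulAut.conj (f.D.ι m)).orderOf_eq o
      rw [MulAut.conj_apply] at this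
      rw [this]
      exact ((hO o).1 ho).1
  have nφ : ∀ x, f.φ x ∈ normalizer (O : Set G) := fun x =>
    mem_normalizer_fintype fun o ho => by rwa [← hφ o ho, mul_inv_cancel_right]
  let N : Subgroup G := normalizer (O : Set G)
  let π : N →* N ⧸ O.subgroupOf N := QuotientGroup.mk' _
  let ι : M true →* N := f.D.ι.codRestrict N nι
  let φ : S3 →* N := f.φ.codRestrict N nφ
  have lift : ∀ a b c : N, (a : G) * b * (a : G)⁻¹ = c → π a * π b * (π a)⁻¹ = π c :=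
    fun a b c h => by
      rw [← map_inv, ← map_mul, ← map_mul]
      exact congrArg π (Subtype.ext h)
  have l2 : ∀ (a b c : S3) (b' c' : M true), f.D.ι b' = f.φ b → f.D.ι c' = f.φ c →
      a * b * a⁻¹ = c → π (φ a) * π (ι b') * (π (φ a))⁻¹ = π (ι c') := fun a b c b' c' h1 h2 h =>
    lift _ _ _ (by
      show f.φ a * f.D.ι b' * (f.φ a)⁻¹ = f.D.ι c'
      rw [h1, h2, ← h, map_mul, map_mul, map_inv])
  have l3 : ∀ (a : S3) (b : M true), f.D.ι b * f.φ a * (f.D.ι b)⁻¹ = f.φ a →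
      π (φ a) * π (ι b) * (π (φ a))⁻¹ = π (ι b) := fun a b h =>
    lift _ _ _ (by
      show f.φ a * f.D.ι b * (f.φ a)⁻¹ = f.D.ι b
      rw [mul_inv_eq_iff_eq_mul] at h ⊢
      exact h.symm)
  have ht : ∀ x, f.D.ι .T * f.φ x * (f.D.ι .T)⁻¹ = f.φ x := fun x => by
    rw [f.iT, f.tL, mul_inv_cancel_right]
  obtain ⟨s1, s2, s3, s4, s5, s6, s7, s8, -, s9⟩ := s_rel
  refine ⟨N ⧸ O.subgroupOf N, inferInstance, s, ⟨⟨π.comp ι, ?_, π (φ r0), π (φ k0), l3 _ _ (ht _),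
    l3 _ _ (by rw [hs, s8]), l2 _ _ _ _ _ f.iZ f.iA s1,
    l2 _ _ _ _ _ f.iA (by rw [map_mul, map_mul, f.iA, f.iZ]) s2, ?_, ?_, l3 _ _ (ht _), l3 _ _ ?_,
    l2 _ _ _ _ _ f.iW f.iQ s5,
    l2 _ _ _ _ _ f.iQ (by rw [map_mul, map_mul, map_mul, map_mul, f.iW, f.iQ, f.iZ]) s6, ?_, ?_⟩⟩⟩
  · refine (injective_iff_map_eq_one _).2 fun m hm => f.D.inj ?_
    have h1 : f.D.ι m ∈ O := (QuotientGroup.eq_one_iff (ι m)).1 hm
    rw [map_one]
    refine eq_one_of_odd ((hO _).1 h1).1 (n := 7) ?_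
    rw [← map_pow, show 2 ^ 7 = Nat.card (M true) from M.card_all.symm, pow_card_eq_one', map_one]
  · rw [← map_mul, ← map_mul, ← map_mul, ← map_mul, s3, map_one, map_one]
  · rw [← map_inv π (φ r0)]
    refine lift _ _ _ ?_
    show f.D.ι (.W * .A) * f.φ r0 * (f.D.ι (.W * .A))⁻¹ = (f.φ r0)⁻¹
    rw [map_mul, f.iW, f.iA, ← map_mul, ← map_inv, ← map_mul, ← map_mul, s4, map_inv]
  · have e : f.D.ι (bp M.Z s * M.W⁻¹) = f.φ (bp z0 s * w0⁻¹) := by
      rw [map_mul, map_mul, map_inv, map_inv, f.iW]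
      cases s
      · exact congrArg (· * _) ((map_one _).trans (map_one _).symm)
      · exact congrArg (· * _) f.iZ
    rw [m_rel.2.2 s, map_mul, map_mul, e]
    conv_rhs => rw [← s9 s, ← ht, ← hs, map_mul, map_mul _ _ k0, map_inv]
    group
  · rw [← map_mul, ← map_mul, ← map_mul, ← map_mul, s7, map_one, map_one]
  · intro x h1 h2 h3
    obtain ⟨y, rfl⟩ := QuotientGroup.mk'_surjective _ x
    have key : ∀ b ∈ [M.T, Gs s, M.Z], π y * π (ι b) * (π y)⁻¹ = π (ι b) →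
        (y : G) * f.D.ι b = f.D.ι b * y := fun b hb' h => by
      rw [← map_inv, ← map_mul, ← map_mul] at h
      have ho' : (ι b)⁻¹ * (y * ι b * y⁻¹) ∈ O.subgroupOf N := QuotientGroup.eq.1 h.symm
      have ho : (f.D.ι b)⁻¹ * (y * f.D.ι b * (y : G)⁻¹) ∈ O := ho'
      have b2 : f.D.ι b * f.D.ι b = 1 := by rw [← map_mul, m_sq s b hb', map_one]
      have c := hb _ ho b hb'
      have o1 := eq_one_of_odd ((hO _).1 ho).1 (n := 1) (by
        generalize e : (f.D.ι b)⁻¹ * (y * f.D.ι b * (y : G)⁻¹) = o at c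
        have e' : y * f.D.ι b * (y : G)⁻¹ = f.D.ι b * o := by rw [← e]; group
        calc o ^ 2 ^ 1 = f.D.ι b * f.D.ι b * (o * o) := by rw [b2, one_mul, pow_one, pow_two]
          _ = f.D.ι b * (f.D.ι b * o) * o := by group
          _ = f.D.ι b * (o * f.D.ι b) * o := by rw [c]
          _ = f.D.ι b * o * (f.D.ι b * o) := by group
          _ = y * (f.D.ι b * f.D.ι b) * (y : G)⁻¹ := by rw [← e']; group
          _ = 1 := by rw [b2]; group)
      rw [inv_mul_eq_one, eq_mul_inv_iff_mul_eq] at o1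
      exact o1.symm
    obtain ⟨o, ho, m, mb, mq, e⟩ := hC y (key _ (by simp) h1) (key _ (by simp) h2)
      (key _ (by simp) h3)
    refine ⟨m, mb, mq, QuotientGroup.eq.2 ?_⟩
    show (y : G)⁻¹ * f.D.ι m ∈ O
    have := (mem_normalizer_iff''.1 (nι m) o⁻¹).1 (inv_mem ho)
    rwa [e, mul_inv_rev]

end Cfsg.Agent.H64.LtQt
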