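import Cfsg.Agent.H53.AhKit
import Cfsg.Agent.H28.MwS
import Cfsg.Agent.H53.MWOrd

/-! Project AH, piece E4: the case `e = 4` does not occur. -/

set_option autoImplicit false
set_option linter.unusedSectionVars false

namespace Cfsg.Agent.H64.AhE

open MulAction Cfsg.Agent.H12.RO Cfsg.Agent.H53.MW Cfsg.Agent.H53.AH Subgroup

universe u

variable {G V K W : Type*} [Group G] [Finite G] [AddCommGroup V] [Finite V] [Nontrivial V]
  [DistribMulAction G V] [Field K] [Finite K] [Module K V] [AddCommGroup W] [DistribMulAction G W]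
  {σ : G →* RingAut K} {U To E M : Subgroup G} {π : G → W} {b : W → W → Kˣ} {e p : ℕ}
  {β : V →+ V →+ ZMod p} (h : Px G V K W σ U To E M π b e p β)
include h

theorem cnt (hK : Nat.card K = p) (hd : Module.finrank K V = 4) {t : W → G} (ht : ∀ w, t w ∈ M)
    (hπ : ∀ w, π (t w) = w) (s : ZMod p) (S : Finset W)
    (hs : ∀ w ∈ S, ∀ x y, β (t w • x) y = s * β (t w • y) x) (I : Finset (Fin 4 × Fin 4))
    (hI : ∀ B : Fin 4 → Fin 4 → ZMod p, (∀ i j, B i j = s * B j i) → (∀ q ∈ I, B q.1 q.2 = 0) →
      ∀ i j, B i j = 0) : S.card ≤ I.card := by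
  classical
  have : Module.Finite K V := Module.Finite.of_finite
  have : NeZero p := ⟨h.mod.prime.ne_zero⟩
  let v := Module.finBasisOfFinrankEq K V hd
  let X : (S → K) → Module.End K V := fun c => ∑ w, c w • h.ρ (t w)
  have inj : Function.Injective fun (c : S → K) (q : I) => β (X c (v q.1.1)) (v q.1.2) := by
    intro c c' e
    have e1 : X (c - c') = X c - X c' := by
      simp only [X, Pi.sub_apply, sub_smul, Finset.sum_sub_distrib]
    have e2 := hI (fun i j => β (X (c - c') (v i)) (v j)) (fun i j => by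
      simp only [X, LinearMap.sum_apply, LinearMap.smul_apply, map_sum, AddMonoidHom.finset_sum_apply,
        Finset.mul_sum, Px.ρ_apply]
      refine Finset.sum_congr rfl fun w _ => ?_
      obtain ⟨k, hk⟩ := h.exists_nat hK ((c - c') w)
      rw [hk, Nat.cast_smul_eq_nsmul, Nat.cast_smul_eq_nsmul, nsmul_left, nsmul_left, hs w w.2]
      ring) fun q hq => by
      rw [e1, LinearMap.sub_apply, map_sub, AddMonoidHom.sub_apply, sub_eq_zero]
      exact congrFun e ⟨q, hq⟩
    have e3 : X (c - c') = 0 := v.ext fun i => h.mod.nd _ fun y => by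
      rw [← v.sum_repr y, map_sum]
      refine Finset.sum_eq_zero fun j _ => ?_
      obtain ⟨k, hk⟩ := h.exists_nat hK (v.repr y j)
      rw [hk, Nat.cast_smul_eq_nsmul, nsmul_right, e2, mul_zero]
    exact sub_eq_zero.1 (funext (Fintype.linearIndependent_iff.1 (h.ind (fun w : S => t w)
      (fun w => ht w) fun w w' k => Subtype.ext (by simpa only [hπ] using k)) _ e3))
  have := Nat.card_le_card_of_injective _ inj
  rw [Nat.card_fun, Nat.card_fun, hK, Nat.card_zmod, Nat.card_eq_finsetCard,
    Nat.card_eq_finsetCard] at this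
  exact (Nat.pow_le_pow_iff_right h.mod.prime.one_lt).1 this

theorem small {T : Finset W} (h0 : 0 ∉ T) (hT : ∀ g : G, ∀ w ∈ T, g • w ∈ T)
    (hc : T.card = 1 ∨ T.card = 2) : False := by
  classical
  have e : ∑ w ∈ T, w = 0 := h.nofix fun g => by
    rw [Finset.smul_sum]
    exact Finset.sum_nbij' (g • ·) (g⁻¹ • ·) (hT g) (hT g⁻¹) (fun _ _ => inv_smul_smul _ _)
      (fun _ _ => smul_inv_smul _ _) fun _ _ => rfl
  rcases hc with hc | hc
  · obtain ⟨w, rfl⟩ := Finset.card_eq_one.1 hc
    exact h0 (by simpa using e.symm)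
  · obtain ⟨w, w', ne, rfl⟩ := Finset.card_eq_two.1 hc
    rw [Finset.sum_pair ne] at e
    exact ne ((eq_neg_of_add_eq_zero_left e).trans (h.neg_eq w'))

omit h in
theorem e4 (hc : H53.AH.CntStmt.{u}) : E4Stmt.{u} := by
  intro G V K W _ _ _ _ _ _ _ _ _ _ _ _ _ σ U To E M π b e p β h he
  classical
  subst he
  have hW : Nat.card W = 16 := h.pk.card
  have h1 := H28.MwS.ord16 pk ordKit G W h.pk.cr hW
  have h2 : Nat.card V ≤ 3 * Nat.card (img G V) := hc G V p β h.mod
  obtain ⟨f, f0, hf⟩ := h.card_K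
  obtain ⟨d, hd⟩ := h.even (by norm_num)
  have h3 := h.pk.le
  have p5 := h.mod.ge
  rw [h.card_img, h.card_G, h.card_U_eq (by norm_num), h.card_V, hf, ← pow_mul] at h2
  have h4 : f * Module.finrank K V < 6 := (Nat.pow_lt_pow_iff_right (by norm_num : 1 < 5)).1
    ((Nat.pow_le_pow_left p5 _).trans_lt (by omega))
  have d4 : Module.finrank K V = 4 := by
    have := Nat.le_mul_of_pos_left (Module.finrank K V) f0
    omega
  obtain rfl : f = 1 := by rw [d4] at h4; omega
  rw [pow_one] at hf
  choose t ht hπ using h.pk.sec.surj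
  have := Fintype.ofFinite W
  have two : ∀ x : ZMod p, x = -1 * x → x = 0 := fun x e => by
    have : Fact p.Prime := ⟨h.mod.prime⟩
    exact (mul_eq_zero.1 (show ((2 : ℕ) : ZMod p) * x = 0 by push_cast; linear_combination e)).resolve_left
      (h.mod.cast_ne (by norm_num) (by norm_num))
  have c1 := cnt h hf d4 ht hπ (-1) (Finset.univ.filter fun w => t w ^ 2 = 1) (fun w hw x y => by
    have : (t w)⁻¹ = t w := inv_eq_of_mul_eq_one_right (by
      rw [← pow_two]; exact (Finset.mem_filter.1 hw).2)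
    rw [h.mod.adj, this, h.mod.skew, neg_one_mul]) (Finset.univ.filter fun q => q.1 < q.2)
    fun B s z i j => by
      rcases lt_trichotomy i j with k | rfl | k
      · exact z (i, j) (by simpa using k)
      · exact two _ (s i i)
      · rw [s, z (j, i) (by simpa using k), mul_zero]
  have c2 := cnt h hf d4 ht hπ 1 (Finset.univ.filter fun w => ¬ t w ^ 2 = 1) (fun w hw x y => by
    have k := (h.pm (h.sq_mem (ht w))).resolve_left (Finset.mem_filter.1 hw).2
    have : (t w)⁻¹ • y = -(t w • y) := by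
      rw [inv_smul_eq_iff, smul_neg, ← mul_smul, ← pow_two, k, neg_neg]
    rw [h.mod.adj, this, map_neg, ← h.mod.skew, one_mul]) (Finset.univ.filter fun q => q.1 ≤ q.2)
    fun B s z i j => by
      rcases le_total i j with k | k
      · exact z (i, j) (by simpa using k)
      · rw [s, z (j, i) (by simpa using k), mul_zero]
  have c3 := Finset.card_filter_add_card_filter_not (s := (Finset.univ : Finset W))
    fun w => t w ^ 2 = 1
  rw [Finset.card_univ, ← Nat.card_eq_fintype_card, hW] at c3
  rw [show (Finset.univ.filter fun q : Fin 4 × Fin 4 => q.1 < q.2).card = 6 by decide] at c1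
  rw [show (Finset.univ.filter fun q : Fin 4 × Fin 4 => q.1 ≤ q.2).card = 10 by decide] at c2
  have c4 := Finset.card_erase_of_mem (s := Finset.univ.filter fun w => t w ^ 2 = 1) (a := 0)
    (by simpa using h.sqU _ ((h.pk.sec.ker _ (ht 0)).1 (hπ 0)))
  have inv : ∀ g : G, ∀ w ∈ (Finset.univ.filter fun w => t w ^ 2 = 1).erase 0,
      g • w ∈ (Finset.univ.filter fun w => t w ^ 2 = 1).erase 0 := fun g w hw => by
    simp only [Finset.mem_erase, Finset.mem_filter, Finset.mem_univ, true_and] at hw ⊢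
    refine ⟨fun k => hw.1 ((smul_eq_zero_iff_eq g).1 k), ?_⟩
    have k : (g * t w * g⁻¹) ^ 2 = 1 := by rw [conj_pow, hw.2, mul_one, mul_inv_cancel]
    rcases h.eq_or_neg (ht (g • w)) (h.conj_mem g (ht w))
      (by rw [hπ, h.pk.sec.conj g _ (ht w), hπ]) with e | e
    · rw [e, k]
    · exact h.ext fun x => by rw [pow_two, mul_smul, e, e, smul_neg, neg_neg, ← mul_smul, ← pow_two, k]
  generalize hS : (Finset.univ.filter fun w => t w ^ 2 = 1).erase 0 = S at inv c4
  have s0 : 0 ∉ S := hS ▸ Finset.notMem_erase _ _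
  obtain ⟨w, hw⟩ : S.Nonempty := Finset.card_pos.1 (by omega)
  have o1 : (S.filter (· ∈ orbit G w)).card = (stabilizer G w).index := by
    rw [index_stabilizer, ← Set.ncard_coe_finset]
    congr 1
    ext x
    simp only [Finset.coe_filter, Set.mem_setOf_eq, and_iff_right_iff_imp]
    rintro ⟨g, rfl⟩
    exact inv g w hw
  have o2 : (S.filter (· ∈ orbit G w)).card ≠ 5 := fun k => by
    have := h.sm.index w 5 (by norm_num) (by rw [← o1, k])
    omega
  have o3 : 0 < (S.filter (· ∈ orbit G w)).card :=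
    Finset.card_pos.2 ⟨w, Finset.mem_filter.2 ⟨hw, mem_orbit_self w⟩⟩
  have o4 := Finset.card_filter_add_card_filter_not (s := S) (· ∈ orbit G w)
  by_cases k : (S.filter (· ∈ orbit G w)).card ≤ 2
  · exact small h (T := S.filter (· ∈ orbit G w)) (fun a => s0 (Finset.mem_filter.1 a).1)
      (fun g x hx => Finset.mem_filter.2 ⟨inv g x (Finset.mem_filter.1 hx).1,
        mem_orbit_of_mem_orbit g (Finset.mem_filter.1 hx).2⟩) (by omega)
  · exact small h (T := S.filter (· ∉ orbit G w)) (fun a => s0 (Finset.mem_filter.1 a).1)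
      (fun g x hx => Finset.mem_filter.2 ⟨inv g x (Finset.mem_filter.1 hx).1, fun a =>
        (Finset.mem_filter.1 hx).2 (by simpa using mem_orbit_of_mem_orbit g⁻¹ a)⟩) (by omega)

end Cfsg.Agent.H64.AhE
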