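import Cfsg.Agent.H9.C3Defs
import Cfsg.Agent.H9.BaerSuzuki
import Cfsg.Agent.H58.Orbits

/-!
Project C3, pieces MX1 and MX2: involutions and elementary abelian subgroups of a group with a
faithful module of order 256.
-/

set_option autoImplicit false

namespace Cfsg.Agent.H64.C3Mx

open Subgroup Cfsg.Agent.H62 Cfsg.Agent.H9.C3

universe u

variable {X A : Type u} [Group X] [Finite X] [Group A] [Finite A] {ρ : X →* MulAut A}

theorem card_mul_le (H K : Subgroup A) :
    Nat.card H * Nat.card K ≤ Nat.card (H ⊓ K : Subgroup A) * Nat.card A := by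
  have h1 := H.card_mul_index
  have h2 := K.card_mul_index
  have h3 := (H ⊓ K).card_mul_index
  have h4 : (H ⊓ K).index ≤ H.index * K.index := index_inf_le
  have hp : 0 < H.index * K.index :=
    Nat.mul_pos (Nat.pos_of_ne_zero index_ne_zero_of_finite)
      (Nat.pos_of_ne_zero index_ne_zero_of_finite)
  refine Nat.le_of_mul_le_mul_right ?_ hp
  calc Nat.card H * Nat.card K * (H.index * K.index)
      = (Nat.card H * H.index) * (Nat.card K * K.index) := by ring
    _ = Nat.card (H ⊓ K : Subgroup A) * (H ⊓ K).index * Nat.card A := by rw [h1, h2, h3]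
    _ ≤ Nat.card (H ⊓ K : Subgroup A) * (H.index * K.index) * Nat.card A := by gcongr
    _ = _ := by ring

omit [Finite X] [Finite A] in
theorem card_Fx_conj (x t : X) : Nat.card (Fx ρ (x * t * x⁻¹)) = Nat.card (Fx ρ t) := by
  refine Nat.card_congr
    { toFun := fun a => ⟨ρ x⁻¹ a, ?_⟩
      invFun := fun a => ⟨ρ x a, ?_⟩
      left_inv := fun a => Subtype.ext (by simp)
      right_inv := fun a => Subtype.ext (by simp) }
  · have := congrArg (ρ x⁻¹) (mem_Fx.1 a.2)
    rw [← MulAut.mul_apply, ← map_mul, ← mul_assoc, ← mul_assoc, inv_mul_cancel, one_mul, map_mul,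
      MulAut.mul_apply] at this
    exact this
  · rw [mem_Fx, ← MulAut.mul_apply, ← map_mul, inv_mul_cancel_right, map_mul, MulAut.mul_apply,
      mem_Fx.1 a.2]

omit [Finite A] in
theorem fx_of_sq {x : X} (hx : Odd (orderOf x)) {a : A} (h : ρ (x * x) a = a) : ρ x a = a := by
  obtain ⟨k, hk⟩ := hx
  have h1 : ∀ n : ℕ, ρ ((x * x) ^ n) a = a := fun n => by
    induction n with
    | zero => simp
    | succ n ih => rw [pow_succ, map_mul, MulAut.mul_apply, h, ih]
  have h2 : (x * x) ^ (k + 1) = x := by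
    rw [← pow_two, ← pow_mul, show 2 * (k + 1) = orderOf x + 1 by omega, pow_succ,
      pow_orderOf_eq_one, one_mul]
  rw [← h2]
  exact h1 _

/-- The fixed points of an element that inverts an element of odd order. -/
theorem sq_le {t x : X} (hx : Odd (orderOf x)) (h : t * x * t⁻¹ = x⁻¹) :
    Nat.card (Fx ρ t) * Nat.card (Fx ρ t) ≤
      Nat.card (Fx ρ t ⊓ Fx ρ x : Subgroup A) * Nat.card A := by
  have h1 := card_mul_le (Fx ρ t) (Fx ρ (x * t * x⁻¹))
  rw [card_Fx_conj] at h1
  refine h1.trans (Nat.mul_le_mul_right _ (card_le_of_le fun a ha => ⟨ha.1, ?_⟩))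
  have e : x * t * x⁻¹ = x * x * t := by
    have : t * x⁻¹ * t⁻¹ = x := by
      rw [← conj_inv, h, inv_inv]
    calc x * t * x⁻¹ = x * (t * x⁻¹ * t⁻¹) * t := by group
      _ = _ := by rw [this]
  have h2 := mem_Fx.1 ha.2
  rw [e, map_mul, MulAut.mul_apply, mem_Fx.1 ha.1] at h2
  exact fx_of_sq hx h2

theorem le16 {n : ℕ} (h : n ∣ 256) (h2 : n * n ≤ 512) : n ≤ 16 := by
  have h3 : n ≤ 22 := by nlinarith
  interval_cases n <;> omega

theorem fx3 (h : Mod ρ) {t x : X} (hx : orderOf x = 3) (hi : t * x * t⁻¹ = x⁻¹) :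
    Nat.card (Fx ρ t) ≤ 16 := by
  have h1 := sq_le (ρ := ρ) (by rw [hx]; decide) hi
  obtain ⟨a, ha, hta⟩ := h.inv x t hx hi
  have h2 : Nat.card (Fx ρ t ⊓ Fx ρ x : Subgroup A) ∣ 4 := by
    rw [← h.fix x hx]
    exact card_dvd_of_le inf_le_right
  have h3 : Nat.card (Fx ρ t ⊓ Fx ρ x : Subgroup A) ≠ 4 := fun e => by
    have : Fx ρ t ⊓ Fx ρ x = Fx ρ x := eq_of_le_of_card_ge inf_le_right (by rw [e, h.fix x hx])
    exact hta (this.ge (mem_Fx.2 ha)).1
  have h4 : Nat.card (Fx ρ t ⊓ Fx ρ x : Subgroup A) ≤ 2 := by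
    have := Nat.le_of_dvd (by norm_num) h2
    generalize Nat.card (Fx ρ t ⊓ Fx ρ x : Subgroup A) = n at *
    interval_cases n <;> omega
  rw [h.card] at h1
  exact le16 (h.card ▸ card_subgroup_dvd_card _) (by omega)

theorem fx5 (h : Mod ρ) {t x : X} (hx : Odd (orderOf x)) (h0 : Fx ρ x = ⊥)
    (hi : t * x * t⁻¹ = x⁻¹) : Nat.card (Fx ρ t) ≤ 16 := by
  have h1 := sq_le (ρ := ρ) hx hi
  rw [h.card, h0, inf_bot_eq, card_bot] at h1
  exact le16 (h.card ▸ card_subgroup_dvd_card _) (by omega)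

theorem three_dvd (h : Mod ρ) {t : X} (ht : t ≠ 1) : 3 ∣ Nat.card X := by
  by_contra h3
  have := h.o3 ⊤ inferInstance (by rwa [card_top])
  exact ht (mem_bot.1 (this ▸ mem_top t))

theorem card_syl (h : Mod0 ρ) (h3 : 3 ∣ Nat.card X) (P : Sylow 3 X) :
    Nat.card (P : Subgroup X) = 9 := by
  have hP : (P : Subgroup X) ≠ ⊥ := P.ne_bot_of_dvd_card h3
  have : Nontrivial (P : Subgroup X) := (Subgroup.nontrivial_iff_ne_bot _).2 hP
  have := P.isPGroup'.center_nontrivial
  obtain ⟨z, hz⟩ := exists_ne (1 : center (P : Subgroup X))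
  obtain ⟨k, hk⟩ := IsPGroup.iff_orderOf.1 P.isPGroup' z.1
  have hz1 : (z.1 : (P : Subgroup X)) ≠ 1 := fun e => hz (Subtype.ext e)
  have hk0 : k ≠ 0 := by
    rintro rfl
    exact hz1 (orderOf_eq_one_iff.1 (by simpa using hk))
  have ho : orderOf ((z.1.1 : X) ^ 3 ^ (k - 1)) = 3 := by
    rw [orderOf_pow' _ (by positivity), Subgroup.orderOf_coe, hk,
      Nat.gcd_eq_right (pow_dvd_pow _ (by omega)), Nat.pow_div (by omega) (by norm_num),
      show k - (k - 1) = 1 by omega, pow_one]
  have hle : (P : Subgroup X) ≤ C1 ((z.1.1 : X) ^ 3 ^ (k - 1)) := fun y hy => by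
    rw [mem_centralizer_singleton_iff]
    have : Commute y z.1.1 := congrArg Subtype.val (mem_center_iff.1 z.2 ⟨y, hy⟩)
    exact (this.pow_right _).eq
  have hp : IsPGroup 3 (C1 ((z.1.1 : X) ^ 3 ^ (k - 1))) :=
    IsPGroup.of_card (n := 2) (h.c9 _ ho)
  rw [← P.is_maximal' hp hle]
  exact h.c9 _ ho

theorem comm_syl (h : Mod0 ρ) (h3 : 3 ∣ Nat.card X) (P : Sylow 3 X) {x y : X}
    (hx : x ∈ (P : Subgroup X)) (hy : y ∈ (P : Subgroup X)) : x * y = y * x := by
  have := IsPGroup.isMulCommutative_of_card_eq_prime_sq (p := 3) (G := (P : Subgroup X))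
    (card_syl h h3 P)
  exact congrArg Subtype.val (this.is_comm.comm (⟨x, hx⟩ : (P : Subgroup X)) ⟨y, hy⟩)

theorem ord_syl (h : Mod0 ρ) (h3 : 3 ∣ Nat.card X) (P : Sylow 3 X) {x : X}
    (hx : x ∈ (P : Subgroup X)) (h1 : x ≠ 1) : orderOf x = 3 := by
  obtain ⟨z, hz⟩ := exists_prime_orderOf_dvd_card' (G := (P : Subgroup X)) 3
    (by rw [card_syl h h3 P]; norm_num)
  exact orderOf_eq_prime (h.c3 z (by rw [Subgroup.orderOf_coe, hz]) x (comm_syl h h3 P hx z.2)) h1

theorem exists_syl (h : Mod0 ρ) (h3 : 3 ∣ Nat.card X) (P : Sylow 3 X) :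
    ∃ x ∈ (P : Subgroup X), orderOf x = 3 := by
  obtain ⟨z, hz⟩ := exists_prime_orderOf_dvd_card' (G := (P : Subgroup X)) 3
    (by rw [card_syl h h3 P]; norm_num)
  exact ⟨z, z.2, by rw [Subgroup.orderOf_coe, hz]⟩

/-- An involution that normalizes a Sylow 3-subgroup inverts it. -/
theorem inverts (h : Mod0 ρ) (h3 : 3 ∣ Nat.card X) (P : Sylow 3 X) {t : X} (h1 : t ≠ 1)
    (h2 : t * t = 1) (hn : t ∈ Nm (P : Subgroup X)) {y : X} (hy : y ∈ (P : Subgroup X)) :
    t * y * t⁻¹ = y⁻¹ := by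
  have hy' : t * y * t⁻¹ ∈ (P : Subgroup X) := (mem_normalizer_iff.1 hn y).1 hy
  have hti : t⁻¹ = t := inv_eq_of_mul_eq_one_right h2
  by_contra hne
  have hw : y * (t * y * t⁻¹) ≠ 1 := fun e => hne (eq_inv_of_mul_eq_one_right e)
  have hc : t * (y * (t * y * t⁻¹)) = y * (t * y * t⁻¹) * t := by
    conv_lhs => rw [comm_syl h h3 P hy hy']
    rw [hti]
    calc t * (t * y * t * y) = (t * t) * y * t * y := by group
      _ = y * t * y * (t * t) := by rw [h2]; group
      _ = _ := by group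
  have := h.c3 _ (ord_syl h h3 P (mul_mem hy hy') hw) t hc
  rw [pow_succ, pow_two, h2, one_mul] at this
  exact h1 this

/-- The elementary abelian 2-subgroups of the normalizer of a Sylow 3-subgroup. -/
theorem card_le_two (h : Mod0 ρ) (h3 : 3 ∣ Nat.card X) (P : Sylow 3 X) {E : Subgroup X}
    (hE : EA E) (hn : E ≤ Nm (P : Subgroup X)) : Nat.card E ≤ 2 := by
  obtain ⟨y, hy, ho⟩ := exists_syl h h3 P
  have key : ∀ s ∈ E, ∀ t ∈ E, s ≠ 1 → t ≠ 1 → s = t := fun s hs t ht hs1 ht1 => by
    by_contra hne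
    have hst : s * t ≠ 1 := fun e => hne (by rw [← hE.inv ht]; exact eq_inv_of_mul_eq_one_left e)
    have e1 := inverts h h3 P hst (hE _ (mul_mem hs ht)) (hn (mul_mem hs ht)) hy
    have e2 := inverts h h3 P ht1 (hE _ ht) (hn ht) hy
    have e3 := inverts h h3 P hs1 (hE _ hs) (hn hs) (inv_mem hy)
    have e4 : y = y⁻¹ := by
      calc y = s * (t * y * t⁻¹) * s⁻¹ := by rw [e2, e3, inv_inv]
        _ = _ := by rw [← e1]; group
    have : orderOf y ∣ 2 := orderOf_dvd_of_pow_eq_one (by
      rw [pow_two]; nth_rewrite 1 [e4]; exact inv_mul_cancel y)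
    rw [ho] at this
    omega
  classical
  have := Nat.card_le_card_of_injective (fun s : E => decide ((s : X) = 1)) fun s t hst => by
    simp only [decide_eq_decide] at hst
    by_cases hs : (s : X) = 1
    · exact Subtype.ext (hs.trans (hst.1 hs).symm)
    · exact Subtype.ext (key _ s.2 _ t.2 hs fun e => hs (hst.2 e))
  simpa using this

theorem triv_or (h : Mod ρ) (E : Subgroup X) : Nat.card E ≤ 4 ∨ 3 ∣ Nat.card X := by
  by_cases hE : E = ⊥
  · left
    rw [hE, card_bot]
    norm_num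
  · obtain ⟨t, ht⟩ := (ne_bot_iff_exists_ne_one).1 hE
    exact Or.inr (three_dvd h (t := t) fun e => ht (Subtype.ext e))

/-- MX1. -/
theorem mx1 : MX1Stmt.{u} := by
  intro X A _ _ _ _ ρ h P hP
  have hn : ∀ t : X, t ∈ Nm (P : Subgroup X) := fun t => by
    rw [Nm, normalizer_eq_top]
    trivial
  refine ⟨fun t h1 h2 => ?_, fun E hE => ?_⟩
  · have h3 := three_dvd h h1
    obtain ⟨y, hy, ho⟩ := exists_syl h.toMod0 h3 P
    exact fx3 h ho (inverts h.toMod0 h3 P h1 h2 (hn t) hy)
  · rcases triv_or h E with h4 | h3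
    · exact h4
    · exact (card_le_two h.toMod0 h3 P hE fun t _ => hn t).trans (by norm_num)

/-- No element of prime order at least 5 normalizes a Sylow 3-subgroup. -/
theorem not_dvd_norm (h : Mod0 ρ) (h3 : 3 ∣ Nat.card X) (P : Sylow 3 X) {p : ℕ} (hp : p.Prime)
    (h5 : 5 ≤ p) : ¬ p ∣ Nat.card (Nm (P : Subgroup X)) := by
  intro hd
  have := Fact.mk hp
  obtain ⟨n, hn⟩ := exists_prime_orderOf_dvd_card' p hd
  let _ : MulAction (zpowers (n : X)) X :=
    MulAction.compHom X ((MulAut.conj : X →* MulAut X).comp (zpowers (n : X)).subtype)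
  have hs : ∀ (g : zpowers (n : X)) (y : X), g • y = g * y * (g : X)⁻¹ := fun _ _ => rfl
  have hc : Nat.card (zpowers (n : X)) = p := by rw [Nat.card_zpowers, Subgroup.orderOf_coe, hn]
  have h8 := H58.dvd_ncard_of_orbits (H := zpowers (n : X)) p
    (((P : Subgroup X) : Set X) \ {1}) (fun g y hy => by
      have hg : (g : X) ∈ Nm (P : Subgroup X) := (zpowers_le.2 n.2) g.2
      refine ⟨(mem_normalizer_iff.1 hg y).1 hy.1, fun e => hy.2 ?_⟩
      rw [hs, Set.mem_singleton_iff, conj_eq_one_iff] at e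
      exact e) (fun y hy => by
      have : MulAction.stabilizer (zpowers (n : X)) y = ⊥ := by
        rw [eq_bot_iff]
        intro g hg
        rw [MulAction.mem_stabilizer_iff, hs, mul_inv_eq_iff_eq_mul] at hg
        have e1 := h.c3 y (ord_syl h h3 P hy.1 hy.2) g hg
        have e2 : orderOf g ∣ p := hc ▸ orderOf_dvd_natCard g
        have e3 : orderOf g ∣ 3 := by
          rw [← Subgroup.orderOf_coe]
          exact orderOf_dvd_of_pow_eq_one e1
        have e4 : Nat.Coprime p 3 := (Nat.coprime_primes hp Nat.prime_three).2 (by omega)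
        exact mem_bot.2 (orderOf_eq_one_iff.1 (Nat.eq_one_of_dvd_coprimes e4 e2 e3))
      rw [this, index_bot, hc])
  rw [Set.ncard_diff_singleton_of_mem (one_mem _), ← Nat.card_coe_set_eq] at h8
  have e : Nat.card ((P : Subgroup X) : Set X) = 9 := card_syl h h3 P
  rw [e] at h8
  have := Nat.le_of_dvd (by norm_num) h8
  interval_cases p
  all_goals first | omega | exact absurd hp (by norm_num)

theorem card_sylow_eq (h : Mod0 ρ) (h3 : 3 ∣ Nat.card X) (L : Subgroup X) [L.Normal]
    (hL : Nat.card L = 360) : Nat.card (Sylow 3 X) = Nat.card (Sylow 3 L) := by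
  have hQ : ∀ Q : Sylow 3 L, Nat.card (Q : Subgroup L) = 9 := fun Q => by
    rw [Q.card_eq_multiplicity, hL]
    simp only [show (360 : ℕ) = 3 ^ 2 * 40 by norm_num]
    rw [Nat.factorization_mul (by norm_num) (by norm_num), Nat.Prime.factorization_pow Nat.prime_three,
      Finsupp.add_apply, Finsupp.single_eq_same, Nat.factorization_eq_zero_of_not_dvd (by norm_num)]
    norm_num
  have hle : ∀ P : Sylow 3 X, (P : Subgroup X) ≤ L := fun P => by
    obtain ⟨Q⟩ : Nonempty (Sylow 3 L) := inferInstance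
    obtain ⟨P', hP'⟩ := Q.exists_comap_subtype_eq
    have h1 : (P' : Subgroup X) ≤ L := by
      have e : (Q : Subgroup L).map L.subtype ≤ P' := by
        rw [← hP']
        exact map_comap_le _ _
      have e2 : (Q : Subgroup L).map L.subtype = P' := eq_of_le_of_card_ge e (by
        rw [card_map_of_injective Subtype.coe_injective, hQ, card_syl h h3])
      rw [← e2]
      exact map_subtype_le _
    obtain ⟨g, rfl⟩ := MulAction.exists_smul_eq X P' P
    intro y hy
    rw [Sylow.coe_subgroup_smul, mem_pointwise_smul_iff_inv_smul_mem] at hy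
    have := ‹L.Normal›.conj_mem _ (h1 hy) g
    simpa [mul_assoc] using this
  refine Nat.card_eq_of_bijective (fun P => P.subtype (hle P))
    ⟨fun P Q e => Sylow.subtype_injective e, fun Q => ?_⟩
  obtain ⟨P, hP⟩ := Q.exists_comap_subtype_eq
  exact ⟨P, Sylow.ext hP⟩

/-- MX2. -/
theorem mx2 : MX2Stmt.{u} := by
  intro X A _ _ _ _ ρ h L hN _ hL h10 h5
  have h3 : 3 ∣ Nat.card X := (show 3 ∣ Nat.card L by rw [hL]; norm_num).trans
    (card_subgroup_dvd_card L)
  have hX : Nat.card (Sylow 3 X) = 10 := (card_sylow_eq h.toMod0 h3 L hL).trans h10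
  refine ⟨fun t h1 h2 => ?_, fun E hE => ?_⟩
  · have hex : ∃ a : X, Odd (orderOf a) ∧ t * a * t⁻¹ = a⁻¹ ∧ a ≠ 1 := by
      by_contra hne
      push Not at hne
      have h2g := H9.isPGroup_normalClosure_of_not_inverts h2 hne
      obtain ⟨k, hk⟩ := IsPGroup.iff_card.1 h2g
      have := h.o3 _ inferInstance (by
        rw [hk]
        intro hd
        exact absurd (Nat.prime_three.dvd_of_dvd_pow hd) (by norm_num))
      exact h1 (mem_bot.1 (this ▸ subset_normalClosure (Set.mem_singleton t)))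
    obtain ⟨a, hodd, hi, ha⟩ := hex
    obtain ⟨p, hp, hpd⟩ := Nat.exists_prime_and_dvd (mt orderOf_eq_one_iff.1 ha)
    have hb : orderOf (a ^ (orderOf a / p)) = p :=
      orderOf_pow_orderOf_div (orderOf_pos a).ne' hpd
    have hbi : t * a ^ (orderOf a / p) * t⁻¹ = (a ^ (orderOf a / p))⁻¹ := by
      rw [← conj_pow, hi, inv_pow]
    generalize a ^ (orderOf a / p) = b at hb hbi
    have hpo : Odd p := hodd.of_dvd_nat hpd
    by_cases hp3 : p = 3
    · exact fx3 h (hb.trans hp3) hbi
    · have hp5 : 5 ≤ p := by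
        have := hp.two_le
        obtain ⟨k, rfl⟩ := hpo
        omega
      obtain ⟨P⟩ : Nonempty (Sylow 3 X) := inferInstance
      have e1 := (Nm (P : Subgroup X)).card_mul_index
      have e2 := L.card_mul_index
      have e3 : (Nm (P : Subgroup X)).index = 10 := P.card_eq_index_normalizer.symm.trans hX
      have e4 : Nat.card (Nm (P : Subgroup X)) = 36 * L.index := by
        rw [e3] at e1
        rw [hL] at e2
        omega
      have e5 : ¬ p ∣ L.index := fun hd =>
        not_dvd_norm h.toMod0 h3 P hp hp5 (e4 ▸ hd.mul_left _)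
      have hbL : b ∈ L := by
        have e6 : Nat.Coprime L.index (orderOf b) := by
          rw [hb]
          exact ((Nat.Prime.coprime_iff_not_dvd hp).2 e5).symm
        obtain ⟨m, hm⟩ := exists_pow_eq_self_of_coprime e6
        rw [← hm]
        exact pow_mem (L.pow_index_mem b) _
      have e7 : p ∣ 2 ^ 3 * 3 ^ 2 * 5 := by
        rw [← hb, show 2 ^ 3 * 3 ^ 2 * 5 = Nat.card L by rw [hL]; norm_num]
        exact orderOf_dvd_natCard L hbL
      have e8 : p = 5 := by
        rcases (Nat.Prime.dvd_mul hp).1 e7 with e | e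
        · rcases (Nat.Prime.dvd_mul hp).1 e with e | e
          · have := Nat.le_of_dvd (by norm_num) (hp.dvd_of_dvd_pow e)
            omega
          · have := Nat.le_of_dvd (by norm_num) (hp.dvd_of_dvd_pow e)
            omega
        · have := Nat.le_of_dvd (by norm_num) e
          omega
      exact fx5 h (hb ▸ hpo) (h5 b hbL (hb.trans e8)) hbi
  · by_contra hlt
    obtain ⟨k, hk⟩ := IsPGroup.iff_card.1 hE.isPGroup
    have hk3 : 3 ≤ k := by
      by_contra hk3
      have : k ≤ 2 := by omega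
      interval_cases k <;> omega
    have h8 : 8 ∣ Nat.card E := hk ▸ pow_dvd_pow 2 hk3
    have := H58.dvd_ncard_of_orbits (H := E) (X := Sylow 3 X) 4 Set.univ (fun _ _ _ => trivial)
      fun P _ => by
        have e1 := (MulAction.stabilizer E P).card_mul_index
        have e2 := card_le_two h.toMod0 h3 P (E := (MulAction.stabilizer E P).map E.subtype)
          (hE.mono (map_subtype_le _)) (by
            rintro _ ⟨g, hg, rfl⟩
            exact Sylow.smul_eq_iff_mem_normalizer.1 hg)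
        rw [card_map_of_injective Subtype.coe_injective] at e2
        have e3 : 0 < Nat.card (MulAction.stabilizer E P) := Nat.card_pos
        generalize Nat.card (MulAction.stabilizer E P) = n at *
        interval_cases n <;> omega
    rw [Set.ncard_univ, hX] at this
    omega

end Cfsg.Agent.H64.C3Mx
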