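import Mathlib
import Cfsg.Agent.H83.Syl
import Cfsg.Agent.H80.SLnMult

/-! Project CY: general lemmas for the classification of the line groups. -/

set_option autoImplicit false

namespace Cfsg.Agent.H64.CyCls

open Subgroup Cfsg.Agent.H83
open scoped MatrixGroups commutatorElement

theorem cover {G : Type} [Group G] [Finite G] [Group.IsPerfect G] {F : Type} [Field F]
    [Fintype F] (h4 : 4 < Fintype.card F) (h9 : Fintype.card F ≠ 9) {σ : G →* PSL(2, F)}
    (hσ : H80.IsCentralExt σ) :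
    Nonempty (G ≃* PSL(2, F)) ∨ (Nonempty (G ≃* SL(2, F)) ∧ 2 ≤ Nat.gcd 2 (Fintype.card F - 1)) := by
  by_cases hk : σ.ker = ⊥
  · exact Or.inl ⟨MulEquiv.ofBijective σ ⟨(MonoidHom.ker_eq_bot_iff σ).1 hk, hσ.surj⟩⟩
  right
  rw [← Nat.card_eq_fintype_card] at h4 h9 ⊢
  have := H80.isPerfect_SL' (K := F) (n := 2) le_rfl fun _ => h4.le
  obtain ⟨η, hη⟩ := H80.exists_lift_of_perfect_of_trivial (H80.multiplier_SL (K := F) (n := 2) le_rfl
    (by simp only [Set.mem_insert_iff, Prod.mk.injEq, Set.mem_singleton_iff]; omega))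
    (QuotientGroup.mk' (center SL(2, F))) hσ
  have h1 : Function.Surjective η := H80.surjective_of_stem (H80.isStemExtension_of_perfect hσ)
    fun x => by
      obtain ⟨e, he⟩ := QuotientGroup.mk'_surjective _ (σ x)
      exact ⟨e, (DFunLike.congr_fun hη e).trans he⟩
  obtain ⟨e⟩ := H80.nonempty_center_SL (K := F) (n := 2) two_pos
  have h2 := (center SL(2, F)).card_mul_index
  rw [Nat.card_congr e.toEquiv, Nat.card_congr Multiplicative.toAdd, Nat.card_zmod] at h2
  have h3 := σ.ker.card_mul_index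
  rw [index_ker, MonoidHom.range_eq_top.mpr hσ.surj, card_top] at h3
  change _ * (center SL(2, F)).index = _ at h3
  have h6 := Nat.card_le_card_of_surjective η h1
  have h7 : 0 < (center SL(2, F)).index := Nat.pos_of_ne_zero index_ne_zero_of_finite
  have h8 : Nat.card σ.ker ≤ Nat.gcd 2 (Nat.card F - 1) :=
    Nat.le_of_mul_le_mul_right (by rw [h3, h2]; exact h6) h7
  have h10 : Nat.gcd 2 (Nat.card F - 1) ≤ 2 := Nat.gcd_le_left _ two_pos
  have h5 : 1 < Nat.card σ.ker := (one_lt_card_iff_ne_bot _).mpr hk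
  refine ⟨⟨(MulEquiv.ofBijective η (h1.bijective_of_nat_card_le ?_)).symm⟩, by omega⟩
  rw [← h2, ← h3]; exact Nat.mul_le_mul_right _ (by omega)

/-- transfer to the centre -/
theorem tp {G : Type} [Group G] [Finite G] (S : Set G) (n : ℕ) (hS : ∀ s ∈ S, s ^ n = 1) :
    ∀ f ∈ closure S, f ^ ((center (closure S)).index * n) = 1 := by
  have key : ∀ f (hf : f ∈ closure S),
      MonoidHom.transferCenterPow (closure S) ⟨f, hf⟩ ^ n = 1 := by
    intro f hf
    induction hf using closure_induction with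
    | mem s hs =>
      refine Subtype.ext (Subtype.ext ?_)
      change (s ^ (center (closure S)).index) ^ n = 1
      rw [← pow_mul, mul_comm, pow_mul, hS s hs, one_pow]
    | one =>
      rw [show (⟨1, one_mem _⟩ : closure S) = 1 from rfl, map_one, one_pow]
    | mul x y hx hy h1 h2 =>
      have hc : ∀ u v : center (closure S), Commute u v := fun u v =>
        Subtype.ext (mem_center_iff.1 v.2 u)
      rw [show (⟨x * y, mul_mem hx hy⟩ : closure S) = ⟨x, hx⟩ * ⟨y, hy⟩ from rfl, map_mul,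
        (hc _ _).mul_pow, h1, h2, one_mul]
    | inv x hx h1 =>
      rw [show (⟨x⁻¹, inv_mem hx⟩ : closure S) = ⟨x, hx⟩⁻¹ from rfl, map_inv, inv_pow, h1, inv_one]
  intro f hf
  rw [pow_mul]
  exact congrArg (fun x : center (closure S) => ((x : closure S) : G)) (key f hf)

/-- the solvable case -/
theorem sol {G Y : Type} [Group G] [Finite G] [Group Y] {p r : ℕ} (hp : Odd p) (hr : r.Prime)
    {A A' : Subgroup G} (hA : ∀ a ∈ A, a ^ p = 1) (ρ : (A ⊔ A' : Subgroup G) →* Y)
    (hk : ρ.ker ≤ center _) (V : Subgroup Y) [V.Normal] (hV : IsPGroup r V)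
    (hf : ∀ f : (A ⊔ A' : Subgroup G), ∃ a : (A ⊔ A' : Subgroup G), (a : G) ∈ A ∧ ρ (f * a⁻¹) ∈ V)
    {f0 : G} (h0 : f0 ∈ A ⊔ A') (h0' : A' = cj f0 A) :
    Odd (Nat.card (A ⊔ A' : Subgroup G)) ∨ ∃ R : Subgroup G, IsPGroup 2 R ∧
      A ⊔ A' ≤ normalizer (R : Set G) ∧ A ⊔ A' = R ⊔ A := by
  have : Fact (Nat.Prime 2) := ⟨Nat.prime_two⟩
  have hW : ∀ w, ρ w ∈ V → ∃ k, w ^ r ^ k ∈ center (A ⊔ A' : Subgroup G) := fun w hw => by
    obtain ⟨k, h⟩ := hV ⟨_, hw⟩
    exact ⟨k, hk (by rw [MonoidHom.mem_ker, map_pow]; exact congrArg Subtype.val h)⟩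
  by_cases h2 : r = 2
  · subst h2
    right
    obtain ⟨N, m, hm, hN⟩ := Nat.exists_eq_two_pow_mul_odd (Nat.card_pos (α := G)).ne'
    set S : Set G := {w | ∃ h : w ∈ A ⊔ A', ρ ⟨w, h⟩ ∈ V ∧ w ^ 2 ^ N = 1} with hS
    have hRW : closure S ≤ (V.comap ρ).map (A ⊔ A').subtype := (closure_le _).2 (by
      rintro w ⟨h, h1, -⟩
      exact ⟨⟨w, h⟩, h1, rfl⟩)
    have hRF : closure S ≤ A ⊔ A' := hRW.trans (map_subtype_le _)
    refine ⟨closure S, ?_, fun g hg => mem_normalizer_fintype fun n hn => ?_, ?_⟩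
    · have h1 : IsPGroup 2 (closure S ⧸ center (closure S)) := fun q => by
        obtain ⟨w, rfl⟩ := QuotientGroup.mk_surjective q
        obtain ⟨w', hw, e⟩ := hRW w.2
        obtain ⟨k, h⟩ := hW w' hw
        refine ⟨k, ?_⟩
        rw [← QuotientGroup.mk_pow, QuotientGroup.eq_one_iff, mem_center_iff]
        intro g
        have h3 := congrArg Subtype.val (mem_center_iff.1 h ⟨g, hRF g.2⟩)
        refine Subtype.ext ?_
        have e' : (w' : G) = w := e
        simpa [e'] using h3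
      obtain ⟨j, hj⟩ := h1.exists_card_eq
      refine isPGroup_iff.2 fun x hx => ⟨j + N, ?_⟩
      have h3 := tp S (2 ^ N) (fun s hs => hs.2.2) x hx
      rwa [Subgroup.index, hj, ← pow_add] at h3
    · have : cj g (closure S) ≤ closure S := by
        rw [cj_closure]
        refine closure_mono ?_
        rintro _ ⟨w, ⟨h, h1, h2⟩, rfl⟩
        refine ⟨mul_mem (mul_mem hg h) (inv_mem hg), ?_, ?_⟩
        · have := ‹V.Normal›.conj_mem _ h1 (ρ ⟨g, hg⟩)
          rwa [← map_mul, ← map_inv, ← map_mul] at this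
        · rw [conj_pow, h2, mul_one, mul_inv_cancel]
      exact this (conj_mem_cj hn)
    · refine le_antisymm (sup_le le_sup_right ?_) (sup_le hRF le_sup_left)
      obtain ⟨a, ha, hw⟩ := hf ⟨f0, h0⟩
      set w := (⟨f0, h0⟩ : (A ⊔ A' : Subgroup G)) * a⁻¹ with hw'
      obtain ⟨k, h⟩ := hW w hw
      have h1 : (w : G) ^ m ∈ closure S := subset_closure ⟨pow_mem w.2 m, by
        have := pow_mem hw m
        rwa [← map_pow] at this, by rw [← pow_mul, mul_comm, ← hN, pow_card_eq_one']⟩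
      have h3 : Nat.Coprime m (2 ^ k) := (Nat.coprime_two_right.2 hm).pow_right k
      have h4 := Nat.gcd_eq_gcd_ab m (2 ^ k)
      rw [h3.gcd_eq_one] at h4
      have h5 : w = (w ^ m) ^ m.gcdA (2 ^ k) * (w ^ 2 ^ k) ^ m.gcdB (2 ^ k) := by
        rw [← zpow_natCast, ← zpow_natCast w, ← zpow_mul, ← zpow_mul, ← zpow_add, ← h4]
        simp
      have h6 := zpow_mem h (m.gcdB (2 ^ k))
      have h7 : ((w ^ m) ^ m.gcdA (2 ^ k) : (A ⊔ A' : Subgroup G)).1 ∈ closure S := zpow_mem h1 _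
      generalize (w ^ m) ^ m.gcdA (2 ^ k) = u at h5 h7
      generalize (w ^ 2 ^ k) ^ m.gcdB (2 ^ k) = z at h5 h6
      have h8 : f0 = u * z * a := by
        have := congrArg Subtype.val (mul_inv_eq_iff_eq_mul.1 (hw'.symm.trans h5))
        simpa using this
      rw [h0']
      rintro _ ⟨b, hb, rfl⟩
      have h9 : (a : G) * b * (a : G)⁻¹ ∈ A := mul_mem (mul_mem ha hb) (inv_mem ha)
      have h10 : (a : G) * b * (a : G)⁻¹ * z = z * ((a : G) * b * (a : G)⁻¹) :=
        congrArg Subtype.val (mem_center_iff.1 h6 ⟨_, mem_sup_left h9⟩)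
      have h11 : f0 * b * f0⁻¹ = u * ((a : G) * b * (a : G)⁻¹) * (u : G)⁻¹ := by
        calc f0 * b * f0⁻¹ = u * (z * ((a : G) * b * (a : G)⁻¹)) * (z : G)⁻¹ * (u : G)⁻¹ := by
              rw [h8]; group
          _ = _ := by rw [← h10]; group
      change f0 * b * f0⁻¹ ∈ _
      rw [h11]
      exact mul_mem (mul_mem (mem_sup_left h7) (mem_sup_right h9)) (inv_mem (mem_sup_left h7))
  · left
    have hro : Odd r := hr.odd_of_ne_two h2
    have h1 : Odd (center (A ⊔ A' : Subgroup G)).index := by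
      rw [← Nat.not_even_iff_odd, even_iff_two_dvd]
      intro h
      obtain ⟨q, hq⟩ := exists_prime_orderOf_dvd_card' (G := (A ⊔ A' : Subgroup G) ⧸ center _) 2 h
      obtain ⟨f, rfl⟩ := QuotientGroup.mk_surjective q
      obtain ⟨a, ha, hw⟩ := hf f
      have h3 : ρ (f ^ p) ∈ V := by
        have h4 : (QuotientGroup.mk' V) (ρ f) = (QuotientGroup.mk' V) (ρ a) := by
          rw [← mul_inv_eq_one, ← map_inv, ← map_mul, ← map_inv, ← map_mul]
          exact (QuotientGroup.eq_one_iff _).2 hw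
        have h5 : a ^ p = 1 := Subtype.ext (hA _ ha)
        rw [← QuotientGroup.eq_one_iff, map_pow]
        change QuotientGroup.mk' V (ρ f ^ p) = 1
        rw [map_pow, h4, ← map_pow, ← map_pow, h5, map_one, map_one]
      obtain ⟨k, h4⟩ := hW _ h3
      rw [← pow_mul, ← QuotientGroup.eq_one_iff, QuotientGroup.mk_pow, ← orderOf_dvd_iff_pow_eq_one,
        hq] at h4
      exact (Nat.not_even_iff_odd.2 (hp.mul hro.pow)) (even_iff_two_dvd.2 h4)
    rw [← Nat.not_even_iff_odd, even_iff_two_dvd]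
    intro h
    obtain ⟨f, hf'⟩ := exists_prime_orderOf_dvd_card' (G := (A ⊔ A' : Subgroup G)) 2 h
    have e : closure ((A : Set G) ∪ A') = A ⊔ A' := (sup_eq_closure A A').symm
    have h3 := tp ((A : Set G) ∪ A') p (by
      rintro s (hs | hs)
      · exact hA s hs
      · rw [h0'] at hs
        obtain ⟨b, hb, rfl⟩ := hs
        change (f0 * b * f0⁻¹) ^ p = 1
        rw [conj_pow, hA b hb, mul_one, mul_inv_cancel])
    rw [e] at h3
    have h4 : f ^ ((center (A ⊔ A' : Subgroup G)).index * p) = 1 := Subtype.ext (h3 f f.2)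
    rw [← orderOf_dvd_iff_pow_eq_one, hf'] at h4
    exact (Nat.not_even_iff_odd.2 (h1.mul hp)) (even_iff_two_dvd.2 h4)

end Cfsg.Agent.H64.CyCls
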