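import Mathlib
import Cfsg.Agent.H11.CyDefs
import Cfsg.Agent.H31.HermSU
import Cfsg.Agent.H64.CyClsA

/-! Project CY: the classification of the line groups. -/

set_option autoImplicit false

namespace Cfsg.Agent.H64.CyCls

open Subgroup MulAction Cfsg.Agent.H83 Cfsg.Agent.H11.Cy
open scoped MatrixGroups commutatorElement

section

variable {G : Type} [Group G] [Finite G] {Ω : Type} [MulAction G Ω] {p : ℕ} {A : Ω → Subgroup G}

omit [Finite G] in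
theorem acj (h : St p A) (g : G) (x : Ω) : A (g • x) = cj g (A x) := by
  refine le_antisymm (fun b hb => mem_cj.2 ?_) ?_
  · simpa using h.eqv g⁻¹ _ b hb
  · rintro _ ⟨a, ha, rfl⟩
    exact h.eqv g x a ha

omit [Finite G] in
theorem pw (h : St p A) (x : Ω) : ∀ a ∈ A x, a ^ p = 1 := fun a ha => by
  have := pow_card_eq_one' (G := A x) (x := ⟨a, ha⟩)
  rw [h.card] at this
  exact congrArg Subtype.val this

theorem ex (h : St p A) (x : Ω) : ∃ a ∈ A x, a ≠ 1 := by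
  have : A x ≠ ⊥ := (one_lt_card_iff_ne_bot _).1 (by rw [h.card]; exact h.pp.one_lt)
  obtain ⟨a, ha⟩ := ne_bot_iff_exists_ne_one.1 this
  exact ⟨a, a.2, fun e => ha (Subtype.ext e)⟩

theorem gen (h : St p A) {x : Ω} {a : G} (ha : a ∈ A x) (h1 : a ≠ 1) {K : Subgroup G}
    (hK : a ∈ K) : A x ≤ K := by
  have : Fact p.Prime := ⟨h.pp⟩
  have h2 : zpowers a = A x := eq_of_le_of_card_ge (zpowers_le.2 ha)
    (by rw [h.card, Nat.card_zpowers, orderOf_eq_prime (pw h x a ha) h1])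
  rw [← h2]
  exact zpowers_le.2 hK

theorem rns (h : St p A) (V : Subgroup G) (hn : V.Normal) (ht : IsPretransitive V Ω)
    (hr : ∀ x : Ω, stabilizer V x = ⊥) : ∃ r : ℕ, r.Prime ∧ IsPGroup r V := by
  obtain ⟨x, y, hxy⟩ := h.nt
  have key : ∀ v ∈ V, v • x = x → v = 1 := fun v hv e =>
    congrArg Subtype.val (mem_bot.1 ((hr x).le (show (⟨v, hv⟩ : V) ∈ stabilizer V x from e)))
  obtain ⟨v0, hv0⟩ := ht.exists_smul_eq x y
  have h1 : Nat.card V ≠ 1 := fun e => by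
    have := (Nat.card_eq_one_iff_unique.1 e).1
    rw [Subsingleton.elim v0 1, one_smul] at hv0
    exact hxy hv0
  obtain ⟨r, hr', hd⟩ := Nat.exists_prime_and_dvd h1
  have : Fact r.Prime := ⟨hr'⟩
  obtain ⟨w, hw⟩ := exists_prime_orderOf_dvd_card' r hd
  have w1 : (w : G) ≠ 1 := fun e => by
    rw [show w = 1 from Subtype.ext e, orderOf_one] at hw
    exact hr'.one_lt.ne hw
  have wr : (w : G) ^ r = 1 := congrArg Subtype.val (hw ▸ pow_orderOf_eq_one w)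
  refine ⟨r, hr', isPGroup_iff.2 fun v hv => ⟨1, ?_⟩⟩
  by_cases v1 : v = 1
  · rw [v1, one_pow]
  obtain ⟨g, -, g1, g2⟩ := h.two x trivial ((w : G) • x) trivial x trivial (v • x) trivial
    (fun e => w1 (key _ w.2 e.symm)) (fun e => v1 (key _ hv e.symm))
  have h2 : v⁻¹ * (g * w * g⁻¹) = 1 := key _ (mul_mem (inv_mem hv) (hn.conj_mem _ w.2 g)) (by
    rw [mul_smul, mul_smul, mul_smul, (inv_smul_eq_iff.2 g1.symm : g⁻¹ • x = x), g2, inv_smul_smul])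
  rw [inv_mul_eq_one.1 h2, pow_one, conj_pow, wr, mul_one, mul_inv_cancel]

theorem arith {p d c : ℕ} (hp : p.Prime) (h2 : p ≠ 2) (hd : d = Nat.gcd 3 (p + 1))
    (h : d * ((p + 1) * c) = H31.ordGU p 3) (hc : c ≤ p * ((p ^ 3 + 1) * (p ^ 3 + 1))) : False := by
  have h3 : 3 ≤ p := by have := hp.two_le; omega
  obtain ⟨t, ht⟩ : ∃ t, p ^ 2 = t + 1 := ⟨p ^ 2 - 1, by have := pow_pos hp.pos 2; omega⟩
  have e : H31.ordGU p 3 = (p + 1) * (p * (p ^ 3 + 1) * (p ^ 2 * t)) := by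
    have : p ^ 2 - 1 = t := by omega
    simp [H31.ordGU, Finset.prod_range_succ, this, show ¬ Even 1 by decide]
    ring
  have h4 : d * c = p * (p ^ 3 + 1) * (p ^ 2 * t) :=
    Nat.eq_of_mul_eq_mul_left (show 0 < p + 1 by omega) (by rw [← e, ← h]; ring)
  have h5 : p ^ 2 * t ≤ d * (p ^ 3 + 1) :=
    Nat.le_of_mul_le_mul_left (c := p * (p ^ 3 + 1)) (by
      rw [← h4]
      calc d * c ≤ d * (p * ((p ^ 3 + 1) * (p ^ 3 + 1))) := Nat.mul_le_mul_left d hc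
        _ = _ := by ring) (by positivity)
  rcases h3.eq_or_lt with rfl | h6
  · have : t = 8 := by omega
    subst this
    norm_num at hd
    subst hd
    norm_num at h5
  · have h7 : d ≤ 3 := hd ▸ Nat.gcd_le_left _ (by norm_num)
    have h8 : p ^ 2 * t ≤ 3 * (p ^ 3 + 1) := h5.trans (Nat.mul_le_mul_right _ h7)
    have h9 : 4 * p ≤ t + 1 := by nlinarith
    have h10 : 16 ≤ p ^ 2 := by nlinarith
    have h11 : p ^ 3 = p ^ 2 * p := by ring
    nlinarith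

/-- the alternatives for one pair of points -/
def Pr (p : ℕ) (A : Ω → Subgroup G) (x y : Ω) : Prop :=
  Odd (Nat.card (Fl A x y)) ∨
  (∃ R : Subgroup G, IsPGroup 2 R ∧ Fl A x y ≤ normalizer (R : Set G) ∧ Fl A x y = R ⊔ A x) ∨
  (5 ≤ p ∧ IsL2 (Fl A x y) p ∧ (Ln A x y).ncard = p + 1) ∨
  (IsSL2 (Fl A x y) p ∧ (Ln A x y).ncard = p + 1) ∨
  (p = 3 ∧ IsL2 (Fl A x y) 8 ∧ (Ln A x y).ncard = 28)

theorem pair (res : ResStmt) [Finite Ω] (h : St p A) (mc : Mc p A) (ml : Multi A) {x y : Ω}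
    (hxy : x ≠ y) : Pr p A x y := by
  have hx : x ∈ Ln A x y := (le_sup_left : A x ≤ Fl A x y)
  have hy : y ∈ Ln A x y := (le_sup_right : A y ≤ Fl A x y)
  have hFX : Fl A x y ≤ normalizer (Fl A x y : Set G) := le_normalizer
  have hpres := fun g hg => (mc.ep.nrm x y hxy g).1 hg
  obtain ⟨Y, _, _, _, π, B, hs, hact, hB, hSt⟩ := res G Ω p A h (normalizer (Fl A x y : Set G))
    (Ln A x y) hpres (fun z hz => le_trans hz hFX) (mc.ep.tr x y hxy) ⟨x, hx, y, hy, hxy⟩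
  have hlt : Nat.card Y < Nat.card G := by
    refine (Nat.card_le_card_of_surjective π hs).trans_lt (lt_of_not_ge fun hge => ml x y hxy ?_)
    have e := eq_top_of_le_card _ hge
    refine Set.eq_univ_of_forall fun z => ?_
    by_cases hz : z = x
    · exact hz ▸ hx
    obtain ⟨g, -, -, g2⟩ := h.two x trivial y trivial x trivial z trivial hxy (Ne.symm hz)
    exact g2 ▸ hpres g (e ▸ mem_top g) y hy
  let ρ : Fl A x y →* Y := π.comp (inclusion hFX)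
  have hρ : ∀ (f : Fl A x y) (z : Ln A x y), ((ρ f • z : Ln A x y) : Ω) = (f : G) • (z : Ω) :=
    fun f z => hact _ z
  have hker : ∀ f, ρ f = 1 ↔ (f : G) ∈ Kl A x y := fun f => by
    rw [mc.ep.kfix x y hxy]
    refine ⟨fun e z hz => ?_, fun e => hSt.faith _ fun z => Subtype.ext ?_⟩
    · rw [← hρ f ⟨z, hz⟩, e, one_smul]
    · rw [hρ, e z z.2]
  have hk : ρ.ker ≤ center _ := fun f hf => mem_center_iff.2 fun g =>
    Subtype.ext (mem_centralizer_iff.1 ((hker f).1 hf) g g.2)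
  have hBm : ∀ (z : Ln A x y) b, b ∈ B z ↔ ∃ a : Fl A x y, (a : G) ∈ A z ∧ ρ a = b := fun z b => by
    rw [hB]
    constructor
    · rintro ⟨a, ha, rfl⟩
      exact ⟨⟨a, z.2 ha⟩, ha, rfl⟩
    · rintro ⟨a, ha, rfl⟩
      exact ⟨inclusion hFX a, ha, rfl⟩
  have htr : ∀ z ∈ Ln A x y, ∀ w ∈ Ln A x y, ∃ f ∈ Fl A x y, f • z = w := fun z hz w hw => by
    by_cases e : z = w
    · exact ⟨1, one_mem _, by rw [one_smul, e]⟩
    obtain ⟨a, ha, a1⟩ := ex h x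
    have haF : a ∈ Fl A x y := mem_sup_left ha
    obtain ⟨g, hg, g1, g2⟩ := mc.ep.tr x y hxy y hy (a • y) (hpres a (hFX haF) y hy) z hz w hw
      (fun e => (h.semi x y a ha e.symm).elim a1 hxy.symm) e
    exact ⟨g * a * g⁻¹, (mem_normalizer_iff.1 hg a).1 haF, by
      rw [mul_smul, mul_smul, ← g1, inv_smul_smul, g2]⟩
  have hrg : ∀ K : Subgroup Y, B ⟨x, hx⟩ ≤ K → B ⟨y, hy⟩ ≤ K → ∀ f, ρ f ∈ K := fun K h1 h2 f => by
    have : Fl A x y ≤ (K.comap ρ).map (Fl A x y).subtype := sup_le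
      (fun a ha => ⟨⟨a, mem_sup_left ha⟩, h1 ((hBm _ _).2 ⟨_, ha, rfl⟩), rfl⟩)
      (fun a ha => ⟨⟨a, mem_sup_right ha⟩, h2 ((hBm _ _).2 ⟨_, ha, rfl⟩), rfl⟩)
    obtain ⟨f', h3, e⟩ := this f.2
    exact (Subtype.ext e : f' = f) ▸ h3
  rcases mc.ih Y (Ln A x y) p B hSt hlt with ⟨V, hV, ht, hr⟩ | ⟨M, hM, hsim, hBM, ⟨z, m, hm, mz, mc'⟩, hc⟩
  · obtain ⟨r, hr', hV'⟩ := rns hSt V hV ht hr
    obtain ⟨f0, h0, h0'⟩ := htr x hx y hy
    obtain ⟨v, hv⟩ := ht.exists_smul_eq ⟨x, hx⟩ ⟨y, hy⟩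
    have h1 := hrg (V ⊔ B ⟨x, hx⟩) le_sup_right (by
      rw [← hv]
      change B ((v : Y) • _) ≤ _
      rw [acj hSt]
      exact cj_le_of_mem le_sup_right (mem_sup_left v.2))
    rcases sol (h.pp.odd_of_ne_two mc.p2) hr' (pw h x) ρ hk V hV' (fun f => by
      obtain ⟨u, hu, b, hb, e⟩ := mem_sup_of_normal_left.1 (h1 f)
      obtain ⟨a, ha, rfl⟩ := (hBm _ _).1 hb
      exact ⟨a, ha, by rwa [map_mul, map_inv, ← e, mul_inv_cancel_right]⟩) h0
      (by rw [← acj h, h0']) with t | t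
    · exact Or.inl t
    · exact Or.inr (Or.inl t)
  have hin := hrg M (hBM _) (hBM _)
  have hrn : ρ.range.Normal := ⟨by
    rintro _ ⟨f, rfl⟩ g
    obtain ⟨g, rfl⟩ := hs g
    refine ⟨⟨g * f * (g : G)⁻¹, (mem_normalizer_iff.1 g.2 f).1 f.2⟩, ?_⟩
    change π _ = π g * π _ * (π g)⁻¹
    rw [← map_mul, ← map_inv, ← map_mul]
    rfl⟩
  obtain ⟨b, hb, b1⟩ := ex hSt ⟨x, hx⟩
  obtain ⟨a, ha, rfl⟩ := (hBm _ _).1 hb
  have hMr : ∀ m ∈ M, ∃ f, ρ f = m := fun m hm => by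
    rcases (hrn.subgroupOf M).eq_bot_or_eq_top with e | e
    · exact (b1 (congrArg Subtype.val (mem_bot.1 (e.le
        (show (⟨ρ a, hin a⟩ : M) ∈ ρ.range.subgroupOf M from ⟨a, rfl⟩))))).elim
    · exact (e.ge (mem_top (⟨m, hm⟩ : M)) : (⟨m, hm⟩ : M) ∈ ρ.range.subgroupOf M)
  have hperf : Group.IsPerfect (Fl A x y) := by
    obtain ⟨f, rfl⟩ := hMr m hm
    have fz : (f : G) • (z : Ω) = z := by rw [← hρ, mz]
    have h1 : A z ≤ ⁅Fl A x y, Fl A x y⁆ := by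
      by_contra hne
      refine mc' (mem_centralizer_iff.2 fun b hb => ?_)
      obtain ⟨c, hc, rfl⟩ := (hBm _ _).1 hb
      have h2 : ⁅(f : G), (c : G)⁆ ∈ A z := by
        have := h.eqv f z c hc
        rw [fz] at this
        exact mul_mem this (inv_mem hc)
      have h3 : ⁅(f : G), (c : G)⁆ = 1 := by
        by_contra h3
        exact hne (gen h h2 h3 (commutator_mem_commutator f.2 c.2))
      rw [← map_mul, ← map_mul]
      exact congrArg ρ (Subtype.ext (commutatorElement_eq_one_iff_mul_comm.1 h3).symm)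
    have h2 : ∀ w ∈ Ln A x y, A w ≤ ⁅Fl A x y, Fl A x y⁆ := fun w hw => by
      obtain ⟨g, hg, e⟩ := htr z z.2 w hw
      rw [← e, acj h]
      refine (cj_mono g h1).trans ?_
      rw [cj_comm, cj_eq_self (hFX hg)]
    exact Subgroup.isPerfect_iff.2 (le_antisymm (commutator_le.2 fun u hu v hv =>
      mul_mem (mul_mem (mul_mem hu hv) (inv_mem hu)) (inv_mem hv)) (sup_le (h2 x hx) (h2 y hy)))
  have hcov : ∀ q, 4 < q → q ≠ 9 → IsL2 M q → IsL2 (Fl A x y) q ∨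
      (IsSL2 (Fl A x y) q ∧ 2 ≤ Nat.gcd 2 (q - 1)) := by
    rintro q h4 h9 ⟨K, _, _, rfl, ⟨e⟩⟩
    rcases cover h4 h9 (σ := e.toMonoidHom.comp (ρ.codRestrict M hin)) ⟨fun t => by
      obtain ⟨f, hf⟩ := hMr _ (e.symm t).2
      exact ⟨f, (congrArg e (Subtype.ext hf : (⟨_, hin f⟩ : M) = e.symm t)).trans
        (e.apply_symm_apply t)⟩,
      fun f hf => hk (congrArg Subtype.val ((map_eq_one_iff e e.injective).1 hf))⟩ with t | t
    · exact Or.inl ⟨K, _, _, rfl, t⟩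
    · exact Or.inr ⟨⟨K, _, _, rfl, t.1⟩, t.2⟩
  rw [Nat.card_coe_set_eq] at hc
  rcases hc with ⟨h5, hn, hL⟩ | ⟨hn, K, _, _, hK, ⟨e⟩⟩ | ⟨h3, hn, hL, -⟩
  · rcases hcov p (by omega) (by rintro rfl; exact absurd h.pp (by norm_num)) hL with t | t
    · exact Or.inr (Or.inr (Or.inl ⟨h5, t, hn⟩))
    · exact Or.inr (Or.inr (Or.inr (Or.inl ⟨t.1, hn⟩)))
  · exfalso
    refine arith h.pp mc.p2 rfl (H31.card_PSU hK (n := 3) (by norm_num)) ?_
    rw [← Nat.card_congr e.toEquiv]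
    set D := stabilizer Y (⟨x, hx⟩ : Ln A x y) ⊓ stabilizer Y (⟨y, hy⟩ : Ln A x y) with hD
    have hi : ∀ w : Ln A x y, (stabilizer Y w).relIndex M ≤ p ^ 3 + 1 := fun w => by
      refine (relIndex_le_of_le_right le_top (by
        rw [relIndex_top_right]; exact index_ne_zero_of_finite)).trans ?_
      rw [relIndex_top_right, index_stabilizer, ← hn, ← Nat.card_coe_set_eq (Ln A x y),
        ← Set.ncard_univ]
      exact Set.ncard_le_ncard (Set.subset_univ _)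
    rw [← (D.subgroupOf M).card_mul_index]
    refine Nat.mul_le_mul ?_ (relIndex_inf_le.trans (Nat.mul_le_mul (hi _) (hi _)))
    rw [← hSt.card ⟨x, hx⟩]
    refine Nat.card_le_card_of_injective (fun d => ⟨(d.1 : Y) * ρ a * (d.1 : Y)⁻¹, by
      have := hSt.eqv (d.1 : Y) _ _ hb
      rwa [show (d.1 : Y) • (⟨x, hx⟩ : Ln A x y) = ⟨x, hx⟩ from d.2.1] at this⟩) fun d d' e => ?_
    have e1 : (d.1 : Y) * ρ a * (d.1 : Y)⁻¹ = (d'.1 : Y) * ρ a * (d'.1 : Y)⁻¹ := congrArg Subtype.val e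
    obtain ⟨f, hf⟩ := hMr _ (mul_mem (inv_mem d'.1.2) d.1.2)
    have hfD : ρ f ∈ D := hf ▸ mul_mem (inv_mem d'.2) d.2
    have fx : (f : G) • x = x := (hρ f ⟨x, hx⟩).symm.trans (congrArg Subtype.val hfD.1)
    have fy : (f : G) • y = y := (hρ f ⟨y, hy⟩).symm.trans (congrArg Subtype.val hfD.2)
    have h2 : ((⁅f, a⁆ : Fl A x y) : G) ∈ A x := by
      have := h.eqv f x a ha
      rw [fx] at this
      exact mul_mem this (inv_mem ha)
    have h3 : ρ ⁅f, a⁆ = 1 := by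
      rw [map_commutatorElement, hf, commutatorElement_def, mul_inv_rev, inv_inv]
      calc _ = (d'.1 : Y)⁻¹ * ((d.1 : Y) * ρ a * (d.1 : Y)⁻¹) * d'.1 * (ρ a)⁻¹ := by group
        _ = 1 := by rw [e1]; group
    have h4 : ⁅(f : G), (a : G)⁆ = 1 :=
      (h.semi x y _ h2 ((mc.ep.kfix x y hxy _).1 ((hker _).1 h3) y hy)).resolve_right hxy.symm
    have a1 : (a : G) ≠ 1 := fun e => b1 (by rw [show a = 1 from Subtype.ext e, map_one])
    have h5 : A x ≤ centralizer {(f : G)} := gen h ha a1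
      (mem_centralizer_singleton_iff.2 (commutatorElement_eq_one_iff_mul_comm.1 h4).symm)
    have h6 := (hker f).2 (mc.ep.eps x y hxy f ⟨fx, fy⟩ (mem_centralizer_iff.2 fun c hc =>
      mem_centralizer_singleton_iff.1 (h5 hc)))
    rw [hf, inv_mul_eq_one] at h6
    exact Subtype.ext (Subtype.ext h6.symm)
  · rcases hcov 8 (by norm_num) (by norm_num) hL with t | t
    · exact Or.inr (Or.inr (Or.inr (Or.inr ⟨h3, t, hn⟩)))
    · exact absurd t.2 (by norm_num)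

end

theorem cls (res : ResStmt) : ClsStmt := by
  intro G _ _ Ω _ _ p A h mc ml
  obtain ⟨x, y, hxy⟩ := h.nt
  have tr : ∀ z w, z ≠ w → ∃ g : G, A z = cj g (A x) ∧ Fl A z w = cj g (Fl A x y) ∧
      (Ln A z w).ncard = (Ln A x y).ncard ∧ Nonempty (Fl A z w ≃* Fl A x y) := fun z w hzw => by
    obtain ⟨g, -, rfl, rfl⟩ := h.two x trivial y trivial z trivial w trivial hxy hzw
    have e : Fl A (g • x) (g • y) = cj g (Fl A x y) := by rw [cj_sup, ← acj h, ← acj h]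
    refine ⟨g, acj h g x, e, ?_, ⟨(MulEquiv.subgroupCongr e).trans
      ((Fl A x y).equivMapOfInjective _ (MulAut.conj g).injective).symm⟩⟩
    rw [← Set.ncard_image_of_injective (Ln A x y) (MulAction.injective g)]
    congr 1
    ext t
    obtain ⟨t, rfl⟩ := MulAction.surjective g t
    rw [(MulAction.injective g).mem_set_image]
    change A (g • t) ≤ _ ↔ A t ≤ _
    rw [e, acj h, cj_le_cj_iff]
  rcases pair res h mc ml hxy with t | ⟨R, r1, r2, r3⟩ | ⟨h5, ⟨K, _, _, hK, ⟨e⟩⟩, hn⟩ |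
    ⟨⟨K, _, _, hK, ⟨e⟩⟩, hn⟩ | ⟨h3, ⟨K, _, _, hK, ⟨e⟩⟩, hn⟩
  · refine Or.inl fun z w hzw => ?_
    obtain ⟨g, -, e, -⟩ := tr z w hzw
    rwa [e, card_cj]
  · refine Or.inr (Or.inl fun z w hzw => ?_)
    obtain ⟨g, e1, e, -⟩ := tr z w hzw
    refine ⟨cj g R, isPGroup_cj r1 g, ?_, ?_⟩
    · rw [e, ← cj_normalizer]
      exact cj_mono g r2
    · rw [e, e1, ← cj_sup, ← r3]
  · refine Or.inr (Or.inr (Or.inl ⟨h5, fun z w hzw => ?_⟩))
    obtain ⟨g, -, -, e1, ⟨e2⟩⟩ := tr z w hzw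
    exact ⟨⟨K, _, _, hK, ⟨e2.trans e⟩⟩, e1.trans hn⟩
  · refine Or.inr (Or.inr (Or.inr (Or.inl fun z w hzw => ?_)))
    obtain ⟨g, -, -, e1, ⟨e2⟩⟩ := tr z w hzw
    exact ⟨⟨K, _, _, hK, ⟨e2.trans e⟩⟩, e1.trans hn⟩
  · refine Or.inr (Or.inr (Or.inr (Or.inr ⟨h3, fun z w hzw => ?_⟩)))
    obtain ⟨g, -, -, e1, ⟨e2⟩⟩ := tr z w hzw
    exact ⟨⟨K, _, _, hK, ⟨e2.trans e⟩⟩, e1.trans hn⟩

end Cfsg.Agent.H64.CyCls
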