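import Cfsg.Agent.H50.E72Defs
import Cfsg.Agent.H26.SLBasic

/-! A subgroup `L₄(3)` fixes a vector of the module of dimension 56. -/

set_option autoImplicit false

namespace Cfsg.Agent.H64.E72L43

open Cfsg.Agent.H50.E72 Module Matrix.SpecialLinearGroup
open scoped MatrixGroups

theorem tv_eq {i j : Fin 4} (h : i ≠ j) : Tv i j = transvection h 1 := dif_pos h

theorem t30 : Tv 3 0 = Tv 3 1 * Tv 1 0 * (Tv 3 1 * Tv 3 1) * (Tv 1 0 * Tv 1 0) :=
  Subtype.ext (by decide +kernel)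

theorem l43 (ha : L43aStmt) (hb : L43bStmt) (hc : L43cStmt) : L43Stmt := by
  intro π hπ φ₀ hi
  let φ : SL(4, ZMod 3) →* G0 := φ₀.comp (QuotientGroup.mk' _)
  obtain ⟨d1, d2⟩ := ha π hπ φ fun h => by
    have := (QuotientGroup.eq_one_iff _).1 ((map_eq_one_iff φ₀ hi).1 h)
    rw [tv_eq (by decide), transvection_mem_center_iff] at this
    exact one_ne_zero this
  have e : Fix π (rowS φ) = Fix π (colS φ) := Submodule.eq_of_le_of_finrank_eq
    (fun v hv => (mem_Fix π).2 fun g hg => by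
      rcases hg with rfl | rfl | rfl
      · exact (mem_Fix π).1 hv _ (by simp [rowS])
      · simpa [mem_eig] using hb π φ d1 1 3 (by decide) (by decide) hv
      · simpa [mem_eig] using hb π φ d1 2 3 (by decide) (by decide) hv) (d1.trans d2.symm)
  obtain ⟨v, hv, v0⟩ := (Submodule.ne_bot_iff (Fix π (rowS φ))).1 fun h => by
    rw [h, finrank_bot] at d1; exact absurd d1 (by decide)
  have m : ∀ A B, act π (φ A) v = v → act π (φ B) v = v → act π (φ (A * B)) v = v :=
    fun A B h1 h2 => by rw [map_mul, map_mul, Module.End.mul_apply, h2, h1]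
  have k1 : ∀ i j, i ≠ 0 → j ≠ 0 → act π (φ (Tv i j)) v = v := fun i j h1 h2 => by
    simpa [mem_eig] using hb π φ d1 i j h1 h2 hv
  have k2 : ∀ i j, i ≠ 3 → j ≠ 3 → act π (φ (Tv i j)) v = v := fun i j h1 h2 => by
    simpa [mem_eig] using hc π φ d2 i j h1 h2 (e ▸ hv)
  have k : ∀ i j, i ≠ j → act π (φ (Tv i j)) v = v := fun i j h => by
    rcases (by decide : ∀ i j : Fin 4, i ≠ j → (i ≠ 0 ∧ j ≠ 0) ∨ (i ≠ 3 ∧ j ≠ 3) ∨ (i = 0 ∧ j = 3) ∨
      (i = 3 ∧ j = 0)) i j h with h | h | ⟨rfl, rfl⟩ | ⟨rfl, rfl⟩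
    · exact k1 i j h.1 h.2
    · exact k2 i j h.1 h.2
    · exact (mem_Fix π).1 hv _ (by simp [rowS])
    · have a := k1 3 1 (by decide) (by decide)
      have b := k2 1 0 (by decide) (by decide)
      rw [t30]
      exact m _ _ (m _ _ (m _ _ a b) (m _ _ a a)) (m _ _ b b)
  have o : act π (φ 1) v = v := by rw [map_one, map_one, Module.End.one_apply]
  refine ⟨v, v0, ?_⟩
  rintro _ ⟨g, rfl⟩
  obtain ⟨A, rfl⟩ := QuotientGroup.mk'_surjective _ g
  refine H26.sl_transvection_induction (fun A => act π (φ A) v = v) o (fun i j h c => ?_) m A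
  have a := k i j h
  rw [tv_eq h] at a
  rcases (by decide : ∀ c : ZMod 3, c = 0 ∨ c = 1 ∨ c = 1 + 1) c with rfl | rfl | rfl
  · rw [transvection_coeff_zero]; exact o
  · exact a
  · rw [transvection_add]; exact m _ _ a a

end Cfsg.Agent.H64.E72L43
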