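import Cfsg.Agent.H99.E72Defs

/-! A group with a normal subgroup of index dividing 12 that fixes a vector stabilises a small space. -/

set_option autoImplicit false

namespace Cfsg.Agent.H64.E72Sub

open Cfsg.Agent.H99.E72 MulAction Subgroup

theorem inv_span {σ : EV} {a b : V} (ha : σ a ∈ Submodule.span (ZMod 2) {a, b})
    (hb : σ b ∈ Submodule.span (ZMod 2) {a, b}) :
    ∀ u ∈ Submodule.span (ZMod 2) {a, b}, σ u ∈ Submodule.span (ZMod 2) {a, b} := fun _ hu =>
  (Submodule.span_le (p := (Submodule.span (ZMod 2) {a, b}).comap σ)).2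
    (by rintro _ (rfl | rfl); exacts [ha, hb]) hu

theorem sub : SubStmt := by
  classical
  intro Γ _ _ σ S hS hi v v0 hv
  letI : DistribMulAction Γ V := DistribMulAction.compHom V σ
  obtain ⟨T⟩ : Nonempty (Sylow 2 Γ) := inferInstance
  have h2 : 2 ∣ Nat.card (fixedPoints S V) := by
    have e : addOrderOf (⟨v, fun s => hv s s.2⟩ : FixedPoints.addSubgroup S V) = 2 :=
      addOrderOf_eq_prime (Subtype.ext (by
        change 2 • v = 0
        rw [two_nsmul]; exact funext fun i => CharTwo.add_self_eq_zero _))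
        fun h => v0 (congrArg Subtype.val h)
    exact e.symm.dvd.trans (addOrderOf_dvd_natCard (G := FixedPoints.addSubgroup S V) _)
  obtain ⟨w, hw, w0⟩ := T.2.exists_fixed_point_of_prime_dvd_card_of_fixed_point (fixedPoints S V) h2
    (a := ⟨0, fun s => smul_zero s⟩) fun g => Subtype.ext (smul_zero g.1)
  have w0' : (w : V) ≠ 0 := fun h => w0 (Subtype.ext h.symm)
  have d1 : (stabilizer Γ (w : V)).index ∣ 12 :=
    (index_dvd_of_le (K := stabilizer Γ (w : V)) fun s hs => w.2 ⟨s, hs⟩).trans hi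
  have d2 : ¬ 2 ∣ (stabilizer Γ (w : V)).index := fun h => T.not_dvd_index
    (h.trans (index_dvd_of_le fun t ht => congrArg Subtype.val (hw ⟨t, ht⟩)))
  obtain ⟨O, hO⟩ : ∃ O : Finset V, (O : Set V) = orbit Γ (w : V) := ⟨_, (Set.toFinite _).coe_toFinset⟩
  rw [index_stabilizer, ← hO, Set.ncard_coe_finset] at d1 d2
  have mO : ∀ (g : Γ) x, x ∈ O ↔ g • x ∈ O := fun g x => by
    rw [← Finset.mem_coe, ← Finset.mem_coe, hO]
    exact ⟨fun h => mapsTo_smul_orbit g _ h, fun h => by
      simpa using mapsTo_smul_orbit g⁻¹ _ h⟩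
  have n0 : ∀ x ∈ O, x ≠ 0 := fun x hx h => by
    rw [← Finset.mem_coe, hO] at hx
    obtain ⟨g, rfl⟩ := hx
    exact w0' ((smul_eq_zero_iff_eq g).1 h)
  by_cases s0 : ∑ x ∈ O, x = 0
  · have : O.card = 1 ∨ O.card = 3 := by
      have := Nat.le_of_dvd (by norm_num) d1
      generalize O.card = n at *
      interval_cases n <;> simp_all
    rcases this with hc | hc
    · obtain ⟨a, rfl⟩ := Finset.card_eq_one.1 hc
      exact absurd (by simpa using s0) (n0 a (by simp))
    · obtain ⟨a, b, c, ab, ac, bc, rfl⟩ := Finset.card_eq_three.1 hc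
      rw [Finset.sum_insert (by simp [ab, ac]), Finset.sum_pair bc, ← add_assoc] at s0
      have k : ∀ x ∈ ({a, b, c} : Finset V), x ∈ Submodule.span (ZMod 2) {a, b} := fun x hx => by
        have ma : a ∈ Submodule.span (ZMod 2) {a, b} := Submodule.subset_span (by simp)
        have mb : b ∈ Submodule.span (ZMod 2) {a, b} := Submodule.subset_span (by simp)
        simp only [Finset.mem_insert, Finset.mem_singleton] at hx
        rcases hx with rfl | rfl | rfl
        exacts [ma, mb, eq_neg_of_add_eq_zero_right s0 ▸ neg_mem (add_mem ma mb)]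
      exact ⟨a, b, n0 a (by simp), fun g => inv_span (k _ ((mO g a).1 (by simp)))
        (k _ ((mO g b).1 (by simp)))⟩
  · refine ⟨_, ∑ x ∈ O, x, s0, fun g => ?_⟩
    have e : σ g (∑ x ∈ O, x) = ∑ x ∈ O, x := by
      rw [map_sum]
      exact Finset.sum_bijective _ (MulAction.bijective g) (mO g) fun _ _ => rfl
    have m : σ g (∑ x ∈ O, x) ∈ Submodule.span (ZMod 2) {∑ x ∈ O, x, ∑ x ∈ O, x} := by
      rw [e]; exact Submodule.subset_span (by simp)
    exact inv_span m m

end Cfsg.Agent.H64.E72Sub
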