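import Mathlib
import Cfsg.Agent.H6.E82Defs

/-! The Frobenius map of `E₈` in characteristic two. -/

set_option autoImplicit false

namespace Cfsg.Agent.H64.E82Frame

open Equiv Cfsg.Lie H37 H40 H34 H29 Module H6.E82 Finset
open scoped Matrix

theorem hφ (t : K) : frobenius K 2 t = t ^ 2 := frobenius_def ..

theorem hι (x : K) : frobenius K 2 x = x ↔ ∃ y, algebraMap (ZMod 2) K y = x := by
  rw [hφ, ← mem_range_of_pow_card, ZMod.card]

theorem frame : FrameStmt := by
  refine ⟨fun n => ?_, fun g hg => ?_, fun g => ?_, fun g v => funext fun i => ?_, fun r t => ?_,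
    fun h hh => ?_⟩
  · obtain ⟨y, hy⟩ := C8.lang_field (by decide) hφ n
    exact ⟨y, inv_mul_eq_iff_eq_mul.1 hy⟩
  · have := C8.pow_mem_range hι (by decide) hφ (C8.pow_eq_one_of_inv invE8) hg
    rwa [Nat.gcd_one_left, pow_one] at this
  · exact C8.range_le_fix hι ⟨g, rfl⟩
  · rw [act_apply, act_apply, φ, C8.V.coe_coe_fieldHom, Fr, ← hφ]
    exact RingHom.map_mulVec (frobenius K 2) _ v i
  · exact C8.V.fieldHom_xE _ r t
  · obtain ⟨c, rfl⟩ := H34.Cert.mem_H_iff.1 hh
    rw [← map_pow]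
    exact C8.fieldHom_tg_pow hφ c

end Cfsg.Agent.H64.E82Frame
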