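import Mathlib
import Cfsg.Agent.H50.E83Defs2

/-! Elements of the Weyl group of `E₈` fixing one or two labels modulo two and a positive subsystem. -/

set_option autoImplicit false
set_option maxRecDepth 100000

namespace Cfsg.Agent.H64.E83SW

open Equiv Cfsg.Lie H37 H40 H34 H29 Cfsg.Agent.H50.E83

/-- The first label in terms of the tables. -/
def p1 (E : Tab) (r : ℕ) : ℤ := E.cr r 2 + E.cr r 3

/-- The second label in terms of the tables. -/
def p2 (E : Tab) (r : ℕ) : ℤ := E.cr r 5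

theorem f1_eq (r : Rt) : f1 r = p1 (tabOf chevE8) r := by
  have h : ∀ r < 240, ∑ j : Fin 8, gt rcE8 r j * (([0, 0, 1, 1, 0, 0, 0, 0] : List ℕ).getD j 0 : ℕ) =
      p1 (tabOf chevE8) r := by
    rw [tabOf_eq validE8]; decide +kernel
  simp only [f1, vN, rc_eq C8 tabOKE8]
  exact h r r.2

theorem f2_eq (r : Rt) : f2 r = p2 (tabOf chevE8) r := by
  have h : ∀ r < 240, ∑ j : Fin 8, gt rcE8 r j * (([0, 0, 0, 0, 0, 1, 0, 0] : List ℕ).getD j 0 : ℕ) =
      p2 (tabOf chevE8) r := by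
    rw [tabOf_eq validE8]; decide +kernel
  simp only [f2, vN, rc_eq C8 tabOKE8]
  exact h r r.2

theorem sgv_f1 (r : Rt) : (tabOf chevE8).sgv 3 r % 2 = f1 r % 2 := by
  have h : ∀ r < 240, (tabOf chevE8).sgv 3 r % 2 = p1 (tabOf chevE8) r % 2 := by
    rw [tabOf_eq validE8]; decide +kernel
  rw [f1_eq]
  exact h r r.2

theorem mod_eq {a b : ℤ} (h : (a : ZMod 2) = b) : a % 2 = b % 2 :=
  (ZMod.intCast_eq_intCast_iff' a b 2).1 h

theorem s2w : S2wStmt := fun w hw h1 h2 =>
  subE8m3.rigid (C := C8) rigE8m3 w hw (fun r => by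
    change (tabOf chevE8).sgv 3 (w r) % 2 = 0 ↔ (tabOf chevE8).sgv 3 r % 2 = 0
    rw [sgv_f1, sgv_f1, mod_eq (h1 r)])
    fun r hr => h2 r (Int.even_iff.2 ((sgv_f1 r).symm.trans hr))

/-- `4 ρ + 2 f₁ + f₂`, the labels taken modulo two. -/
def lbL : List ℤ :=
  [-40, -32, -24, -47, -39, -45, -31, -37, -23, -29, -21, -46, -38, -30, -23, -15, -21, -13, -38, -30, -22, -7,
    1, -24, -16, -8, -5, -30, -22, -14, -22, -14, -6, -37, -29, -21, 3, -22, -14, -6, -14, -6, 2, -29, -21, -13,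
    -24, -16, -8, -39, -31, -23, -31, -23, -15, -40, -6, 2, 10, -21, -13, -5, -13, -5, 3, -22, -23, -15, -7,
    -32, -24, -15, -7, 1, -24, -16, -22, -8, 2, 10, 18, -13, -5, 3, -5, 3, 11, -14, -15, -7, 1, -24, -16, 3, 11,
    19, -6, 2, -8, -7, 1, 9, -16, -8, -14, 11, 19, 27, 2, 10, 1, 9, 17, -8, 9, 17, 25, -16, -8, -8, 8, 8, 16,
    -23, -15, -7, 8, -15, -7, 1, -6, 2, -21, -13, -5, 18, 8, 16, -7, 1, 9, 8, 2, 10, -13, -5, 3, 16, 24, 1, 9,
    17, 18, -5, 3, 11, 3, 11, 19, -14, -6, 2, 8, 26, 16, 24, 1, 9, 17, 24, 32, 9, 17, 25, 26, 3, 11, 19, 11, 19,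
    27, -6, 2, 10, 40, 17, 25, 33, 25, 33, 41, 8, 16, 24, 19, 27, 35, 2, 10, 18, 10, 18, 26, 3, 27, 35, 43, 10,
    18, 26, 18, 26, 34, 11, 8, 16, 24, 1, 9, 26, 34, 42, 19, 27, 17, 25, 34, 42, 50, 27, 35, 25, 43, 33, 51, 41,
    49, 24, 32, 40]

/-- The invariant of a root. -/
def lb (s : ℕ) : ℤ := lbL.getD s 0

/-- The roots with both labels even that are positive. -/
def Ps (E : Tab) (t : ℕ) : Prop := p1 E t % 2 = 0 ∧ p2 E t % 2 = 0 ∧ E.Pos t

instance instDecidablePs (E : Tab) (t : ℕ) : Decidable (Ps E t) := by unfold Ps; infer_instance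

theorem lb_tab : (∀ j < 8, ([18, 24, 34, 46, 36, 24, 18, 10] : List ℤ).getD j 0 =
      sumLt (fun t => if Ps (tabOf chevE8) t then (tabOf chevE8).cr t j else 0) 240) ∧
    ∀ s < 240, lb s = 4 * sumLt (fun j => ([18, 24, 34, 46, 36, 24, 18, 10] : List ℤ).getD j 0 *
      (tabOf chevE8).ca j s) 8 + 2 * (p1 (tabOf chevE8) s % 2) + p2 (tabOf chevE8) s % 2 := by
  rw [tabOf_eq validE8]; decide +kernel

theorem ps_iff (t : Rt) : Ps (tabOf chevE8) t ↔ Even (f1 t) ∧ Even (f2 t) ∧ C8.R.Pos t := by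
  rw [Ps, ← f1_eq, ← f2_eq, tab_pos C8, Int.even_iff, Int.even_iff]

theorem lb_eq (s : Rt) : lb s = 4 * (∑ t : Rt, if Ps (tabOf chevE8) t then C8.R.pair t s else 0) +
    2 * (f1 s % 2) + f2 s % 2 := by
  rw [lb_tab.2 s s.2, f1_eq, f2_eq]
  congr 3
  have e : ∀ j : Fin chevE8.rank, ([18, 24, 34, 46, 36, 24, 18, 10] : List ℤ).getD j 0 =
      ∑ t : Rt, if Ps (tabOf chevE8) t then C8.R.co t j else 0 := fun j => by
    rw [lb_tab.1 j j.2]
    exact (sumLt_fin _ chevE8.nroots).trans (Finset.sum_congr rfl fun t _ => by rw [C8.co_eq]; rfl)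
  refine (sumLt_fin _ chevE8.rank).trans ?_
  simp only [e, Finset.sum_mul, RS.pair_def]
  rw [Finset.sum_comm]
  refine Finset.sum_congr rfl fun t _ => ?_
  split_ifs
  · exact Finset.sum_congr rfl fun j _ => by rw [C8.wt_eq]; rfl
  · simp

/-- `s` is a possible image of `r`, when the images `K` are known. -/
noncomputable def ok (E : Tab) (K : List (ℕ × ℕ)) (r s : ℕ) : Bool :=
  lb s == lb r && K.all fun p => E.pair p.2 s == E.pair p.1 r

/-- The images of the roots of a list are successively determined. -/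
noncomputable def chain (E : Tab) : List (ℕ × ℕ) → List (ℕ × ℕ) → Bool
  | _, [] => true
  | K, p :: L => (decide (p.1 < 240) && (List.range 240).all fun s => !ok E K p.1 s || s == p.2) &&
    chain E (p :: K) L

section
variable {w : Perm Rt} (hw : w ∈ C8.S.W) (hl : ∀ s, lb (w s) = lb s)

variable (w) in
/-- The images `K` are those of `w`. -/
def Kn (K : List (ℕ × ℕ)) : Prop := ∀ p ∈ K, ∃ r : Rt, (r : ℕ) = p.1 ∧ (w r : ℕ) = p.2

include hw hl

theorem ok_of {K : List (ℕ × ℕ)} (h : Kn w K) (r : Rt) : ok (tabOf chevE8) K r (w r) = true := by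
  simp only [ok, Bool.and_eq_true, beq_iff_eq, List.all_eq_true]
  refine ⟨hl r, fun p hp => ?_⟩
  obtain ⟨t, h1, h2⟩ := h p hp
  rw [← h1, ← h2, tab_pair, tab_pair]
  exact H40.pairing_W C8 hw t r

theorem step {K : List (ℕ × ℕ)} (h : Kn w K) {a b : ℕ} (ha : a < 240)
    (hs : ((List.range 240).all fun s => !ok (tabOf chevE8) K a s || s == b) = true) : Kn w ((a, b) :: K) := by
  intro p hp
  rcases List.mem_cons.1 hp with rfl | hp
  · refine ⟨⟨a, ha⟩, rfl, ?_⟩
    have := List.all_eq_true.1 hs _ (List.mem_range.2 (w ⟨a, ha⟩).2)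
    rw [show ok (tabOf chevE8) K a (w ⟨a, ha⟩) = true from ok_of hw hl h ⟨a, ha⟩] at this
    simpa using this
  · exact h p hp

theorem chain_spec (L : List (ℕ × ℕ)) : ∀ K, Kn w K → chain (tabOf chevE8) K L = true → Kn w (L ++ K) := by
  induction L with
  | nil => exact fun K h _ => h
  | cons p L ih =>
    intro K h hc
    simp only [chain, Bool.and_eq_true, decide_eq_true_eq] at hc
    have h1 := ih _ (step hw hl h hc.1.1 hc.1.2) hc.2
    exact fun q hq => h1 q (by simpa [or_left_comm] using hq)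

end

theorem ch0 : chain (tabOf chevE8) [] [(236, 236), (228, 228), (234, 234)] = true ∧
    (∀ s < 240, ok (tabOf chevE8) [(236, 236), (228, 228), (234, 234)] 120 s = true → s = 120 ∨ s = 136) ∧
    chain (tabOf chevE8) [(120, 120), (236, 236), (228, 228), (234, 234)]
      [(162, 162), (141, 141), (135, 135), (130, 130), (126, 126), (123, 123), (121, 121)] = true ∧
    chain (tabOf chevE8) [(120, 136), (236, 236), (228, 228), (234, 234)]
      [(162, 121), (141, 191), (135, 208), (130, 32), (126, 214), (123, 8), (121, 162)] = true ∧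
    (∀ r ∈ SA, ∀ s ∈ SA, ok (tabOf chevE8) ([(162, 121), (141, 191), (135, 208), (130, 32), (126, 214),
      (123, 8), (121, 162)] ++ [(120, 136), (236, 236), (228, 228), (234, 234)]) r s = false) ∧
    ∀ j < 8, (chevE8.simple j, chevE8.simple j) ∈ [(162, 162), (141, 141), (135, 135), (130, 130), (126, 126),
      (123, 123), (121, 121)] ++ [(120, 120), (236, 236), (228, 228), (234, 234)] := by
  rw [tabOf_eq validE8]; decide +kernel

theorem vN_neg (a : List ℕ) (t : Rt) : vN C8 a (C8.R.neg t) = -vN C8 a t := by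
  simp [vN, C8.R.rc_neg]

theorem s3w : S3wStmt := by
  intro w hw h1 h2 h3
  have e1 := fun r => mod_eq (h1 r)
  have e2 := fun r => mod_eq (h2 r)
  have hl : ∀ s, lb (w s) = lb s := fun s => by
    rw [lb_eq, lb_eq, e1, e2, ← Equiv.sum_comp w]
    congr 3
    refine Finset.sum_congr rfl fun t _ => if_congr ?_ (C8.R.pair_W hw _ _) rfl
    simp only [ps_iff, Int.even_iff, e1, e2]
    refine and_congr_right fun a => and_congr_right fun b => ⟨fun h => by_contra fun h' => ?_,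
      h3 t (Int.even_iff.2 a) (Int.even_iff.2 b)⟩
    have := h3 (C8.R.neg t) (by rw [f1, vN_neg]; exact (Int.even_iff.2 a).neg)
      (by rw [f2, vN_neg]; exact (Int.even_iff.2 b).neg) ((C8.R.pos_neg_iff t).2 h')
    rw [C8.R.W_neg hw, C8.R.pos_neg_iff] at this
    exact this h
  obtain ⟨c0, c1, c2, c3, c4, c5⟩ := ch0
  have k0 : Kn w [(236, 236), (228, 228), (234, 234)] := chain_spec hw hl _ [] (fun _ h => by simp at h) c0
  let r0 : Rt := ⟨120, by decide⟩
  have k1 : ∀ b, (w r0 : ℕ) = b → Kn w [(120, b), (236, 236), (228, 228), (234, 234)] := fun b hb p hp =>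
    (List.mem_cons.1 hp).elim (fun e => ⟨r0, by rw [e], by rw [e, hb]⟩) (k0 p)
  rcases c1 _ (w r0).2 (ok_of hw hl k0 r0) with h | h
  · refine Or.inl (C8.S.eq_one_of_pos hw fun j => ?_)
    obtain ⟨r, hr, hr'⟩ := chain_spec hw hl _ _ (k1 _ h) c2 _ (c5 j j.2)
    have e : r = C8.S.α j := Fin.ext (by rw [hr, sgn_α, C8.simple_val])
    rw [← e, show w r = r from Fin.ext (hr'.trans hr.symm), e]
    exact C8.S.pos_α j
  · refine Or.inr ⟨fun r hr => by rw [show r = r0 from Fin.ext hr, h], fun r hr hs => ?_⟩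
    have := ok_of hw hl (chain_spec hw hl _ _ (k1 _ h) c3) r
    rw [c4 _ hr _ hs] at this
    exact absurd this (by decide)

end Cfsg.Agent.H64.E83SW
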