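import Mathlib
import Cfsg.Agent.H11.ElDefs

/-! The last case: the order of the centraliser of `y` in `O`. -/

set_option autoImplicit false

namespace Cfsg.Agent.H64.ElN6a

open Subgroup Cfsg.Agent.H11.EL

universe u

theorem mod5 {G : Type u} [Group G] [Finite G] {V : Subgroup G} {f : G} (f5 : f ^ 5 = 1)
    (hV : ∀ x ∈ V, f * x * f⁻¹ ∈ V) (hC : ∀ x ∈ V, Commute f x → x = 1) : Nat.card V % 5 = 1 := by
  classical
  have := Fintype.ofFinite V
  have : Fact (Nat.Prime 5) := ⟨by norm_num⟩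
  have hN : f ∈ Nm V := mem_normalizer_fintype hV
  have := Equiv.Perm.card_fixedPoints_modEq (α := V)
    (f := MulAction.toEndHom (V.normalizerMonoidHom ⟨f, hN⟩)) (p := 5) (n := 1) (by
      rw [pow_one, ← map_pow, ← map_pow, show (⟨f, hN⟩ : Nm V) ^ 5 = 1 from Subtype.ext f5, map_one,
        map_one])
  simp only [← Nat.card_eq_fintype_card] at this
  exact this.trans (congrArg (· % 5) (Nat.card_eq_one_iff_exists.2
    ⟨⟨1, map_one (V.normalizerMonoidHom ⟨f, hN⟩)⟩, fun x => Subtype.ext (Subtype.ext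
      (hC _ x.1.2 (mul_inv_eq_iff_eq_mul.1 (congrArg Subtype.val x.2))))⟩))

theorem n6a (b : Base.{u}) (hz : N6zStmt.{u}) (zg : ZGStmt.{u}) : N6aStmt.{u} := by
  intro G _ _ D A B O t y h
  obtain ⟨zs, c1, c2, -⟩ := hz D A B O t y h
  have lp := h.ne.lp A h.hA B h.hB h.AB
  obtain ⟨f, s, l1⟩ := b.lc1 A B lp
  have lc := b.lc A B f s lp l1
  have f5 : f ^ 5 = 1 := lc.fo ▸ pow_orderOf_eq_one f
  have oo : ∀ {X : Subgroup G}, Odd (Nat.card X) → ∀ o ∈ X, o ^ 2 = 1 → o = 1 := fun hX o ho e =>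
    orderOf_eq_one_iff.1 (Nat.eq_one_of_dvd_coprimes (Nat.coprime_two_left.2 hX)
      (orderOf_dvd_of_pow_eq_one e) (orderOf_dvd_natCard _ ho))
  have Ay : ∀ a ∈ A, Commute y a → a = 1 := fun a ha c => oo (lp.cA ▸ by decide) a ha (by
    have := h.yA a ha
    rw [c.eq, mul_inv_cancel_right, zpow_neg_one] at this
    rw [pow_two, ← eq_inv_iff_mul_eq_one]; exact this)
  have y2 : orderOf y = 2 := orderOf_eq_prime (by rw [pow_two, h.yy]) fun e => by
    have : A = ⊥ := eq_bot_iff.2 fun a ha => Ay a ha (e ▸ Commute.one_left a)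
    simpa [this] using lp.cA
  have fU : ∀ x ∈ O ⊓ C1 y, f * x * f⁻¹ ∈ O ⊓ C1 y := fun x hx =>
    have := mem_centralizer_singleton_iff.2 (lc.com y h.yN h.yB).symm.eq
    ⟨(mem_normalizer_iff.1 (h.os.nm lc.fA) x).1 hx.1, (C1 y).mul_mem (mul_mem this hx.2) (inv_mem this)⟩
  have fC : ∀ o ∈ O, Commute f o → o = 1 := fun o ho c => by
    have oA : o ∈ Nm A := centralizer_le_normalizer _ (h.os.ct ho)
    have e := h.ne.two' A h.hA f lc.fA lc.big B h.hB _ (h.ne.conj B h.hB o) h.AB.symm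
      (fun e => h.AB (by rw [← cj_eq_iff.2 (inv_mem oA), ← e, ← cj_mul, inv_mul_cancel, cj_one]))
      lc.fB (cj_eq_iff.1 (by rw [← cj_mul, c.eq, cj_mul, cj_eq_iff.2 lc.fB]))
    have := lc.cen o (h.os.ct ho) (cj_eq_iff.1 e.symm)
    rw [h.hK] at this
    refine oo h.os.odd o ho ?_
    rw [← h.t2, ← Nat.card_zpowers]
    exact congrArg Subtype.val (pow_card_eq_one' (x := (⟨o, this⟩ : zpowers t)))
  have m := mod5 f5 fU fun x hx => fC x hx.1
  have od : Odd (Nat.card (O ⊓ C1 y : Subgroup G)) := h.os.odd.of_dvd_nat (card_dvd_of_le inf_le_left)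
  by_contra hn
  have le := (zg D A B y f s 10 h.ne.toCls ⟨h.hA, h.yN⟩ ⟨h.hB, h.yB⟩ lp lc y2 zs (by omega) c2).1
    (by decide)
  have c21 : Nat.card (O ⊓ C1 y : Subgroup G) = 21 := by
    obtain ⟨k, hk⟩ := od
    omega
  have ab : ∀ x ∈ O ⊓ C1 y, ∀ z ∈ O ⊓ C1 y, Commute x z := fun x hx z hz =>
    commutatorElement_eq_one_iff_commute.1 (Ay _ (h.os.ab x hx.1 z hz.1)
      (mem_centralizer_singleton_iff.1 (mul_mem (mul_mem (mul_mem hx.2 hz.2) (inv_mem hx.2))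
        (inv_mem hz.2))).symm)
  let V : Subgroup G :=
    { carrier := {x | x ∈ O ⊓ C1 y ∧ x ^ 3 = 1}
      one_mem' := ⟨one_mem _, one_pow 3⟩
      mul_mem' := fun ha hb => ⟨mul_mem ha.1 hb.1, by rw [(ab _ ha.1 _ hb.1).mul_pow, ha.2, hb.2, mul_one]⟩
      inv_mem' := fun ha => ⟨inv_mem ha.1, by rw [inv_pow, ha.2, inv_one]⟩ }
  have VU : V ≤ O ⊓ C1 y := fun x hx => hx.1
  have mV : Nat.card V % 5 = 1 := mod5 f5
    (fun x hx => ⟨fU x hx.1, by rw [conj_pow, hx.2, mul_one, mul_inv_cancel]⟩) fun x hx => fC x hx.1.1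
  have : Fact (Nat.Prime 7) := ⟨by norm_num⟩
  obtain ⟨x, hx⟩ := exists_prime_orderOf_dvd_card' (G := (O ⊓ C1 y : Subgroup G)) 3 (by rw [c21]; decide)
  have d3 : 3 ∣ Nat.card V := by
    rw [← hx, ← orderOf_coe]
    exact orderOf_dvd_natCard V ⟨x.2, by rw [← hx, ← orderOf_coe, pow_orderOf_eq_one]⟩
  have d7 : ¬ 7 ∣ Nat.card V := fun d => by
    obtain ⟨z, hz⟩ := exists_prime_orderOf_dvd_card' (G := V) 7 d
    have := orderOf_dvd_of_pow_eq_one z.2.2
    rw [orderOf_coe, hz] at this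
    exact absurd this (by decide)
  have d := card_dvd_of_le VU
  rw [c21] at d
  have := Nat.le_of_dvd (by decide) d
  generalize Nat.card V = n at *
  interval_cases n <;> omega

end Cfsg.Agent.H64.ElN6a
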