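import Cfsg.Agent.H73.GagDefs

/-! Project GAG (S4841): structure of the proper subgroups (`LocStmt`). -/

set_option autoImplicit false

namespace Cfsg.Agent.H64.GagLoc

open Subgroup Cfsg Cfsg.Agent.H73.Gag
open scoped MatrixGroups

universe u

theorem sr_quot {p : ℕ} {H : Type u} [Group H] [Finite H] (h : SR p H) (O : Subgroup H) [hn : O.Normal]
    (hO : IsPGroup p O) : SR p (H ⧸ O) := by
  obtain ⟨V, _, _, h⟩ := h
  have := h.fin
  have := h.nt
  have := Fact.mk h.pp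
  let W := FixedPoints.addSubgroup O V
  have mW : ∀ w : V, w ∈ W ↔ ∀ g ∈ O, g • w = w := fun w =>
    ⟨fun hw g hg => hw ⟨g, hg⟩, fun hw g => hw g.1 g.2⟩
  obtain ⟨i1, h1⟩ := H82.exists_subAct (G := H) W fun g w hw => (mW _).2 fun o ho => by
    have := (mW _).1 hw _ (hn.conj_mem' o ho g)
    rwa [mul_smul, mul_smul, inv_smul_eq_iff] at this
  obtain ⟨i2, h2⟩ := H82.exists_descend (M := W) (QuotientGroup.mk' O) (QuotientGroup.mk'_surjective O)
    fun g hg m => Subtype.ext ((h1 g m).trans ((mW _).1 m.2 g ((QuotientGroup.eq_one_iff g).1 hg)))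
  refine ⟨W, _, i2, h.pp, inferInstance, ?_, fun v => Subtype.ext (h.pV v.1), fun v hv g => ?_⟩
  · obtain ⟨v, hv⟩ := exists_ne (0 : V)
    obtain ⟨b, hb, e⟩ := hO.exists_fixed_point_of_prime_dvd_card_of_fixed_point V
      (addOrderOf_eq_prime (h.pV v) hv ▸ addOrderOf_dvd_natCard v) (a := 0) fun g => smul_zero g
    exact ⟨0, ⟨b, hb⟩, fun e' => e (congrArg Subtype.val e')⟩
  · obtain ⟨g, hg⟩ := g
    obtain ⟨g, rfl⟩ := QuotientGroup.mk'_surjective O g
    have e : g • (v : V) = v := by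
      rw [← h1, ← h2]; exact congrArg Subtype.val hg
    obtain ⟨k, hk⟩ := h.st v (fun e => hv (Subtype.ext e)) ⟨g, e⟩
    have hk' : g ^ p ^ k = 1 := congrArg Subtype.val hk
    exact ⟨k, Subtype.ext (by
      change QuotientGroup.mk' O g ^ p ^ k = 1
      rw [← map_pow, hk', map_one])⟩

theorem loc (s1 : S1Stmt.{u}) : LocStmt.{u} := by
  intro G _ _ hG ih N hN x hx ox
  have hO := H3.pCore_isPGroup 2 N
  have sr := sr_quot (hG.subgroup N) _ hO
  set π := QuotientGroup.mk' (pCore 2 N) with hπ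
  have ks : ∀ n : N, π n = 1 ↔ n ∈ pCore 2 N := fun n => QuotientGroup.eq_one_iff n
  have mo : ∀ n : N, (n : G) ∈ pCoreOf 2 N ↔ n ∈ pCore 2 N := fun n =>
    mem_map_iff_mem N.subtype_injective
  have x3 : (⟨x, hx⟩ : N) ^ 3 = 1 := Subtype.ext (by rw [← ox]; exact pow_orderOf_eq_one x)
  have ox' : orderOf (π ⟨x, hx⟩) = 3 := by
    have := Fact.mk Nat.prime_three
    refine orderOf_eq_prime (by rw [← map_pow, x3, map_one]) fun e => ?_
    obtain ⟨k, hk⟩ := hO ⟨_, (ks _).1 e⟩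
    have hk' : x ^ 2 ^ k = 1 := congrArg Subtype.val (congrArg Subtype.val hk)
    have := Nat.prime_three.dvd_of_dvd_pow (ox ▸ orderOf_dvd_of_pow_eq_one hk')
    omega
  have lt : Nat.card (N ⧸ pCore 2 N) < Nat.card G :=
    (Nat.card_le_card_of_surjective π (QuotientGroup.mk'_surjective _)).trans_lt (by
      rw [← card_top (G := G)]
      exact (card_le_of_le le_top).lt_of_ne fun e => hN (eq_of_le_of_card_ge le_top e.ge))
  have le : ncl N x ≤ N := (closure_le _).2 (by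
    rintro _ ⟨n, hn, rfl⟩; exact mul_mem (mul_mem hn hx) (inv_mem hn))
  rcases s1 _ sr.k0 (H3.pCore_quotient_pCore 2 N) (fun K hs hn h3 => ih K
    ((Nat.card_le_card_of_injective _ K.subtype_injective).trans_lt lt) hs hn (sr.subgroup K) h3)
    _ ox' with hn | ⟨F, _, _, a, hF, ha, ⟨e⟩⟩
  · refine .inl ((closure_le _).2 ?_)
    rintro _ ⟨n, hn', rfl⟩
    obtain ⟨k, hk⟩ := mem_zpowers_iff.1 (hn.conj_mem _ (mem_zpowers _) (π ⟨n, hn'⟩))
    have := (mo _).2 ((ks (((⟨x, hx⟩ : N) ^ k)⁻¹ * (⟨n, hn'⟩ * ⟨x, hx⟩ * ⟨n, hn'⟩⁻¹))).1 (by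
      rw [map_mul, map_inv, map_zpow, hk, map_mul, map_mul, map_inv, inv_mul_cancel]))
    exact (mul_mem_cancel_left (mem_sup_left (inv_mem (zpow_mem (mem_zpowers x) k)))).1
      (mem_sup_right this)
  · have im : ∀ g : N, (g : G) ∈ ncl N x → π g ∈ normalClosure {π ⟨x, hx⟩} := fun g hg => by
      have : ncl N x ≤ ((normalClosure {π ⟨x, hx⟩}).comap π).map N.subtype := by
        rw [ncl, closure_le]
        rintro _ ⟨n, hn', rfl⟩
        refine mem_map.2 ⟨⟨n, hn'⟩ * ⟨x, hx⟩ * ⟨n, hn'⟩⁻¹, ?_, rfl⟩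
        rw [mem_comap, map_mul, map_mul, map_inv]
        exact normalClosure_normal.conj_mem _ (subset_normalClosure (Set.mem_singleton _)) _
      exact (mem_map_iff_mem N.subtype_injective).1 (this hg)
    let φ : ncl N x →* normalClosure {π ⟨x, hx⟩} :=
      (π.comp (inclusion le)).codRestrict _ fun g => im _ g.2
    refine .inr ⟨F, _, _, a, hF, ha, e.toMonoidHom.comp φ, e.surjective.comp fun g => ?_, ?_⟩
    · have : normalClosure {π ⟨x, hx⟩} ≤ ((ncl N x).subgroupOf N).map π := by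
        refine (closure_le _).2 fun c hc => ?_
        obtain ⟨_, rfl, hc⟩ := Group.mem_conjugatesOfSet_iff.1 hc
        obtain ⟨n, rfl⟩ := isConj_iff.1 hc
        obtain ⟨n, rfl⟩ := QuotientGroup.mk'_surjective _ n
        refine ⟨n * ⟨x, hx⟩ * n⁻¹, mem_subgroupOf.2 (subset_closure ⟨n, n.2, rfl⟩), ?_⟩
        rw [map_mul, map_mul, map_inv]
      obtain ⟨n, hn, e⟩ := this g.2
      exact ⟨⟨n, mem_subgroupOf.1 hn⟩, Subtype.ext e⟩
    · ext g
      rw [MonoidHom.mem_ker, mem_subgroupOf, MonoidHom.comp_apply, MulEquiv.coe_toMonoidHom,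
        map_eq_one_iff _ e.injective, Subtype.ext_iff]
      exact (ks (inclusion le g)).trans (mo (inclusion le g)).symm

end Cfsg.Agent.H64.GagLoc
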