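import Cfsg.Agent.H98.GbL
import Cfsg.Agent.H11.Basic

/-! Project GB: every block contains a basic character. -/

set_option autoImplicit false
open Cfsg Finset
open scoped ComplexConjugate

namespace Cfsg.Agent.H64.GbBasb

open Cfsg.Agent.H98.GB

universe u

theorem inner_ne {G : Type u} [Group G] [Fintype G] {p : ℕ} (hp : p.Prime) {χ : G → ℂ}
    (h : χ 1 ≠ 0) : classInner (pRegularPart p χ) χ ≠ 0 := by
  classical
  refine mul_ne_zero (inv_ne_zero (Nat.cast_ne_zero.2 Nat.card_pos.ne')) fun e => h ?_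
  have e1 : ∀ g, pRegularPart p χ g * conj (χ g) =
      ((if IsPRegular p g then Complex.normSq (χ g) else 0 : ℝ) : ℂ) := fun g => by
    unfold pRegularPart
    split_ifs
    · exact Complex.mul_conj _
    · simp
  simp only [e1] at e
  rw [← Complex.ofReal_sum, Complex.ofReal_eq_zero, sum_eq_zero_iff_of_nonneg fun g _ => by
    split_ifs
    exacts [Complex.normSq_nonneg _, le_rfl]] at e
  have := e 1 (mem_univ _)
  rwa [if_pos (by simpa [IsPRegular] using hp.one_lt.ne'), Complex.normSq_eq_zero] at this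

/-- the inner product with a fixed function -/
noncomputable def inL {G : Type u} [Group G] [Fintype G] (χ : G → ℂ) : (G → ℂ) →ₗ[ℂ] ℂ where
  toFun f := classInner f χ
  map_add' f f' := by simp only [classInner, Pi.add_apply, add_mul, sum_add_distrib, mul_add]
  map_smul' c f := by
    simp only [classInner, Pi.smul_apply, smul_eq_mul, mul_assoc, ← mul_sum, RingHom.id_apply]
    ring

theorem basb (hO : OSIStmt.{u}) (hB : BASStmt.{u}) (hC : COMPLStmt.{u}) (hI : IRRStmt.{u}) :
    BASBStmt.{u} := by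
  intro F _ _ _ C n hn χ
  by_contra hcon
  have hX : ∀ ψ, ψ ∈ C.XC n Set.univ := fun ψ => by
    obtain ⟨Λ, h1, h2⟩ := hC F C n hn ψ
    exact ⟨Λ, trivial, h1, h2⟩
  have h1 := (hB F C n hn Set.univ fun _ _ ψ _ => hX ψ).2
  have h2 : pRegularPart C.p χ.1 ∈ LinearMap.ker (inL χ.1) := by
    refine Submodule.span_le.2 ?_ (h1.ge (Submodule.subset_span ⟨χ, hX χ, rfl⟩))
    rintro _ ⟨Λ, ⟨l, b, -⟩, rfl⟩
    exact (hO _ C.p C.M C.hM _).1
      (H17.lamClosed_of_isPBlock C.hM.2.1 (H17.isPBlock_blockOf χ)).compl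
      ⟨_, (hI F C n hn Λ l).2.1⟩ (fun h => hcon ⟨Λ, l, b, _, h, rfl⟩) χ
      fun h => h (H17.mem_blockOf_self C.hM.2.1 χ)
  exact inner_ne C.hp (H11.irr_apply_one_ne_zero χ.2) h2

end Cfsg.Agent.H64.GbBasb
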