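import Mathlib
import Cfsg.Agent.H45.IvDefs

/-! Project CY, chapter IV: commutators with a fixed element fill the centre. -/

set_option autoImplicit false

namespace Cfsg.Agent.H64.IvLd

open Subgroup Cfsg.Agent.H11.Cy Cfsg.Agent.H45.Iv
open scoped commutatorElement

theorem ld : LdStmt := by
  intro G _ _ Ω _ _ p A _ _ x y _ la lb lc
  have hRF : Rl A x y ≤ Fl A x y := le_sup_left.trans la.sup.le
  have hc : ∀ z ∈ Zl A x y, ∀ g ∈ Fl A x y, g * z * g⁻¹ = z := fun z hz g hg =>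
    mul_inv_eq_iff_eq_mul.2 (mem_centralizer_iff.1 hz.2 g hg)
  have hn : ∀ g ∈ Fl A x y, ∀ t ∈ Rl A x y, g * t * g⁻¹ ∈ Rl A x y := fun g hg t ht => by
    have : g * t * g⁻¹ = ⁅g, t⁆ * t := by rw [commutatorElement_def]; group
    rw [this]
    exact mul_mem (commutator_mem_commutator hg (hRF ht)) ht
  refine ⟨fun r hr hrZ => ?_⟩
  let I : Subgroup G :=
    { carrier := {z | ∃ s ∈ Rl A x y, ⁅r, s⁆ = z}
      one_mem' := ⟨1, one_mem _, by simp⟩
      mul_mem' := by
        rintro _ _ ⟨s, hs, rfl⟩ ⟨t, ht, rfl⟩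
        refine ⟨s * t, mul_mem hs ht, ?_⟩
        rw [← hc _ (lb.com r hr t ht) s (hRF hs)]
        simp only [commutatorElement_def]
        group
      inv_mem' := by
        rintro _ ⟨s, hs, rfl⟩
        refine ⟨s⁻¹, inv_mem hs, ?_⟩
        rw [← hc _ (lb.com r hr s hs) s⁻¹ (hRF (inv_mem hs))]
        simp only [commutatorElement_def]
        group }
  let W : Subgroup G :=
    { carrier := {t | t ∈ Rl A x y ∧ ∀ s ∈ Rl A x y, ⁅t, s⁆ ∈ I}
      one_mem' := ⟨one_mem _, fun s _ => by simpa using I.one_mem⟩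
      mul_mem' := by
        rintro t u ⟨ht, h1⟩ ⟨hu, h2⟩
        refine ⟨mul_mem ht hu, fun s hs => ?_⟩
        have : ⁅t * u, s⁆ = ⁅u, s⁆ * ⁅t, s⁆ := by
          rw [← hc _ (lb.com u hu s hs) t (hRF ht)]
          simp only [commutatorElement_def]
          group
        rw [this]
        exact mul_mem (h2 s hs) (h1 s hs)
      inv_mem' := by
        rintro t ⟨ht, h1⟩
        refine ⟨inv_mem ht, fun s hs => ?_⟩
        have : ⁅t⁻¹, s⁆ = ⁅t, s⁆⁻¹ := by
          rw [← hc _ (lb.com t ht s hs) t⁻¹ (hRF (inv_mem ht))]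
          simp only [commutatorElement_def]
          group
        rw [this]
        exact inv_mem (h1 s hs) }
  have hZW : Zl A x y ≤ W := fun z hz => ⟨la.zle hz, fun s hs => by
    rw [commutatorElement_eq_one_iff_mul_comm.2 (mem_centralizer_iff.1 hz.2 s (hRF hs)).symm]
    exact one_mem _⟩
  rcases lc.irr W hZW (fun t ht => ht.1) (fun a ha t ht => by
    have haF : a ∈ Fl A x y := mem_sup_left ha
    refine ⟨hn a haF t ht.1, fun s hs => ?_⟩
    have h1 := hn a⁻¹ (inv_mem haF) s hs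
    have : ⁅a * t * a⁻¹, s⁆ = ⁅t, a⁻¹ * s * a⁻¹⁻¹⁆ := by
      rw [← hc _ (lb.com t ht.1 _ h1) a haF]
      simp only [commutatorElement_def]
      group
    rw [this]
    exact ht.2 _ h1) with e | e
  · exact (hrZ (e.le (show r ∈ W from ⟨hr, fun s hs => ⟨s, hs, rfl⟩⟩))).elim
  · exact fun z hz => (commutator_le.2 fun t ht s hs => (e.ge ht).2 s hs : _ ≤ I) (lc.zd hz)

end Cfsg.Agent.H64.IvLd
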