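import Cfsg.Agent.H9.KCDefs
import Cfsg.Agent.H8.SylowIn

/-!
# Class data of a finite group: elements of prime order

Rational classes, Sylow subgroups of prime order (project KC, piece A2).
-/

set_option autoImplicit false

namespace Cfsg.Agent.H64.KcA2

open Finset Subgroup Cfsg.Agent.H9.KC
open Cfsg.Agent.H8 (IsSylowIn)
open scoped Pointwise

universe u

variable {G : Type u} [Group G] [Finite G] {q : ℕ}

theorem syl (h : ¬ q * q ∣ Nat.card G) {x : G} (hx : orderOf x = q) :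
    IsSylowIn q (zpowers x) ⊤ := by
  refine ⟨le_top, IsPGroup.of_card (n := 1) (by rw [Nat.card_zpowers, hx, pow_one]), fun e => h ?_⟩
  rw [relIndex_top_right] at e
  rw [← (zpowers x).index_mul_card, Nat.card_zpowers, hx]
  exact Nat.mul_dvd_mul_right e q

omit [Finite G] in
theorem pg {w : G} (hw : w ^ q = 1) : IsPGroup q (zpowers w) := by
  rintro ⟨_, n, rfl⟩
  refine ⟨1, Subtype.ext ?_⟩
  show (w ^ n) ^ q ^ 1 = 1
  rw [pow_one, ← zpow_natCast, ← zpow_mul, mul_comm, zpow_mul, zpow_natCast, hw, one_zpow]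

theorem mem_of_comm (hq : q.Prime) (h : ¬ q * q ∣ Nat.card G) {x w : G} (hx : orderOf x = q)
    (hw : w ^ q = 1) (c : Commute w x) : w ∈ zpowers x := by
  haveI := Fact.mk hq
  refine (syl h hx).le_of_le_normalizer' (pg hw) le_top ?_ (mem_zpowers w)
  rw [zpowers_le]
  refine centralizer_le_normalizer _ (mem_centralizer_iff.2 ?_)
  rintro _ ⟨n, rfl⟩
  exact (c.zpow_right n).symm

theorem conj_pow_of (hq : q.Prime) (h : ¬ q * q ∣ Nat.card G) {x y : G} (hx : orderOf x = q)
    (hy : orderOf y = q) : ∃ a : ℕ, ¬ q ∣ a ∧ ConjClasses.mk (x ^ a) = ConjClasses.mk y := by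
  haveI := Fact.mk hq
  obtain ⟨g, -, e⟩ := (syl h hx).exists_conj_le (pg (hy ▸ pow_orderOf_eq_one y)) le_top
  have := e (H8.conj_mem_conj_smul.2 (mem_zpowers y))
  obtain ⟨a, ha⟩ := (mem_powers_iff_mem_zpowers.2 this)
  simp only at ha
  refine ⟨a, fun d => ?_, ?_⟩
  · rw [← hx, orderOf_dvd_iff_pow_eq_one, ha, conj_eq_one_iff] at d
    rw [d, orderOf_one] at hy
    exact hq.ne_one hy.symm
  · rw [ha]
    exact ConjClasses.mk_eq_mk_iff_isConj.2 (isConj_iff.2 ⟨g, rfl⟩).symm

theorem exists_u (hq : q.Prime) (h : ¬ q * q ∣ Nat.card G) : ∃ u : ℕ,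
    (∀ g : G, (g ^ u) ^ q = 1) ∧ (∀ g : G, g ^ q = 1 → g ^ u = g) ∧
    ∀ g : G, g ^ u = 1 ↔ ¬ q ∣ orderOf g := by
  obtain ⟨n, hn, hd⟩ : ∃ n, Nat.Coprime n q ∧ Nat.card G ∣ n * q := by
    by_cases e : q ∣ Nat.card G
    · obtain ⟨n, e⟩ := e
      exact ⟨n, ((Nat.Prime.coprime_iff_not_dvd hq).2 fun d =>
        h (e ▸ Nat.mul_dvd_mul_left q d)).symm, by rw [e, mul_comm]⟩
    · exact ⟨_, ((Nat.Prime.coprime_iff_not_dvd hq).2 e).symm, dvd_mul_right _ _⟩
  have h1 : n ^ q.totient ≡ 1 [MOD q] := Nat.ModEq.pow_totient hn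
  have h2 : n ∣ n ^ q.totient := dvd_pow_self n (Nat.totient_pos.2 hq.pos).ne'
  refine ⟨n ^ q.totient, fun g => ?_, fun g hg => ?_, fun g => ⟨fun e d => ?_, fun e => ?_⟩⟩
  · rw [← pow_mul, ← orderOf_dvd_iff_pow_eq_one]
    exact ((orderOf_dvd_natCard g).trans hd).trans (Nat.mul_dvd_mul_right h2 q)
  · nth_rewrite 2 [← pow_one g]
    exact pow_eq_pow_iff_modEq.2 (h1.of_dvd (orderOf_dvd_of_pow_eq_one hg))
  · have := (h1.dvd_iff dvd_rfl).1 (d.trans (orderOf_dvd_of_pow_eq_one e))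
    exact hq.ne_one (Nat.dvd_one.1 this)
  · rw [← orderOf_dvd_iff_pow_eq_one]
    exact (((Nat.Prime.coprime_iff_not_dvd hq).2 e).symm.dvd_of_dvd_mul_right
      ((orderOf_dvd_natCard g).trans hd)).trans h2

theorem card_pairs (hq : q.Prime) (h : ¬ q * q ∣ Nat.card G) :
    q * Nat.card {g : G // q ∣ orderOf g} =
      Nat.card {p : G × G // orderOf p.1 = q ∧ Commute p.2 p.1} := by
  classical
  haveI := Fact.mk hq
  obtain ⟨u, u1, u2, u3⟩ := exists_u hq h
  have o1 : ∀ g : G, q ∣ orderOf g → orderOf (g ^ u) = q := fun g hg =>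
    orderOf_eq_prime (u1 g) fun e => (u3 g).1 e hg
  have y1 : ∀ g : G, ((g ^ u)⁻¹ * g) ^ u = 1 := fun g => by
    rw [((Commute.refl g).pow_left u).inv_left.mul_pow, inv_pow, u2 _ (u1 g), inv_mul_cancel]
  have k : ∀ (i : ℕ) (g : G), ((g ^ u) ^ i * ((g ^ u)⁻¹ * g)) ^ u = (g ^ u) ^ i := fun i g => by
    rw [Commute.mul_pow, y1, mul_one, ← pow_mul, mul_comm i, pow_mul, u2 _ (u1 g)]
    exact ((Commute.refl _).inv_right.mul_right ((Commute.refl g).pow_left u)).pow_left i
  nth_rewrite 1 [← Nat.card_fin q]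
  rw [← Nat.card_prod]
  refine Nat.card_congr (Equiv.ofBijective (fun p => ⟨(p.2.1 ^ u,
    (p.2.1 ^ u) ^ p.1.1 * ((p.2.1 ^ u)⁻¹ * p.2.1)), o1 _ p.2.2, ((Commute.refl _).pow_left _).mul_left
      ((Commute.refl _).inv_left.mul_left ((Commute.refl _).pow_right u))⟩) ⟨?_, ?_⟩)
  · rintro ⟨i, g, hg⟩ ⟨j, g', hg'⟩ e
    have e1 : g ^ u = g' ^ u := congrArg (fun p => p.1.1) e
    have e2 : (g ^ u) ^ i.1 * ((g ^ u)⁻¹ * g) = (g' ^ u) ^ j.1 * ((g' ^ u)⁻¹ * g') :=
      congrArg (fun p => p.1.2) e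
    have e3 := congrArg (· ^ u) e2
    simp only [k] at e3
    rw [← e1, pow_eq_pow_iff_modEq, o1 g hg] at e3
    obtain rfl : i = j := Fin.ext (Nat.ModEq.eq_of_lt_of_lt e3 i.2 j.2)
    rw [← e1] at e2
    obtain rfl : g = g' := mul_left_cancel (mul_left_cancel e2)
    rfl
  · rintro ⟨⟨x, z⟩, hx, c⟩
    obtain ⟨i, hi, e⟩ := (mem_zpowers_iff_mem_range_orderOf.1
      (mem_of_comm hq h hx (u1 z) (c.pow_left u)) |> Finset.mem_image.1)
    rw [Finset.mem_range, hx] at hi
    have e1 : (x * ((z ^ u)⁻¹ * z)) ^ u = x := by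
      rw [Commute.mul_pow, y1, mul_one, u2 x (hx ▸ pow_orderOf_eq_one x)]
      exact ((c.pow_left u).inv_left.mul_left c).symm
    refine ⟨(⟨i, hi⟩, ⟨x * ((z ^ u)⁻¹ * z), ?_⟩), Subtype.ext (Prod.ext e1 ?_)⟩
    · by_contra d
      rw [← u3, e1] at d
      rw [d, orderOf_one] at hx
      exact hq.ne_one hx.symm
    · simp only [e1]
      rw [e]
      group

theorem cc_dvd (C : ConjClasses G) : cc C ∣ Nat.card G := card_subgroup_dvd_card _

variable [Fintype (ConjClasses G)]

theorem card_pairs' (q : ℕ) : Nat.card {p : G × G // orderOf p.1 = q ∧ Commute p.2 p.1} =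
    mC (co (G := G)) q * Nat.card G := by
  classical
  have := Fintype.ofFinite G
  rw [Nat.card_eq_fintype_card, Fintype.card_subtype,
    card_eq_sum_card_fiberwise (f := Prod.fst) (t := univ.filter fun x : G => orderOf x = q)
      (fun p hp => by simpa using (Finset.mem_filter.1 hp).2.1),
    ← sum_fiberwise_of_maps_to (g := ConjClasses.mk) (t := univ.filter fun C => co C = q)
      (fun x hx => by simpa [co_mk] using hx), mC, ← smul_eq_mul, ← sum_const]
  refine sum_congr rfl fun C hC => ?_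
  rw [sum_congr rfl (g := fun _ => cc C), sum_const, smul_eq_mul, ← Nat.div_mul_cancel (cc_dvd C),
    card_class, Nat.card_eq_fintype_card, Fintype.card_subtype]
  · congr 2
    ext g
    simp only [mem_filter, mem_univ, true_and] at hC ⊢
    exact ⟨fun h => h.2, fun h => ⟨by rw [← co_mk, h, hC], h⟩⟩
  · intro x hx
    simp only [mem_filter, mem_univ, true_and] at hx
    rw [← hx.2, cc_mk, Nat.card_eq_fintype_card, Fintype.card_subtype]
    refine Finset.card_bij (fun p _ => p.2) (fun p hp => ?_) (fun p hp p' hp' e => ?_)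
      fun z hz => ⟨(x, z), ?_, rfl⟩
    · simp only [mem_filter, mem_univ, true_and] at hp ⊢
      exact mem_centralizer_singleton_iff.2 (hp.2 ▸ hp.1.2)
    · simp only [mem_filter, mem_univ, true_and] at hp hp'
      exact Prod.ext (hp.2.trans hp'.2.symm) e
    · simp only [mem_filter, mem_univ, true_and, and_true] at hz ⊢
      exact ⟨hx.1, mem_centralizer_singleton_iff.1 hz⟩

theorem sing (hq : q.Prime) (h : ¬ q * q ∣ Nat.card G) :
    q * ∑ i ∈ univ.filter (fun i => q ∣ co (G := G) i), Nat.card G / cc i =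
      mC (co (G := G)) q * Nat.card G := by
  rw [sum_cc, ← card_pairs', ← card_pairs hq h]
  simp only [co_mk]

omit [Fintype (ConjClasses G)] in
theorem same (hq : q.Prime) (h : ¬ q * q ∣ Nat.card G) (i j : ConjClasses G) (hi : co i = q)
    (hj : co j = q) : cc i = cc j := by
  obtain ⟨x, rfl⟩ := ConjClasses.mk_surjective i
  obtain ⟨y, rfl⟩ := ConjClasses.mk_surjective j
  rw [co_mk] at hi hj
  obtain ⟨a, ha, e⟩ := conj_pow_of hq h hi hj
  rw [← e, cc_mk, cc_mk]
  congr 2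
  ext g
  rw [mem_centralizer_singleton_iff, mem_centralizer_singleton_iff]
  refine ⟨fun c => Commute.pow_right c a, fun c => ?_⟩
  obtain ⟨n, hn⟩ : x ∈ zpowers (x ^ a) := mem_zpowers_pow_iff.2 (by
    rw [hi]; exact ((Nat.Prime.coprime_iff_not_dvd hq).2 ha).symm)
  exact hn ▸ Commute.zpow_right c n

theorem inj (hq : q.Prime) (h : ¬ q * q ∣ Nat.card G) :
    #{i : ConjClasses G | co i ≠ 1 ∧ ¬ q ∣ co i ∧ q ∣ cc i} + mC (co (G := G)) q ≤
      sC (co (G := G)) q := by
  classical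
  haveI := Fact.mk hq
  obtain ⟨u, u1, u2, u3⟩ := exists_u hq h
  have ex : ∀ i : ConjClasses G, ∃ y : G, q ∣ cc i → orderOf y = q ∧ Commute y (Quotient.out i) :=
    fun i => by
      by_cases d : q ∣ cc i
      · obtain ⟨y, hy⟩ := exists_prime_orderOf_dvd_card' q d
        exact ⟨y, fun _ => ⟨by rw [orderOf_coe, hy], mem_centralizer_singleton_iff.1 y.2⟩⟩
      · exact ⟨1, fun e => absurd e d⟩
  choose y hy using ex
  have k : ∀ i : ConjClasses G, ¬ q ∣ co i → q ∣ cc i → (y i * Quotient.out i) ^ u = y i :=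
    fun i h1 h2 => by
      rw [(hy i h2).2.mul_pow, (u3 _).2 h1, mul_one, u2 _ ((hy i h2).1 ▸ pow_orderOf_eq_one _)]
  rw [mC, sC, ← card_sdiff_add_card_eq_card (s := univ.filter fun i => co (G := G) i = q)
    (t := univ.filter fun i => q ∣ co (G := G) i) (fun i hi => by
      simp only [mem_filter, mem_univ, true_and] at hi ⊢; rw [hi])]
  refine Nat.add_le_add_right (card_le_card_of_injOn
    (fun i => ConjClasses.mk (y i * Quotient.out i)) (fun i hi => ?_) fun i hi j hj e => ?_) _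
  · simp only [coe_filter, mem_univ, true_and, Set.mem_setOf_eq, coe_sdiff, Set.mem_diff,
      co_mk] at hi ⊢
    obtain ⟨h1, h2, h3⟩ := hi
    have : orderOf (y i * Quotient.out i) = q * co i := by
      rw [(hy i h3).2.orderOf_mul_eq_mul_orderOf_of_coprime, (hy i h3).1, co]
      rw [(hy i h3).1]
      exact (Nat.Prime.coprime_iff_not_dvd hq).2 h2
    rw [this]
    exact ⟨dvd_mul_right _ _, fun e => h1 ((Nat.mul_eq_left hq.ne_zero).1 e)⟩
  · simp only [coe_filter, mem_univ, true_and, Set.mem_setOf_eq] at hi hj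
    obtain ⟨g, hg⟩ := isConj_iff.1 (ConjClasses.mk_eq_mk_iff_isConj.1 e)
    have e1 := congrArg (· ^ u) hg
    simp only [conj_pow, k i hi.2.1 hi.2.2, k j hj.2.1 hj.2.2] at e1
    have e2 : g * Quotient.out i * g⁻¹ = Quotient.out j := by
      refine mul_left_cancel (a := y j) ?_
      rw [← hg, ← e1]; group
    rw [← Quotient.out_eq i, ← Quotient.out_eq j]
    exact ConjClasses.mk_eq_mk_iff_isConj.2 (isConj_iff.2 ⟨g, e2⟩)

section Gal

omit [Fintype (ConjClasses G)] [Finite G]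

variable [NeZero q] {x : G} (hx : orderOf x = q)
include hx

theorem pw_mul (a b : ZMod q) : x ^ (a * b).val = (x ^ a.val) ^ b.val := by
  rw [ZMod.val_mul, ← pow_mul]
  nth_rewrite 3 [← hx]
  exact pow_mod_orderOf _ _

theorem pw_inj {a b : ZMod q} (e : x ^ a.val = x ^ b.val) : a = b := by
  rw [pow_eq_pow_iff_modEq, hx, ← ZMod.natCast_eq_natCast_iff, ZMod.natCast_zmod_val,
    ZMod.natCast_zmod_val] at e
  exact e

theorem pw_nat (n : ℕ) : x ^ (n : ZMod q).val = x ^ n := by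
  rw [ZMod.val_natCast]
  nth_rewrite 1 [← hx]
  exact pow_mod_orderOf _ _

theorem pw_one : x ^ (1 : ZMod q).val = x := by simpa using pw_nat hx 1

theorem pw_iff (a b : (ZMod q)ˣ) : IsConj (x ^ (a : ZMod q).val) (x ^ (b : ZMod q).val) ↔
    IsConj x (x ^ ((a⁻¹ * b : (ZMod q)ˣ) : ZMod q).val) := by
  constructor
  · intro e
    have := e.pow ((a⁻¹ : (ZMod q)ˣ) : ZMod q).val
    rwa [← pw_mul hx, ← pw_mul hx, Units.mul_inv, pw_one hx, mul_comm, ← Units.val_mul] at this
  · intro e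
    have := e.pow (a : ZMod q).val
    rwa [← pw_mul hx, ← Units.val_mul, mul_comm, mul_inv_cancel_left] at this

/-- the exponents that are induced by conjugation -/
def gE : Subgroup (ZMod q)ˣ where
  carrier := {a | IsConj x (x ^ (a : ZMod q).val)}
  one_mem' := by
    show IsConj x (x ^ (1 : ZMod q).val)
    rw [pw_one hx]
  mul_mem' := fun {a b} (ha : IsConj _ _) (hb : IsConj _ _) => by
    show IsConj x (x ^ ((a : ZMod q) * b).val)
    rw [mul_comm, pw_mul hx]
    exact ha.trans (hb.pow _)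
  inv_mem' := fun {a} (ha : IsConj _ _) => by
    have := (pw_iff hx a 1).1 (by rw [Units.val_one, pw_one hx]; exact ha.symm)
    rwa [mul_one] at this

end Gal

theorem gal [IsSimpleGroup G] (hna : ¬ IsMulCommutative G) (hq : q.Prime) (hd : q ∣ Nat.card G) :
    ∃ m e, m * e + 1 = q ∧ m ≤ mC (co (G := G)) q ∧ (∀ d, d ∣ e → ∃ j : ConjClasses G, co j = d) ∧
      (¬ q * q ∣ Nat.card G → 2 ≤ e ∧ mC (co (G := G)) q = m) := by
  classical
  haveI := Fact.mk hq
  obtain ⟨x, hx⟩ := exists_prime_orderOf_dvd_card' (G := G) q hd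
  have ox : ∀ a : (ZMod q)ˣ, orderOf (x ^ (a : ZMod q).val) = q := fun a => by
    rw [Nat.Coprime.orderOf_pow, hx]
    rw [hx]
    exact (ZMod.val_coe_unit_coprime a).symm
  let f : (ZMod q)ˣ ⧸ gE hx → {C : ConjClasses G // co C = q} :=
    Quotient.lift (fun a => ⟨ConjClasses.mk (x ^ (a : ZMod q).val), by rw [co_mk, ox]⟩)
      fun a b e => Subtype.ext (ConjClasses.mk_eq_mk_iff_isConj.2
        ((pw_iff hx a b).2 (QuotientGroup.leftRel_apply.1 e)))
  have fi : Function.Injective f := by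
    rintro ⟨a⟩ ⟨b⟩ e
    exact QuotientGroup.eq.2 ((pw_iff hx a b).1
      (ConjClasses.mk_eq_mk_iff_isConj.1 (congrArg Subtype.val e)))
  have hm : mC (co (G := G)) q = Nat.card {C : ConjClasses G // co C = q} := by
    rw [Nat.card_eq_fintype_card, Fintype.card_subtype, mC]
  have un : ∀ n : ℕ, ¬ q ∣ n → ∃ a : (ZMod q)ˣ, x ^ (a : ZMod q).val = x ^ n := fun n hn =>
    ⟨ZMod.unitOfCoprime n ((Nat.Prime.coprime_iff_not_dvd hq).2 hn).symm, pw_nat hx n⟩
  refine ⟨(gE hx).index, Nat.card (gE hx), ?_, ?_, fun d hde => ?_, fun h => ⟨?_, ?_⟩⟩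
  · rw [index_mul_card, Nat.card_eq_fintype_card, ZMod.card_units]
    have := hq.pos
    omega
  · rw [hm]
    exact Nat.card_le_card_of_injective f fi
  · obtain ⟨⟨a, ha⟩, hg⟩ := IsCyclic.exists_ofOrder_eq_natCard (α := gE hx)
    obtain ⟨g, e⟩ := isConj_iff.1 ha
    have k : ∀ n : ℕ, g ^ n * x * (g ^ n)⁻¹ = x ^ ((a : ZMod q) ^ n).val := fun n => by
      induction n with
      | zero => simp only [pow_zero, pw_one hx, one_mul, inv_one, mul_one]
      | succ n ih =>
        rw [pow_succ g, show g ^ n * g * x * (g ^ n * g)⁻¹ = g ^ n * (g * x * g⁻¹) * (g ^ n)⁻¹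
          by group, e, ← conj_pow, ih, pow_succ, pw_mul hx]
    have e1 := k (orderOf g)
    rw [pow_orderOf_eq_one, one_mul, inv_one, mul_one] at e1
    have e2 : a ^ orderOf g = 1 := Units.ext (by
      rw [Units.val_pow_eq_pow_val]
      exact pw_inj hx (e1.symm.trans (pw_one hx).symm))
    have e3 : d ∣ orderOf g := by
      refine hde.trans ?_
      rw [← hg, orderOf_mk]
      exact orderOf_dvd_of_pow_eq_one e2
    exact ⟨ConjClasses.mk (g ^ (orderOf g / d)), by
      rw [co_mk, orderOf_pow_orderOf_div (orderOf_pos g).ne' e3]⟩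
  · by_contra h2
    have h1 : gE hx = ⊥ := eq_bot_of_card_le _ (by omega)
    let P := (syl h hx).toSylowTop
    have hP : normalizer ((P : Subgroup G) : Set G) ≤ centralizer ((P : Subgroup G) : Set G) := by
      intro g hg
      obtain ⟨n, hn⟩ := mem_powers_iff_mem_zpowers.2
        ((mem_normalizer_iff.1 hg x).1 (mem_zpowers x))
      simp only at hn
      obtain ⟨a, ha⟩ := un n fun d => by
        rw [← hx, orderOf_dvd_iff_pow_eq_one, hn, conj_eq_one_iff] at d
        rw [d, orderOf_one] at hx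
        exact hq.ne_one hx.symm
      have : a ∈ gE hx := isConj_iff.2 ⟨g, by rw [ha, hn]⟩
      rw [h1, mem_bot] at this
      rw [this, Units.val_one, pw_one hx, hn, eq_mul_inv_iff_mul_eq] at ha
      refine mem_centralizer_iff.2 ?_
      rintro _ ⟨n, rfl⟩
      exact Commute.zpow_left ha n
    rcases (MonoidHom.normal_ker (MonoidHom.transferSylow P hP)).eq_bot_or_eq_top with e | e
    · have := MonoidHom.ker_transferSylow_isComplement' P hP
      rw [e, isComplement'_bot_left] at this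
      have c : IsCyclic G := isCyclic_iff_exists_zpowers_eq_top.2 ⟨x, this⟩
      exact hna inferInstance
    · have := MonoidHom.not_dvd_card_ker_transferSylow P hP
      rw [e, card_top] at this
      exact this hd
  · rw [hm]
    refine (Nat.card_eq_of_bijective f ⟨fi, ?_⟩).symm
    rintro ⟨C, hC⟩
    obtain ⟨y, rfl⟩ := ConjClasses.mk_surjective C
    obtain ⟨n, hn, e⟩ := conj_pow_of hq h hx (by rwa [co_mk] at hC)
    obtain ⟨a, ha⟩ := un n hn
    exact ⟨QuotientGroup.mk a, Subtype.ext (by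
      show ConjClasses.mk _ = _
      rw [ha, e])⟩

theorem a2 : A2Stmt.{u} := fun _ _ _ _ _ hna =>
  ⟨fun _ hq _ hd => gal hna hq hd, fun _ hq h => same hq h, fun _ hq h => sing hq h,
    fun _ hq h => inj hq h⟩

end Cfsg.Agent.H64.KcA2
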