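import Cfsg.Agent.H9.KCDefs

/-!
# Class numbers of the alternating groups of degree seven and eight (bounds)

Project KC, piece KALT.
-/

set_option autoImplicit false

namespace Cfsg.Agent.H64.KcAlt

open Equiv Equiv.Perm Cfsg.Agent.H9.KC

theorem types (m : Multiset ℕ) (h2 : ∀ a ∈ m, 2 ≤ a) (h7 : m.sum ≤ 7)
    (he : Even (m.sum + m.card)) : m = 0 ∨ m = {2, 2} ∨ m = {3} ∨ m = {3, 3} ∨ m = {4, 2} ∨
      m = {5} ∨ m = {3, 2, 2} ∨ m = {7} := by
  have hc : m.card • 2 ≤ m.sum := Multiset.card_nsmul_le_sum h2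
  rw [smul_eq_mul] at hc
  have : m.card = 0 ∨ m.card = 1 ∨ m.card = 2 ∨ m.card = 3 := by omega
  rcases this with h | h | h | h
  · exact Or.inl (Multiset.card_eq_zero.1 h)
  · obtain ⟨a, rfl⟩ := Multiset.card_eq_one.1 h
    have := h2 a (by simp)
    simp only [Multiset.sum_singleton] at h7
    interval_cases a <;> revert he <;> decide
  · obtain ⟨a, b, rfl⟩ := Multiset.card_eq_two.1 h
    have := h2 a (by simp)
    have := h2 b (by simp)
    simp only [Multiset.insert_eq_cons, Multiset.sum_cons, Multiset.sum_singleton] at h7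
    have : a ≤ 5 := by omega
    have : b ≤ 5 := by omega
    interval_cases a <;> interval_cases b <;> first | omega | (revert he; decide)
  · obtain ⟨a, b, c, rfl⟩ := Multiset.card_eq_three.1 h
    have := h2 a (by simp)
    have := h2 b (by simp)
    have := h2 c (by simp)
    simp only [Multiset.insert_eq_cons, Multiset.sum_cons, Multiset.sum_singleton] at h7
    have : a ≤ 3 := by omega
    have : b ≤ 3 := by omega
    have : c ≤ 3 := by omega
    interval_cases a <;> interval_cases b <;> interval_cases c <;>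
      first | omega | (revert he; decide)

/-- representatives in degree seven -/
def r7 : Fin 9 → Perm (Fin 7) :=
  ![1, swap 0 1 * swap 2 3, swap 0 1 * swap 1 2, swap 0 1 * swap 1 2 * (swap 3 4 * swap 4 5),
    swap 0 1 * swap 1 2 * swap 2 3 * swap 4 5, swap 0 1 * swap 1 2 * swap 2 3 * swap 3 4,
    swap 0 1 * swap 1 2 * swap 3 4 * swap 5 6,
    swap 0 1 * swap 1 2 * swap 2 3 * swap 3 4 * swap 4 5 * swap 5 6,
    swap 0 1 * (swap 0 1 * swap 1 2 * swap 2 3 * swap 3 4 * swap 4 5 * swap 5 6) * swap 0 1]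

/-- odd permutations that permute the representatives -/
def c7 : Fin 9 → Perm (Fin 7) :=
  ![swap 0 1, swap 0 1, swap 3 4, swap 0 3 * swap 1 4 * swap 2 5, swap 4 5, swap 5 6, swap 5 6,
    swap 0 1, swap 0 1]

theorem r7_sign : ∀ i, sign (r7 i) = 1 := by decide +kernel

theorem c7_sign : ∀ i, sign (c7 i) = -1 := by decide +kernel

theorem c7_conj : ∀ i, ∃ j, c7 i * r7 j * (c7 i)⁻¹ = r7 i := by decide +kernel

theorem r7_type : (r7 0).cycleType = 0 ∧ (r7 1).cycleType = {2, 2} ∧ (r7 2).cycleType = {3} ∧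
    (r7 3).cycleType = {3, 3} ∧ (r7 4).cycleType = {4, 2} ∧ (r7 5).cycleType = {5} ∧
    (r7 6).cycleType = {3, 2, 2} ∧ (r7 7).cycleType = {7} := by decide +kernel

theorem a7 : Nat.card (ConjClasses (alternatingGroup (Fin 7))) ≤ 9 := by
  refine (Nat.card_le_card_of_surjective (fun i : Fin 9 =>
    ConjClasses.mk (⟨r7 i, mem_alternatingGroup.2 (r7_sign i)⟩ : alternatingGroup (Fin 7)))
    fun C => ?_).trans (by simp)
  obtain ⟨⟨σ, hσ⟩, rfl⟩ := ConjClasses.mk_surjective C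
  have hs := mem_alternatingGroup.1 hσ
  obtain ⟨i, hi⟩ : ∃ i, (r7 i).cycleType = σ.cycleType := by
    have he : Even (σ.cycleType.sum + σ.cycleType.card) := by
      rw [sign_of_cycleType] at hs
      by_contra h
      rw [(Nat.not_even_iff_odd.1 h).neg_one_pow] at hs
      exact absurd hs (by decide)
    obtain ⟨h0, h1, h2, h3, h4, h5, h6, h7⟩ := r7_type
    rcases types _ (fun _ => two_le_of_mem_cycleType) (by simpa using σ.sum_cycleType_le) he with
      h | h | h | h | h | h | h | h <;> rw [h]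
    exacts [⟨_, h0⟩, ⟨_, h1⟩, ⟨_, h2⟩, ⟨_, h3⟩, ⟨_, h4⟩, ⟨_, h5⟩, ⟨_, h6⟩, ⟨_, h7⟩]
  obtain ⟨g, hg⟩ := isConj_iff.1 (isConj_iff_cycleType_eq.2 hi)
  rcases Int.units_eq_one_or (sign g) with h | h
  · exact ⟨i, ConjClasses.mk_eq_mk_iff_isConj.2 (isConj_iff.2
      ⟨⟨g, mem_alternatingGroup.2 h⟩, Subtype.ext hg⟩)⟩
  · obtain ⟨j, hj⟩ := c7_conj i
    refine ⟨j, ConjClasses.mk_eq_mk_iff_isConj.2 (isConj_iff.2
      ⟨⟨g * c7 i, mem_alternatingGroup.2 (by simp [h, c7_sign])⟩, Subtype.ext ?_⟩)⟩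
    show g * c7 i * r7 j * (g * c7 i)⁻¹ = σ
    rw [← hg, ← hj]
    group

/-- elements of pairwise distinct cycle types in degree eight -/
def r8 : Fin 12 → Perm (Fin 8) :=
  ![1, swap 0 1 * swap 2 3, swap 0 1 * swap 2 3 * swap 4 5 * swap 6 7, swap 0 1 * swap 1 2,
    swap 0 1 * swap 1 2 * (swap 3 4 * swap 4 5), swap 0 1 * swap 1 2 * swap 2 3 * swap 4 5,
    swap 0 1 * swap 1 2 * swap 2 3 * (swap 4 5 * swap 5 6 * swap 6 7),
    swap 0 1 * swap 1 2 * swap 2 3 * swap 3 4,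
    swap 0 1 * swap 1 2 * swap 2 3 * swap 3 4 * (swap 5 6 * swap 6 7),
    swap 0 1 * swap 1 2 * swap 2 3 * swap 3 4 * swap 4 5 * swap 6 7,
    swap 0 1 * swap 1 2 * swap 2 3 * swap 3 4 * swap 4 5 * swap 5 6,
    swap 0 1 * swap 1 2 * swap 3 4 * swap 5 6]

theorem r8_sign : ∀ i, sign (r8 i) = 1 := by decide +kernel

theorem r8_type : ∀ i j, (r8 i).cycleType = (r8 j).cycleType → i = j := by decide +kernel

theorem a8 : 12 ≤ Nat.card (ConjClasses (alternatingGroup (Fin 8))) := by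
  refine le_trans (by simp) (Nat.card_le_card_of_injective (fun i : Fin 12 =>
    ConjClasses.mk (⟨r8 i, mem_alternatingGroup.2 (r8_sign i)⟩ : alternatingGroup (Fin 8)))
    fun i j e => r8_type i j ?_)
  exact isConj_iff_cycleType_eq.1
    ((alternatingGroup (Fin 8)).subtype.map_isConj (ConjClasses.mk_eq_mk_iff_isConj.1 e))

theorem kalt : KAltStmt := ⟨a7, a8⟩

end Cfsg.Agent.H64.KcAlt
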