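import Mathlib
import Cfsg.Agent.H50.L81Defs
import Cfsg.Agent.H50.E83Nact

/-! Project L81: an element inverting a regular torus element centralizes the torus involutions. -/

set_option autoImplicit false

namespace Cfsg.Agent.H64.L81Ng

open Cfsg.Lie Cfsg.Agent.H34 Cfsg.Agent.H40 Cfsg.Agent.H29 Cfsg.Agent.H50.E83 Cfsg.Agent.H50.L81

theorem add_neg {f : Rt → ℤ} (hf : IsAdd C8.R f) (r : Rt) : f (C8.R.neg r) = -f r := by
  rw [hf (C8.R.neg r), hf r, C8.R.rc_neg, ← Finset.sum_neg_distrib]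
  exact Finset.sum_congr rfl fun j _ => by rw [Pi.neg_apply, neg_mul]

theorem ng (stw : StwStmt) : NgStmt := by
  intro i hi ζ t hζ hl b hb z χ hz
  have p2 : IsPrimitiveRoot (-1 : Kˣ) 2 := by
    rw [← IsPrimitiveRoot.coe_units_iff]
    exact IsPrimitiveRoot.neg_one 3 (by decide)
  obtain ⟨w, hw, hw'⟩ := negW
  obtain ⟨n, hn, rfl⟩ := P8.exists_lift hw
  have h1 : n⁻¹ * t * n = t ^ 39 := ((hl.conj hn).eq_iff (hl.pow 39)).2 fun r =>
    (zpow_eq_iff hζ).2 (by
      rw [hw', add_neg hl.1]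
      push_cast
      have : (39 : ZMod 40) = -1 := by decide
      rw [this, neg_one_mul])
  have h2 : t ^ 39 = t⁻¹ := eq_inv_of_mul_eq_one_left (by rw [← pow_succ]; exact hl.pow_eq_one hζ)
  have h3 : Commute t (n * b) := by
    rw [commute_iff_eq, mul_assoc, mul_inv_eq_iff_eq_mul.1 hb, ← h2, ← h1]
    group
  have h4 : Commute z (n * b) := hl.commute_of hζ p2 hz (fun r h => ((stw i hi).1 r h).elim)
    (fun w hw h r => by rw [(stw i hi).2 w hw h]; rfl) h3
  have h5 : n⁻¹ * z * n = z := ((hz.conj hn).eq_iff hz).2 fun r =>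
    (zpow_eq_iff p2).2 (by
      rw [hw', add_neg hz.1]
      push_cast
      exact CharTwo.neg_eq _)
  have h6 : Commute z n := by
    rw [commute_iff_eq, ← inv_mul_eq_iff_eq_mul, ← mul_assoc, h5]
  simpa using h6.inv_right.mul_right h4

end Cfsg.Agent.H64.L81Ng
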