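import Mathlib
import Cfsg.Agent.H54.O84Defs

/-! The diagonal torus of the unitary model of the orthogonal group and its reflections. -/

set_option autoImplicit false

namespace Cfsg.Agent.H64.O84X16

open Cfsg.Agent.H54.O84 Equiv Multiplicative
open scoped Matrix

universe u

section
variable {F : Type u} [Field F] {o : F}

/-- A diagonal map. -/
def dg (c d : Fin 4 → L F o) (h : ∀ i, c i * d i = 1) : UV F o ≃ₗ[F] UV F o where
  toFun y i := c i * y i
  invFun y i := d i * y i
  map_add' y y' := funext fun i => mul_add _ _ _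
  map_smul' a y := funext fun i => mul_smul_comm a (c i) (y i)
  left_inv y := funext fun i => by
    show d i * (c i * y i) = y i
    rw [← mul_assoc, mul_comm (d i), h i, one_mul]
  right_inv y := funext fun i => by
    show c i * (d i * y i) = y i
    rw [← mul_assoc, h i, one_mul]

theorem pow_val_add {ζ : L F o} (h : orderOf ζ = 5) (a b : ZMod 5) :
    ζ ^ (a + b).val = ζ ^ a.val * ζ ^ b.val := by
  rw [ZMod.val_add, ← pow_add]
  have := pow_mod_orderOf ζ (a.val + b.val)
  rwa [h] at this

theorem exists_diag {ζ : L F o} (h : orderOf ζ = 5) (hn : QuadraticAlgebra.norm ζ = 1) :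
    ∃ b : MV →* H30.O (Qn F o), Diag ζ b := by
  have e : ∀ a : ZMod 5, ζ ^ a.val * ζ ^ (-a).val = 1 := fun a => by
    rw [← pow_val_add h, add_neg_cancel, ZMod.val_zero, pow_zero]
  refine ⟨MonoidHom.mk' (fun x => ⟨dg (fun i => ζ ^ (toAdd x i).val)
    (fun i => ζ ^ (-toAdd x i).val) fun i => e _, fun y => ?_⟩) fun x x' => ?_, h, hn,
    fun x y i => rfl⟩
  · rw [Qn_apply, Qn_apply]
    refine Finset.sum_congr rfl fun i _ => ?_
    show QuadraticAlgebra.norm (ζ ^ (toAdd x i).val * y i) = _
    rw [map_mul, map_pow, hn, one_pow, one_mul]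
  · refine Subtype.ext (LinearEquiv.ext fun y => funext fun i => ?_)
    show ζ ^ (toAdd x i + toAdd x' i).val * y i = ζ ^ (toAdd x i).val * (ζ ^ (toAdd x' i).val * y i)
    rw [pow_val_add h, mul_assoc]

theorem inj_of_diag {ζ : L F o} {b : MV →* H30.O (Qn F o)} (h : Diag ζ b) :
    Function.Injective b := by
  refine (injective_iff_map_eq_one b).2 fun x hx => ?_
  refine toAdd.injective (funext fun i => ?_)
  have e := h.2.2 (toAdd x) (fun _ => 1) i
  rw [ofAdd_toAdd, hx, mul_one] at e
  have e' : ζ ^ (toAdd x i).val = 1 := e.symm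
  rw [← orderOf_dvd_iff_pow_eq_one, h.1] at e'
  exact (ZMod.val_eq_zero _).1 (Nat.eq_zero_of_dvd_of_lt e' (ZMod.val_lt _))

/-- The conjugation or the identity. -/
def cj (s : Bool) (z : L F o) : L F o := if s then star z else z

theorem cj_cj (s : Bool) (z : L F o) : cj s (cj s z) = z := by cases s <;> simp [cj]

theorem cj_add (s : Bool) (z z' : L F o) : cj s (z + z') = cj s z + cj s z' := by
  cases s <;> simp [cj]

theorem cj_mul (s : Bool) (z z' : L F o) : cj s (z * z') = cj s z * cj s z' := by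
  cases s <;> simp [cj]

theorem cj_smul (s : Bool) (a : F) (z : L F o) : cj s (a • z) = a • cj s z := by
  cases s
  · rfl
  · ext <;> simp [cj, mul_add]

theorem norm_cj (s : Bool) (z : L F o) :
    QuadraticAlgebra.norm (cj s z) = QuadraticAlgebra.norm z := by
  cases s <;> simp [cj]

/-- A monomial map. -/
def mono (p : Perm (Fin 4)) (s : Fin 4 → Bool) : UV F o ≃ₗ[F] UV F o where
  toFun y i := cj (s i) (y (p i))
  invFun y i := cj (s (p.symm i)) (y (p.symm i))
  map_add' y y' := funext fun i => cj_add _ _ _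
  map_smul' a y := funext fun i => cj_smul _ _ _
  left_inv y := funext fun i => by
    show cj (s (p.symm i)) (cj (s (p.symm i)) (y (p (p.symm i)))) = y i
    rw [cj_cj, apply_symm_apply]
  right_inv y := funext fun i => by
    show cj (s i) (cj (s (p.symm (p i))) (y (p.symm (p i)))) = y i
    rw [symm_apply_apply, cj_cj]

theorem mono_mem (p : Perm (Fin 4)) (s : Fin 4 → Bool) : mono p s ∈ H30.O (Qn F o) := fun y => by
  rw [Qn_apply, Qn_apply, ← Equiv.sum_comp p fun i => QuadraticAlgebra.norm (y i)]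
  exact Finset.sum_congr rfl fun i _ => norm_cj _ _

theorem cj_pow {ζ : L F o} (h : orderOf ζ = 5) (hn : QuadraticAlgebra.norm ζ = 1) (s : Bool)
    (a : ZMod 5) : cj s (ζ ^ a.val) = ζ ^ (if s then -a else a).val := by
  cases s
  · rfl
  · have e : ζ ^ a.val * ζ ^ (-a).val = 1 := by
      rw [← pow_val_add h, add_neg_cancel, ZMod.val_zero, pow_zero]
    have e' : ζ ^ a.val * star (ζ ^ a.val) = 1 := by
      rw [← QuadraticAlgebra.algebraMap_norm_eq_mul_star, map_pow, hn, one_pow, map_one]
    show star (ζ ^ a.val) = ζ ^ (-a).val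
    calc star (ζ ^ a.val) = ζ ^ a.val * ζ ^ (-a).val * star (ζ ^ a.val) := by rw [e, one_mul]
      _ = ζ ^ (-a).val * (ζ ^ a.val * star (ζ ^ a.val)) := by ring
      _ = _ := by rw [e', mul_one]

theorem mono_conj {ζ : L F o} {b : MV →* H30.O (Qn F o)} (h : Diag ζ b) (p : Perm (Fin 4))
    (s : Fin 4 → Bool) (x : V) :
    ⟨mono p s, mono_mem p s⟩ * b (ofAdd x) * (⟨mono p s, mono_mem p s⟩ : H30.O (Qn F o))⁻¹ =
      b (ofAdd fun i => if s i then -x (p i) else x (p i)) := by
  rw [mul_inv_eq_iff_eq_mul]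
  refine Subtype.ext (LinearEquiv.ext fun y => funext fun i => ?_)
  show cj (s i) ((b (ofAdd x)).1 y (p i)) = (b (ofAdd _)).1 (mono p s y) i
  rw [h.2.2, h.2.2, cj_mul, cj_pow h.1 h.2.1]
  rfl

end

/-- The two coordinates of a root and its sign. -/
def tb : Fin 12 → Fin 4 × Fin 4 × Bool := ![(0, 1, false), (2, 3, false), (1, 2, false),
  (2, 3, true), (0, 2, false), (0, 3, false), (1, 3, false), (0, 1, true), (0, 2, true),
  (0, 3, true), (1, 2, true), (1, 3, true)]

def sg (k : Fin 12) (i : Fin 4) : Bool := (tb k).2.2 && (i == (tb k).1 || i == (tb k).2.1)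

theorem coef : ∀ (k : Fin 12) (i j : Fin 4), (if j = i then 1 else 0) - lam k j * lam k i =
    if j = swap (tb k).1 (tb k).2.1 i then (if sg k i then -1 else 1) else (0 : ZMod 5) := by
  decide +kernel

theorem refl_eq (k : Fin 12) (x : V) : x - (x ⬝ᵥ lam k) • lam k = fun i =>
    if sg k i then -x (swap (tb k).1 (tb k).2.1 i) else x (swap (tb k).1 (tb k).2.1 i) := by
  funext i
  have e : (x - (x ⬝ᵥ lam k) • lam k) i =
      ∑ j, x j * ((if j = i then 1 else 0) - lam k j * lam k i) := by
    simp [dotProduct, mul_sub, Finset.sum_sub_distrib, Finset.sum_mul, mul_assoc]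
  rw [e]
  simp only [coef, mul_ite, mul_zero, Finset.sum_ite_eq', Finset.mem_univ, if_true, mul_neg, mul_one]

theorem x1 : X1Stmt.{u} := by
  intro F _ _ o hc ho
  have h2 : (2 : F) = 0 := by
    have := FiniteField.cast_card_eq_zero F
    rw [hc] at this
    exact pow_eq_zero_iff (n := 2) two_ne_zero |>.1 (by rw [← this]; norm_num)
  haveI : Fact (Nat.Prime 5) := ⟨by norm_num⟩
  have h5 : orderOf (⟨0, o⟩ : L F o) = 5 := by
    refine orderOf_eq_prime ?_ fun e => ?_
    · ext
      · simp [pow_succ]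
        show _ = (1 : F)
        linear_combination o ^ 7 * h2 + (o - 1) * (o ^ 3 + 1) * ho
      · simp [pow_succ]
        show _ = (0 : F)
        linear_combination o ^ 6 * h2 + o ^ 5 * ho
    · exact zero_ne_one (congrArg QuadraticAlgebra.re e : (0 : F) = 1)
  have hn : QuadraticAlgebra.norm (⟨0, o⟩ : L F o) = 1 := by
    rw [QuadraticAlgebra.norm_def]
    show 0 * 0 + 1 * 0 * o - o * o * o = 1
    linear_combination (1 - o) * ho - h2
  obtain ⟨b, hb⟩ := exists_diag h5 hn
  exact ⟨_, b, hb, inj_of_diag hb⟩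

theorem x6 : X6Stmt.{u} := by
  intro F _ _ o _ _ ζ b h k
  exact ⟨_, fun x => by rw [refl_eq]; exact mono_conj h _ _ x⟩

end Cfsg.Agent.H64.O84X16
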