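import Mathlib
import Cfsg.Agent.H38.R3Cov

/-! Rank three actions of `PSL_n(q)`: an invariant null polarity gives five orbits on flags. -/

set_option autoImplicit false

namespace Cfsg.Agent.H64.R3Cb4

open Cfsg Module Cfsg.Agent.H79.R3 Cfsg.Agent.H38.R3Cov
open scoped Pointwise

universe u

variable {F V : Type u} [Field F] [AddCommGroup V] [Module F V] [FiniteDimensional F V]

theorem dm_bot : dm (⊥ : Submodule F V) = 0 := finrank_bot F V

theorem exists_pt {A D : Submodule F V} (h : ¬ D ≤ A) : ∃ z : Submodule F V, dm z = 1 ∧ z ≤ D ∧ ¬ z ≤ A := by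
  obtain ⟨v, hv, hn⟩ := SetLike.not_le_iff_exists.1 h
  exact ⟨F ∙ v, finrank_span_singleton fun e => hn (e ▸ A.zero_mem), (Submodule.span_singleton_le_iff_mem _ _).2 hv,
    fun h => hn ((Submodule.span_singleton_le_iff_mem _ _).1 h)⟩

theorem exists_pt' {A D : Submodule F V} (h : dm A < dm D) :
    ∃ z : Submodule F V, dm z = 1 ∧ z ≤ D ∧ ¬ z ≤ A :=
  exists_pt fun e => absurd (dm_mono e) (by omega)

theorem le_of_pts {A B : Submodule F V} (h : ∀ z, dm z = 1 → z ≤ A → z ≤ B) : A ≤ B := by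
  by_contra hn
  obtain ⟨z, h1, h2, h3⟩ := exists_pt hn
  exact h3 (h z h1 h2)

theorem dm_line {x y : Submodule F V} (hx : dm x = 1) (hy : dm y = 1) (hn : x ≠ y) : dm (x ⊔ y) = 2 := by
  have := dm_sup_of_ne (A := ⊥) bot_le (by rw [hx, dm_bot]) bot_le (by rw [hy, dm_bot]) hn
  rwa [dm_bot] at this

theorem dm_le (A : Submodule F V) : dm A ≤ finrank F V := Submodule.finrank_le A

variable {K : Subgroup (V ≃ₗ[F] V)} {t : Submodule F V → Prop} {W : Submodule F V → Submodule F V} {k : ℕ}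

section
variable (h : Bd K t W k)
include h

theorem t_iff {x y : Submodule F V} (hx : dm x = 1) (hy : dm y = 1) (hn : x ≠ y) : t (x ⊔ y) ↔ y ≤ W x := by
  rw [h.mem x _ hx (dm_line hx hy hn) le_sup_left, sup_le_iff, and_iff_right (h.le x hx)]

theorem sym {x y : Submodule F V} (hx : dm x = 1) (hy : dm y = 1) (e : y ≤ W x) : x ≤ W y := by
  by_cases hn : x = y
  · exact hn ▸ h.le x hx
  · rwa [← t_iff h hy hx (Ne.symm hn), sup_comm, t_iff h hx hy hn]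

theorem smul_pt {g : V ≃ₗ[F] V} (hg : g ∈ K) {x y : Submodule F V} (hx : dm x = 1) (hy : dm y = 1) :
    g • y ≤ W (g • x) ↔ y ≤ W x := by
  by_cases hn : x = y
  · subst hn
    exact iff_of_true (h.le _ (by rwa [dm_smul])) (h.le _ hx)
  · rw [← t_iff h hx hy hn, ← t_iff h (by rwa [dm_smul]) (by rwa [dm_smul])
      fun e => hn (MulAction.injective g e), ← H79.R3.smul_sup, h.inv g hg _ (dm_line hx hy hn)]

theorem inf_le {a b c : Submodule F V} (ha : dm a = 1) (hb : dm b = 1) (hc : dm c = 1) (e : c ≤ a ⊔ b) :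
    W a ⊓ W b ≤ W c := le_of_pts fun z hz hl =>
  sym h hz hc (e.trans (sup_le (sym h ha hz (hl.trans inf_le_left)) (sym h hb hz (hl.trans inf_le_right))))

variable (hk : k + 2 = finrank F V)
include hk

theorem meet {z M : Submodule F V} (hz : dm z = 1) (hM : dm M = 2) :
    ∃ c : Submodule F V, dm c = 1 ∧ c ≤ W z ∧ c ≤ M := by
  have h1 := dm_sup_inf (W z) M
  have h2 := dm_le (W z ⊔ M)
  have h3 := h.dim z hz
  obtain ⟨c, c1, c2, -⟩ := exists_pt' (A := ⊥) (D := W z ⊓ M) (by rw [dm_bot]; omega)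
  exact ⟨c, c1, c2.trans inf_le_left, c2.trans inf_le_right⟩

theorem inj {a b : Submodule F V} (ha : dm a = 1) (hb : dm b = 1) (e : W a = W b) : a = b := by
  by_contra hn
  obtain ⟨z, z1, -, z2⟩ := exists_pt' (A := W a) (D := ⊤) (by rw [h.dim a ha, dm, finrank_top]; omega)
  obtain ⟨c, c1, c2, c3⟩ := meet h hk z1 (dm_line ha hb hn)
  have h1 := inf_le h ha hb c1 c3
  rw [← e, inf_idem] at h1
  exact z2 (eq_of_dm h1 (by rw [h.dim a ha, h.dim c c1]) ▸ sym h z1 c1 c2)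

theorem dm_inf {a b : Submodule F V} (ha : dm a = 1) (hb : dm b = 1) (hn : a ≠ b) : dm (W a ⊓ W b) = k := by
  have := dm_inf_of_ne (L := W a) (M := W b) (E := ⊤) le_top le_top
    (by rw [h.dim a ha, dm, finrank_top]; omega) (by rw [h.dim b hb, dm, finrank_top]; omega)
    fun e => hn (inj h hk ha hb e)
  rw [dm, dm, finrank_top] at this
  rw [dm]
  omega

theorem recover {a b c : Submodule F V} (ha : dm a = 1) (hb : dm b = 1) (hn : a ≠ b) (hc : dm c = 1)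
    (e : W a ⊓ W b ≤ W c) : c ≤ a ⊔ b := by
  have h0 := dm_inf h hk ha hb hn
  obtain ⟨z, z1, z2, z3⟩ := exists_pt' (A := W a ⊓ W b) (D := W c) (by rw [h.dim c hc]; omega)
  obtain ⟨d, d1, d2, d3⟩ := meet h hk z1 (dm_line ha hb hn)
  have h1 := dm_sup_of_not_le (A := ⊥) bot_le (by rw [z1, dm_bot]) bot_le z3
  have h2 : z ⊔ W a ⊓ W b = W c := eq_of_dm (sup_le z2 e) (by rw [h.dim c hc]; omega)
  have h3 : z ⊔ W a ⊓ W b = W d :=
    eq_of_dm (sup_le (sym h z1 d1 d2) (inf_le h ha hb d1 d3)) (by rw [h.dim d d1]; omega)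
  exact inj h hk hc d1 (h2.symm.trans h3) ▸ d3

end

variable (W) in
/-- The points whose polar hyperplane contains `N` lie in `A`. -/
def In (A N : Submodule F V) : Prop := ∀ c, dm c = 1 → N ≤ W c → c ≤ A

theorem In.smul (h : Bd K t W k) {g : V ≃ₗ[F] V} (hg : g ∈ K) {A N : Submodule F V} (e : In W A N) :
    In W (g • A) (g • N) := fun c hc hl => by
  have h1 : dm (g⁻¹ • c) = 1 := by rwa [dm_smul]
  have := e _ h1 (le_of_pts fun z hz hN => (smul_pt h hg h1 hz).1 (by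
    rw [smul_inv_smul]; exact (H79.R3.smul_le_smul.2 hN).trans hl))
  rwa [← H79.R3.smul_le_smul (g := g), smul_inv_smul] at this

theorem in_iff (h : Bd K t W k) (hk : k + 2 = finrank F V) {a b : Submodule F V} (ha : dm a = 1) (hb : dm b = 1)
    (hn : a ≠ b) (A : Submodule F V) : In W A (W a ⊓ W b) ↔ a ⊔ b ≤ A :=
  ⟨fun e => sup_le (e a ha inf_le_left) (e b hb inf_le_right),
    fun e _ hc hl => (recover h hk ha hb hn hc hl).trans e⟩

theorem lines (h : Bd K t W k) (hk : k + 2 = finrank F V) (h3 : 3 ≤ k) {a b : Submodule F V} (ha : dm a = 1)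
    (hb : dm b = 1) (hn : a ≠ b) : (∃ L, L ≤ W a ⊓ W b ∧ dm L = 2 ∧ t L ∧ ¬ a ⊔ b ≤ L) ∧
      ∃ L, L ≤ W a ⊓ W b ∧ dm L = 2 ∧ ¬ t L := by
  have h0 := dm_inf h hk ha hb hn
  have hM := dm_line ha hb hn
  obtain ⟨z, z1, z2, z3⟩ := exists_pt' (A := a ⊔ b) (D := W a ⊓ W b) (by omega)
  constructor
  · have h1 := dm_sup_inf (W z) (W a ⊓ W b)
    have h2 : dm (W z ⊔ W a ⊓ W b) ≤ finrank F V := dm_le _
    have h4 := h.dim z z1
    obtain ⟨y, y1, y2, y3⟩ := exists_pt' (A := z) (D := W z ⊓ (W a ⊓ W b)) (by omega)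
    have hy : z ≠ y := fun e => y3 e.ge
    refine ⟨z ⊔ y, sup_le z2 (y2.trans inf_le_right), dm_line z1 y1 hy,
      (t_iff h z1 y1 hy).2 (y2.trans inf_le_left), fun e => z3 ?_⟩
    rw [eq_of_dm e (by rw [hM, dm_line z1 y1 hy])]
    exact le_sup_left
  · obtain ⟨y, y1, y2, y3⟩ := exists_pt fun e => z3 (recover h hk ha hb hn z1 e)
    have hy : z ≠ y := fun e => y3 (e ▸ h.le z z1)
    exact ⟨z ⊔ y, sup_le z2 y2, dm_line z1 y1 hy, fun e => y3 ((t_iff h z1 y1 hy).1 e)⟩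

theorem cb4' : Cb4Stmt.{u} := by
  intro F V _ _ _ _ _ K t W k m h3 hk h hm ⟨c, _, hc⟩
  have key : ∀ L N L' N' : Submodule F V, L ≤ N → dm L = 2 → dm N = k → L' ≤ N' → dm L' = 2 → dm N' = k →
      (c L N : ℕ) = c L' N' → (t L ↔ t L') ∧ (In W N N → In W N' N') ∧ (In W L N → In W L' N') := by
    intro L N L' N' a1 a2 a3 a4 a5 a6 e
    obtain ⟨g, hg, rfl, rfl⟩ := (hc L N L' N' a1 a2 a3 a4 a5 a6).1 (Fin.ext e)
    exact ⟨(h.inv g hg L a2).symm, In.smul h hg, In.smul h hg⟩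
  obtain ⟨a, ha, -, -⟩ := exists_pt' (A := (⊥ : Submodule F V)) (D := ⊤) (by rw [dm_bot, dm, finrank_top]; omega)
  obtain ⟨b, hb, b1, b2⟩ := exists_pt' (A := a) (D := W a) (by rw [h.dim a ha]; omega)
  obtain ⟨d, hd, -, d2⟩ := exists_pt' (A := W a) (D := ⊤) (by rw [h.dim a ha, dm, finrank_top]; omega)
  have hab : a ≠ b := fun e => b2 e.ge
  have had : a ≠ d := fun e => d2 (e ▸ h.le a ha)
  obtain ⟨⟨L1, p1, p2, p3, p4⟩, L2, q1, q2, q3⟩ := lines h hk h3 ha hb hab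
  obtain ⟨⟨L3, r1, r2, r3, -⟩, L4, s1, s2, s3⟩ := lines h hk h3 ha hd had
  have n1 := dm_inf h hk ha hb hab
  have n2 := dm_inf h hk ha hd had
  have m1 := dm_line ha hb hab
  have m2 : a ⊔ b ≤ W a ⊓ W b := le_inf (sup_le (h.le a ha) b1) (sup_le (sym h ha hb b1) (h.le b hb))
  have m3 := (t_iff h ha hb hab).2 b1
  have i1 := (in_iff h hk ha hb hab _).2 m2
  have i2 : ¬ In W (W a ⊓ W d) (W a ⊓ W d) := fun e =>
    d2 (le_sup_right.trans (((in_iff h hk ha hd had _).1 e).trans inf_le_left))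
  have e1 := mt (key _ _ _ _ m2 m1 n1 p1 p2 n1) fun e =>
    p4 ((in_iff h hk ha hb hab _).1 (e.2.2 ((in_iff h hk ha hb hab _).2 le_rfl)))
  have e2 := mt (key _ _ _ _ m2 m1 n1 q1 q2 n1) fun e => q3 (e.1.1 m3)
  have e3 := mt (key _ _ _ _ m2 m1 n1 r1 r2 n2) fun e => i2 (e.2.1 i1)
  have e4 := mt (key _ _ _ _ m2 m1 n1 s1 s2 n2) fun e => i2 (e.2.1 i1)
  have e5 := mt (key _ _ _ _ p1 p2 n1 q1 q2 n1) fun e => q3 (e.1.1 p3)
  have e6 := mt (key _ _ _ _ p1 p2 n1 r1 r2 n2) fun e => i2 (e.2.1 i1)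
  have e7 := mt (key _ _ _ _ p1 p2 n1 s1 s2 n2) fun e => i2 (e.2.1 i1)
  have e8 := mt (key _ _ _ _ q1 q2 n1 r1 r2 n2) fun e => i2 (e.2.1 i1)
  have e9 := mt (key _ _ _ _ q1 q2 n1 s1 s2 n2) fun e => i2 (e.2.1 i1)
  have e10 := mt (key _ _ _ _ r1 r2 n2 s1 s2 n2) fun e => s3 (e.1.1 r3)
  have := (c (a ⊔ b) (W a ⊓ W b)).2
  have := (c L1 (W a ⊓ W b)).2
  have := (c L2 (W a ⊓ W b)).2
  have := (c L3 (W a ⊓ W d)).2
  have := (c L4 (W a ⊓ W d)).2
  omega

theorem cb4 (_cov : CovStmt.{u}) : Cb4Stmt.{u} := cb4'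

end Cfsg.Agent.H64.R3Cb4
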