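import Cfsg.Agent.H74.RuDefs

/-! The index of a maximal subgroup that fixes an isotropic point. -/

set_option autoImplicit false

namespace Cfsg.Agent.H64.RuIdx

open Module Cfsg.Agent.H31 Cfsg.Agent.H74.Ru

theorem idx : IdxStmt := by
  intro F V _ _ _ _ _ S K _ co W h1 hW hK
  obtain ⟨w, hw, w0⟩ := (Submodule.ne_bot_iff W).1 fun h => by
    rw [h, finrank_bot] at h1; exact zero_ne_one h1
  obtain ⟨f, hf, hwf⟩ := S.herm.exists_hyperbolic' (hW w hw w hw) w0
  have lt := S.herm.stab_inf_sisom_lt hf (fun h => by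
    rw [hW w hw f h] at hwf; exact zero_ne_one hwf) hw (S.herm.flip_one hwf ▸ one_ne_zero)
  have eW : W = F ∙ w := (Submodule.eq_of_le_of_finrank_eq
    ((Submodule.span_singleton_le_iff_mem w W).2 hw) (by rw [finrank_span_singleton w0, h1])).symm
  have e1 : stab W = ptStab w := by
    refine le_antisymm (fun g hg => ?_) fun g ⟨a, ha⟩ => mem_stab_of_le fun x hx => ?_
    · have := (hg w).1 hw
      rw [eW, Submodule.mem_span_singleton] at this
      obtain ⟨a, ha⟩ := this
      refine ⟨Units.mk0 a ?_, ha.symm⟩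
      rintro rfl
      exact w0 (g.map_eq_zero_iff.1 (by rw [← ha, zero_smul]))
    · rw [eW, Submodule.mem_span_singleton] at hx
      obtain ⟨c, rfl⟩ := hx
      rw [map_smul, ha]
      exact W.smul_mem _ (W.smul_mem _ hw)
  have e2 : (stab W).subgroupOf S.G = K.subgroupOf S.G :=
    (co.le_iff_eq fun h => lt.ne (inf_eq_right.2 (Subgroup.subgroupOf_eq_top.1 h))).1
      (Subgroup.subgroupOf_mono _ hK)
  rw [Subgroup.relIndex, ← e2, e1, ← S.dim]
  exact S.herm.relIndex_ptStab_iso S.hF S.hσ (hW w hw w hw) w0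

end Cfsg.Agent.H64.RuIdx
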