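import Mathlib
import Cfsg.Agent.H58.SWDefs
import Cfsg.Agent.H31.HermSU

/-! Project SW: the irreducibility kit for the unitary groups. -/

set_option autoImplicit false

namespace Cfsg.Agent.H64.SwIrrU

open Matrix Cfsg Cfsg.Agent.H58.SW Cfsg.Agent.H31
open scoped commutatorElement

theorem irrU : IrrUStmt := by
  intro F _ _ _ n c hu
  have hF : Fintype.card F = c.q ^ 2 := by rw [c.hq, if_pos hu]
  have hn : 3 ≤ n := by
    have h1 := c.hn
    by_contra h
    have h2 := (c.hn2 (by omega)).1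
    rw [hu] at h2
    exact Bool.noConfusion h2
  have h32 := c.hu hu
  have h := isHerm_hermB hF n
  have hSt : c.St = GU n F c.q := by rw [Cl.St, if_pos hu]
  have hS : ∀ g : Gl n F, glEquiv (Fin n) F g ∈ sisom (hermB hF n) ↔ g ∈ c.S := fun g => by
    rw [Cl.S, hSt]; exact mem_GU_inf_ker_iff hF
  have hd : 2 ≤ Module.finrank F (Fin n → F) := by rw [Module.finrank_fin_fun]; omega
  obtain ⟨ω, hω, hω'⟩ := h.inv.exists_skew'
  have htv : ∀ u : Fin n → F, hermB hF n u u = 0 → ∃ s ∈ c.S, ∀ v,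
      (s : Mt n F) *ᵥ v = v + (ω * hermB hF n u v) • u := fun u hu0 =>
    ⟨(glEquiv (Fin n) F).symm (tv (hermB hF n) u ω hu0 hω'),
      (hS _).1 (by rw [MulEquiv.apply_symm_apply]; exact h.tv_mem_sisom hu0 hω'), fun v => by
        rw [← glEquiv_apply, MulEquiv.apply_symm_apply, tv_apply]⟩
  let ι : SU n F c.q →* Gl n F := (Matrix.SpecialLinearGroup.toGL).comp (SU n F c.q).subtype
  have hι : ∀ g, ι g ∈ c.S := fun g => (hS _).1 (suEquiv hF n g).2
  have hι' : ∀ s ∈ c.S, ∃ g, ι g = s := fun s hs =>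
    ⟨(suEquiv hF n).symm ⟨_, (hS s).2 hs⟩, (glEquiv (Fin n) F).injective
      (congrArg Subtype.val ((suEquiv hF n).apply_symm_apply ⟨_, (hS s).2 hs⟩))⟩
  have hZ : ∀ g ∈ Subgroup.center (SU n F c.q), ι g ∈ c.Z := fun g hg => by
    obtain ⟨a, ha⟩ := (mem_center_SU_iff hF (by omega)).1 hg
    refine ⟨(hι g).1, Subgroup.mem_center_iff.2 fun y => Units.ext ?_⟩
    have e : ((ι g : Gl n F) : Mt n F) = a • (1 : Mt n F) := ha
    rw [Units.val_mul, Units.val_mul, e, Matrix.mul_smul, Matrix.smul_mul, mul_one, one_mul]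
  refine ⟨fun x hx => ?_, fun N hN hN' => ?_, fun s hs => ?_, ?_⟩
  · obtain ⟨a, ha⟩ := h.exists_smul_of_isotropic hd (g := Matrix.toLin' x) fun u hu0 => by
      by_cases hu1 : u = 0
      · exact ⟨0, by rw [hu1, map_zero, smul_zero]⟩
      obtain ⟨s, hs, e⟩ := htv u hu0
      obtain ⟨v, hv⟩ := h.exists_eq_one hu1
      have h1 := congrArg (· *ᵥ v) (hx s hs).eq
      simp only [← Matrix.mulVec_mulVec] at h1
      rw [e, e, hv, mul_one, Matrix.mulVec_add, Matrix.mulVec_smul, add_right_inj, mul_smul] at h1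
      exact ⟨_, smul_right_injective _ hω h1⟩
    exact ⟨a, matrix_ext_mulVec fun v => by rw [smul_mulVec, one_mulVec]; exact ha v⟩
  · have := isSimpleGroup_PSU hF hn h32
    have hM : (N.comap ι).Normal := ⟨fun m hm g => by
      rw [Subgroup.mem_comap, map_mul, map_mul, map_inv]
      exact hN' _ (hι g) _ hm⟩
    have hπ := QuotientGroup.mk'_surjective (Subgroup.center (SU n F c.q))
    rcases (hM.map _ hπ).eq_bot_or_eq_top with h1 | h1
    · refine Or.inl fun x hx => ?_
      obtain ⟨g, rfl⟩ := hι' x (hN hx)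
      rw [Subgroup.map_eq_bot_iff, QuotientGroup.ker_mk'] at h1
      exact hZ g (h1 hx)
    · refine Or.inr fun s hs => ?_
      obtain ⟨g, rfl⟩ := hι' s hs
      obtain ⟨m, hm, e⟩ : QuotientGroup.mk' (Subgroup.center (SU n F c.q)) g ∈
          (N.comap ι).map (QuotientGroup.mk' (Subgroup.center (SU n F c.q))) := h1 ▸ Subgroup.mem_top _
      have h2 : m⁻¹ * g ∈ Subgroup.center (SU n F c.q) := QuotientGroup.eq.1 e
      have h3 : ι g = ι m * ι (m⁻¹ * g) := by rw [← map_mul, mul_inv_cancel_left]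
      rw [h3]
      exact Subgroup.mul_mem_sup hm (hZ _ h2)
  · obtain ⟨g, rfl⟩ := hι' s hs
    have h1 : g ∈ commutator (SU n F c.q) := commutator_SU hF hn h32 ▸ Subgroup.mem_top _
    have h2 := Subgroup.mem_map_of_mem ι h1
    rw [commutator_def, Subgroup.map_commutator] at h2
    have h3 : (⊤ : Subgroup (SU n F c.q)).map ι ≤ c.S := by
      rintro _ ⟨y, -, rfl⟩
      exact hι y
    exact Subgroup.commutator_mono h3 h3 h2
  · obtain ⟨u, -, hu1, hu0⟩ := h.exists_isotropic h.nondegOn_top (by rwa [finrank_top])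
    obtain ⟨s, hs, e⟩ := htv u hu0
    refine ⟨s, hs, fun h1 => ?_, 2, matrix_ext_mulVec fun v => ?_⟩
    · obtain ⟨v, hv⟩ := h.exists_eq_one hu1
      have h2 := e v
      rw [h1, Units.val_one, one_mulVec, hv, mul_one, left_eq_add, smul_eq_zero] at h2
      exact h2.elim hω hu1
    · have e' : ∀ w, ((s : Mt n F) - 1) *ᵥ w = (ω * hermB hF n u w) • u := fun w => by
        rw [Matrix.sub_mulVec, one_mulVec, e, add_sub_cancel_left]
      rw [pow_two, ← Matrix.mulVec_mulVec, e', e', map_smul, hu0]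
      simp

end Cfsg.Agent.H64.SwIrrU
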