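import Cfsg.Agent.H53.TCDefs
import Cfsg.Agent.H73.Descent

/-! The 3-closure of a solvable group: the ambient situation is solvable. -/

set_option autoImplicit false

namespace Cfsg.Agent.H64.TcLoc

open MulAction Subgroup Cfsg.Agent.H12.RO Cfsg.Agent.H53.MW Cfsg.Agent.H53.TC
open scoped commutatorElement

universe u

section

variable {L V K W : Type*} [Group L] [AddCommGroup V] [DistribMulAction L V] [Field K]
  [Module K V] [AddCommGroup W] {σ : L →* RingAut K} {G T : Subgroup L} {π : L → W}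
  {b : W → W → Kˣ} {r : ℕ} (h : Amb L V K W σ G T π b r)
include h

theorem π_one : π 1 = 0 := by simpa using h.mul 1 (one_mem _) 1 (one_mem _)

theorem π_div {s t : L} (hs : s ∈ T) (ht : t ∈ T) : π (s * t⁻¹) = π s - π t := by
  have := h.mul _ (mul_mem hs (inv_mem ht)) t ht
  rw [inv_mul_cancel_right] at this
  rw [this, add_sub_cancel_right]

theorem conj_congr (hn : T.Normal) (f : L) {s t : L} (hs : s ∈ T) (ht : t ∈ T) (e : π s = π t) :
    π (f * s * f⁻¹) = π (f * t * f⁻¹) := by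
  obtain ⟨c, hc⟩ := (h.ker _ (mul_mem hs (inv_mem ht))).1 (by rw [π_div h hs ht, e, sub_self])
  rw [← sub_eq_zero, ← π_div h (hn.conj_mem s hs f) (hn.conj_mem t ht f),
    show f * s * f⁻¹ * (f * t * f⁻¹)⁻¹ = f * (s * t⁻¹) * f⁻¹ by group,
    h.ker _ (hn.conj_mem _ (mul_mem hs (inv_mem ht)) f)]
  exact ⟨σ f c, fun v => by rw [mul_smul, mul_smul, hc, h.semi, smul_inv_smul]⟩

/-- The action on `W` by conjugation. -/
@[reducible] noncomputable def act (hn : T.Normal) : DistribMulAction L W where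
  smul f w := π (f * (h.surj w).choose * f⁻¹)
  one_smul w := by
    change π (1 * (h.surj w).choose * 1⁻¹) = w
    simpa using (h.surj w).choose_spec.2
  mul_smul f g w := by
    change π (f * g * (h.surj w).choose * (f * g)⁻¹) =
      π (f * (h.surj (π (g * (h.surj w).choose * g⁻¹))).choose * f⁻¹)
    rw [conj_congr h hn f (h.surj _).choose_spec.1 (hn.conj_mem _ (h.surj w).choose_spec.1 g)
      (h.surj _).choose_spec.2]
    congr 1
    group
  smul_zero f := by
    change π (f * (h.surj 0).choose * f⁻¹) = 0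
    rw [conj_congr h hn f (h.surj _).choose_spec.1 (one_mem _)
      ((h.surj _).choose_spec.2.trans (π_one h).symm)]
    simpa using π_one h
  smul_add f w w' := by
    change π (f * (h.surj (w + w')).choose * f⁻¹) =
      π (f * (h.surj w).choose * f⁻¹) + π (f * (h.surj w').choose * f⁻¹)
    have h1 := (h.surj w).choose_spec
    have h2 := (h.surj w').choose_spec
    rw [conj_congr h hn f (h.surj _).choose_spec.1 (mul_mem h1.1 h2.1) (by
      rw [(h.surj _).choose_spec.2, h.mul _ h1.1 _ h2.1, h1.2, h2.2]),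
      ← h.mul _ (hn.conj_mem _ h1.1 f) _ (hn.conj_mem _ h2.1 f)]
    congr 1
    group

theorem exists_nrm [Nontrivial V] (hn : T.Normal) :
    ∃ _ : DistribMulAction L W, Nrm L V K W σ G T π b r := by
  letI := act h hn
  have cj : ∀ f : L, ∀ t ∈ T, π (f * t * f⁻¹) = f • π t := fun f t ht =>
    conj_congr h hn f ht (h.surj _).choose_spec.1 (h.surj _).choose_spec.2.symm
  refine ⟨_, h, hn, cj, fun f x y => ?_⟩
  obtain ⟨s, hs, rfl⟩ := h.surj x
  obtain ⟨t, ht, rfl⟩ := h.surj y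
  obtain ⟨v, hv⟩ := exists_ne (0 : V)
  have e1 := h.hb _ (hn.conj_mem s hs f) _ (hn.conj_mem t ht f) (f • v)
  simp only [mul_smul, inv_smul_smul] at e1
  rw [cj f s hs, cj f t ht, h.hb s hs t ht, h.semi] at e1
  exact (smul_left_injective K (by simpa [smul_eq_zero_iff_eq] using hv) e1).symm

end

theorem enc_dep {L V K W : Type*} [Group L] [MulAction L V] [Nonempty V] [Field K]
    [AddCommGroup W] [DistribMulAction L W] {b : W → W → Kˣ} (ha : Alt b)
    (h : ∀ d c : W, b d c ≠ 1 → EncAt L V d c) (w : W) :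
    ∃ x y : V, ∀ f : L, f • x = x → f • y = y → ∀ m : ℤ, f • m • w = m • w := by
  by_cases e : w = 0
  · obtain ⟨x⟩ := ‹Nonempty V›
    exact ⟨x, x, fun f _ _ m => by simp [e]⟩
  · obtain ⟨c, hc⟩ := not_forall.1 (mt (ha.nd w) e)
    obtain ⟨x, y, hx⟩ := h w c hc
    exact ⟨x, y, fun f h1 h2 m => by rw [smul_comm, (hx f h1 h2).1]⟩

theorem dep {W : Type*} [AddCommGroup W] {r : ℕ} (hr : r.Prime) (h : ∀ w : W, r • w = 0)
    {w w' : W} {i j : ℤ} (e : i • w + j • w' = 0) (hj : ¬ (r : ℤ) ∣ j) : ∃ m : ℤ, w' = m • w := by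
  obtain ⟨a, c, e1⟩ := (Nat.prime_iff_prime_int.1 hr).coprime_iff_not_dvd.2 hj
  refine ⟨-(c * i), ?_⟩
  calc w' = (a * r + c * j) • w' := by rw [e1, one_smul]
    _ = _ := by
      rw [add_smul, mul_smul, natCast_zsmul, h, smul_zero, zero_add, mul_smul,
        eq_neg_of_add_eq_zero_right e, smul_neg, neg_smul, mul_smul]

section

variable {L V K W : Type*} [Group L] [AddCommGroup V] [DistribMulAction L V] [Field K]
  [Module K V] [AddCommGroup W] [DistribMulAction L W] {σ : L →* RingAut K} {G T : Subgroup L}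
  {π : L → W} {b : W → W → Kˣ} {r : ℕ} (h : Nrm L V K W σ G T π b r)
include h

theorem cl2 (e : ∀ w w' : W, EncAt L V w w') : Cl2 G L W := fun f w w' => by
  obtain ⟨x, y, hx⟩ := e w w'
  obtain ⟨g, hg, h1, h2⟩ := h.cl f x y
  obtain ⟨h3, h4⟩ := hx (g⁻¹ * f) (by rw [mul_smul, ← h1, inv_smul_smul])
    (by rw [mul_smul, ← h2, inv_smul_smul])
  rw [mul_smul, inv_smul_eq_iff] at h3 h4
  exact ⟨⟨g, hg⟩, h3.symm, h4.symm⟩

theorem enc_all (eN : ∀ d c : W, b d c ≠ 1 → EncAt L V d c)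
    (eI : ∀ d d' : W, b d d' = 1 →
      (∀ i j : ℤ, i • d + j • d' = 0 → (r : ℤ) ∣ i ∧ (r : ℤ) ∣ j) → EncAt L V d d') (w w' : W) :
    EncAt L V w w' := by
  by_cases e2 : b w w' = 1
  · by_cases e3 : ∀ i j : ℤ, i • w + j • w' = 0 → (r : ℤ) ∣ i ∧ (r : ℤ) ∣ j
    · exact eI w w' e2 e3
    · push Not at e3
      obtain ⟨i, j, e4, e5⟩ := e3
      by_cases hi : (r : ℤ) ∣ i
      · obtain ⟨m, rfl⟩ := dep h.prime h.rW e4 (e5 hi)
        obtain ⟨x, y, hx⟩ := enc_dep h.alt eN w
        exact ⟨x, y, fun f h1 h2 => ⟨by simpa using hx f h1 h2 1, hx f h1 h2 m⟩⟩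
      · obtain ⟨m, rfl⟩ := dep h.prime h.rW ((add_comm _ _).trans e4) hi
        obtain ⟨x, y, hx⟩ := enc_dep h.alt eN w'
        exact ⟨x, y, fun f h1 h2 => ⟨hx f h1 h2 m, by simpa using hx f h1 h2 1⟩⟩
  · exact eN w w' e2

theorem nonab [Nontrivial V] : ∃ s ∈ T, ∃ t ∈ T, ∃ v : V, s • t • v ≠ t • s • v := by
  obtain ⟨w, hw⟩ := h.nt
  obtain ⟨c, hc⟩ := not_forall.1 (mt (h.alt.nd w) hw)
  obtain ⟨s, hs, rfl⟩ := h.surj w
  obtain ⟨t, ht, rfl⟩ := h.surj c
  obtain ⟨v, hv⟩ := exists_ne (0 : V)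
  refine ⟨s, hs, t, ht, v, fun e => hc (Units.ext ?_)⟩
  have e1 := h.hb s hs t ht v
  rw [e] at e1
  exact smul_left_injective K (show t • s • v ≠ 0 by simpa [smul_eq_zero_iff_eq] using hv)
    (e1.symm.trans (one_smul K _).symm)

theorem der_le_cent [Finite K] {X : Subgroup L} (hX : Triv X W) :
    der X 2 ≤ centralizer (T : Set L) := by
  have σX : der X 1 ≤ σ.ker := commutator_le.2 fun a _ c _ => by
    rw [MonoidHom.mem_ker, map_commutatorElement, commutatorElement_eq_one_iff_mul_comm]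
    exact H73.ringAut_mul_comm _ _
  have XT : ⁅⁅der X 1, T⁆, der X 1⁆ = ⊥ := by
    refine commutator_eq_bot_iff_le_centralizer.2 (commutator_le.2 fun f hf t ht g hg => ?_)
    have m := h.normal.conj_mem t ht f
    obtain ⟨c, hc⟩ := (h.ker _ (mul_mem m (inv_mem ht))).1 (by
      rw [π_div h.toAmb m ht, h.conj f t ht, hX f (der_le _ _ hf), sub_self])
    rw [← mul_inv_eq_one]
    refine h.faith _ fun v => ?_
    obtain ⟨y, rfl⟩ : ∃ y, v = (⁅f, t⁆ * g) • y := ⟨_, (smul_inv_smul _ v).symm⟩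
    rw [mul_smul, inv_smul_smul, mul_smul g, mul_smul _ g, commutatorElement_def, hc, hc, h.semi,
      show σ g = 1 from σX hg]
    rfl
  exact commutator_eq_bot_iff_le_centralizer.1
    (commutator_commutator_eq_bot_of_rotate XT (by rw [commutator_comm T]; exact XT))

end

theorem loc (normOdd : NormOddStmt.{u}) (normTwo : NormTwoStmt.{u}) (encN : EncNStmt.{u})
    (encI : EncIStmt.{u}) (enc3 : Enc3Stmt.{u}) (att : AttStmt.{u}) (enc2 : Enc2Stmt.{u})
    (idx : IdxStmt.{u}) (cen : CenStmt.{u}) : LocStmt.{u} := by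
  intro n lc L V K W _ _ _ _ _ _ _ _ _ _ _ σ G T π b r h hG irr hV hW
  have hn : T.Normal := by
    by_cases e : r = 2
    · exact normTwo L V K W σ G T π b r h e
    · exact normOdd L V K W σ G T π b r h e
  obtain ⟨_, hN⟩ := exists_nrm h hn
  have all : (∀ w w' : W, EncAt L V w w') → SolvOn L W := fun e => lc G L W hW (cl2 hN e)
  have ix : Idx L V W → SolvOn L W := idx L V W G hG h.cl
  obtain ⟨k, hk⟩ : SolvOn L W := by
    by_cases e : r = 2
    · by_cases e1 : Idx L V W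
      · exact ix e1
      · exact (enc2 L V K W σ G T π b r hN e fun t ht h1 h2 =>
          (att L V K W σ G T π b r hN e t ht h1 h2).resolve_right e1).elim all id
    · by_cases e1 : 5 ≤ r ∨ 81 < Nat.card W
      · exact all (enc_all hN (encN L V K W σ G T π b r hN e (e1.imp_right fun a => by omega))
          (encI L V K W σ G T π b r hN e e1))
      · have h2 := h.prime.two_le
        have h4 : r ≠ 4 := fun e4 => absurd (e4 ▸ h.prime) (by decide)
        exact (enc3 L V K W σ G T π b r hN (by omega) (by omega)).elim ix id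
  obtain ⟨k', hk'⟩ := cen n lc L V G T hG hV irr h.cl h.Tn (nonab hN)
  refine ⟨k + 2 + k', hk'.mono ?_⟩
  rw [der_add, der_add]
  exact der_mono (der_le_cent hN hk) k'

end Cfsg.Agent.H64.TcLoc
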