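import Cfsg.Agent.H6.TIDefs
import Cfsg.Agent.H83.Misc
import Cfsg.Agent.H1.Card

/-! Weakly closed elementary abelian TI-subgroups: pairs of points. -/

set_option autoImplicit false

namespace Cfsg.Agent.H64.TiBA

open Cfsg Subgroup Cfsg.Agent.H6.TI
open Cfsg.Agent.H83 (cj)
open scoped Cfsg.Agent.H63 commutatorElement

universe u

variable {G : Type u} [Group G]

theorem cjN {H : Subgroup G} {g x : G} (hg : g ∈ N[H]) (hx : x ∈ H) : g * x * g⁻¹ ∈ H :=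
  H83.conj_mem le_rfl hg hx

theorem brL {H : Subgroup G} {g x : G} (hg : g ∈ N[H]) (hx : x ∈ H) : ⁅x, g⁆ ∈ H := by
  rw [show ⁅x, g⁆ = x * (g * x⁻¹ * g⁻¹) by simp only [commutatorElement_def, mul_assoc]]
  exact mul_mem hx (cjN hg (inv_mem hx))

theorem brR {H : Subgroup G} {g x : G} (hg : g ∈ N[H]) (hx : x ∈ H) : ⁅g, x⁆ ∈ H :=
  mul_mem (cjN hg hx) (inv_mem hx)

theorem br_mul (a v w : G) : ⁅a, v * w⁆ = ⁅a, v⁆ * (v * ⁅a, w⁆ * v⁻¹) := by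
  simp only [commutatorElement_def]; group

theorem le_N_of_comm {H K : Subgroup G} (h : ∀ a ∈ H, ∀ b ∈ K, a * b = b * a) : H ≤ N[K] :=
  le_normalizer_iff.2 fun a ha b hb => by rwa [h a ha b hb, mul_inv_cancel_right]

/-- `a ↦ ⁅a, g⁆` on an abelian subgroup normalized by `g`. -/
def brHom (Z : Subgroup G) (g : G) (hZ : ∀ a ∈ Z, ∀ b ∈ Z, a * b = b * a) (hg : g ∈ N[Z]) :
    Z →* G :=
  MonoidHom.mk' (fun a => ⁅(a : G), g⁆) fun a b => by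
    have := hZ _ (brL hg b.2) _ (cjN hg (inv_mem a.2))
    calc ⁅(a : G) * b, g⁆ = a * (⁅(b : G), g⁆ * (g * (a : G)⁻¹ * g⁻¹)) := by
          simp only [commutatorElement_def]; group
      _ = _ := by rw [this]; simp only [commutatorElement_def]; group

theorem br_eq [Finite G] (Z : Subgroup G) (g : G) (hZ : ∀ a ∈ Z, ∀ b ∈ Z, a * b = b * a)
    (hg : g ∈ N[Z]) : br Z g = (brHom Z g hZ hg).range := by
  refine le_antisymm ?_ ?_
  · refine ((H83.le_centMod (N := (brHom Z g hZ hg).range) (hN := le_rfl)).1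
      (zpowers_le.2 ⟨?_, fun a ha => ⟨⟨a, ha⟩, rfl⟩⟩)).2
    refine mem_normalizer_fintype ?_
    rintro _ ⟨a, rfl⟩
    refine ⟨⟨_, cjN hg a.2⟩, ?_⟩
    change ⁅g * a * g⁻¹, g⁆ = g * ⁅(a : G), g⁆ * g⁻¹
    simp only [commutatorElement_def]; group
  · rintro _ ⟨a, rfl⟩
    exact commutator_mem_commutator a.2 (mem_zpowers g)

theorem mem_br [Finite G] (Z : Subgroup G) (g x : G) (hZ : ∀ a ∈ Z, ∀ b ∈ Z, a * b = b * a)
    (hg : g ∈ N[Z]) : x ∈ br Z g ↔ ∃ a ∈ Z, x = ⁅a, g⁆ := by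
  rw [br_eq Z g hZ hg]
  exact ⟨fun ⟨a, e⟩ => ⟨a, a.2, e.symm⟩, fun ⟨a, ha, e⟩ => ⟨⟨a, ha⟩, e.symm⟩⟩

theorem card_br [Finite G] (Z : Subgroup G) (g : G) (hZ : ∀ a ∈ Z, ∀ b ∈ Z, a * b = b * a)
    (hg : g ∈ N[Z]) : Nat.card (br Z g) = C1[g].relIndex Z := by
  rw [br_eq Z g hZ hg, ← index_ker, relIndex]
  congr 1
  ext a
  rw [MonoidHom.mem_ker, mem_subgroupOf, mem_centralizer_singleton_iff]
  exact commutatorElement_eq_one_iff_mul_comm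

variable {Ω : Set (Subgroup G)} (h : TI Ω) {A B C : Subgroup G}
include h

theorem inv_eq {a : G} (hA : A ∈ Ω) (ha : a ∈ A) : a⁻¹ = a :=
  inv_eq_of_mul_eq_one_right (h.sq A hA a ha)

theorem mcomm (P : Subgroup G) (hP : P ∈ Ω) (a : G) (ha : a ∈ P) (b : G) (hb : b ∈ P) :
    a * b = b * a := by
  rw [← inv_eq h hP (mul_mem ha hb), mul_inv_rev, inv_eq h hP ha, inv_eq h hP hb]

theorem two (P : Subgroup G) (hP : P ∈ Ω) : IsPGroup 2 P :=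
  H83.isPGroup_iff.2 fun x hx => ⟨1, by rw [pow_one, pow_two, h.sq P hP x hx]⟩

theorem peq (P : Subgroup G) (hP : P ∈ Ω) (Q : Subgroup G) (hQ : Q ∈ Ω) (a : G) (ha : a ∈ P)
    (ha' : a ∈ Q) (h1 : a ≠ 1) : P = Q := by
  by_contra e
  exact h1 (mem_bot.1 (h.ti P hP Q hQ e ▸ mem_inf.2 ⟨ha, ha'⟩))

theorem norm (P : Subgroup G) (hP : P ∈ Ω) (a : G) (ha : a ∈ P) (h1 : a ≠ 1) (g : G)
    (hg : g * a * g⁻¹ ∈ P) : g ∈ N[P] :=
  H83.cj_eq_self_iff.1 (peq h _ (h.conj P hP g) P hP _ (H83.conj_mem_cj ha) hg (by simpa using h1))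

theorem cent (P : Subgroup G) (hP : P ∈ Ω) (a : G) (ha : a ∈ P) (h1 : a ≠ 1) (g : G)
    (hg : g * a = a * g) : g ∈ N[P] :=
  norm h P hP a ha h1 g (by rwa [hg, mul_inv_cancel_right])

theorem syl [Finite G] (P : Subgroup G) (hP : P ∈ Ω) (T : Subgroup G) (hT : IsPGroup 2 T)
    (hle : P ≤ T) : T ≤ N[P] := by
  haveI : Fact (Nat.Prime 2) := ⟨Nat.prime_two⟩
  by_contra e
  have lt : T ⊓ N[P] < T := lt_of_le_of_ne inf_le_left fun e' => e (e' ▸ inf_le_right)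
  obtain ⟨x, hx, hx'⟩ := SetLike.exists_of_lt (H83.lt_inf_normalizer hT lt)
  have : cj x P ≤ T ⊓ N[P] := H83.cj_le_of_norm (le_inf hle le_normalizer) hx.2
  exact hx' ⟨hx.1, H83.cj_eq_self_iff.1 (h.wc _ (h.conj P hP x) P hP (this.trans inf_le_right))⟩

theorem conj_in [Finite G] (P : Subgroup G) (hP : P ∈ Ω) (Q : Subgroup G) (hQ : Q ∈ Ω)
    (H : Subgroup G) (h1 : P ≤ H) (h2 : Q ≤ H) : ∃ g ∈ H, cj g P = Q := by
  haveI : Fact (Nat.Prime 2) := ⟨Nat.prime_two⟩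
  obtain ⟨T, hT, hQT⟩ := H83.exists_isSylowIn_ge h2 (two h Q hQ)
  obtain ⟨g, hg, e⟩ := hT.exists_conj_le h1 (two h P hP)
  exact ⟨g, hg, h.wc _ (h.conj P hP g) Q hQ (e.trans (syl h Q hQ T hT.isPGroup hQT))⟩

theorem card_eq (hA : A ∈ Ω) (hB : B ∈ Ω) : Nat.card A = Nat.card B := by
  obtain ⟨g, rfl⟩ := h.trans A hA B hB
  exact (H83.card_cj g A).symm

theorem comm (A : Subgroup G) (hA : A ∈ Ω) (B : Subgroup G) (hB : B ∈ Ω) (ne : A ≠ B) (i : G)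
    (hi : i ∈ ax A B) (j : G) (hj : j ∈ ax B A) : i * j = j * i := by
  rw [← commutatorElement_eq_one_iff_mul_comm]
  exact mem_bot.1 (h.ti A hA B hB ne ▸ mem_inf.2 ⟨brL hj.2 hi.1, brR hi.2 hj.1⟩)

theorem ex_out (e : Ed Ω A B) : ∃ a ∈ A, a ∉ ax A B := by
  by_contra! e'
  exact e.ne (h.wc A e.l B e.r fun a ha => (e' a ha).2)

theorem one_of (e : Ed Ω A B) {x : G} (h1 : x ∈ A) (h2 : x ∈ B) : x = 1 := by
  by_contra e'
  exact e.ne (peq h A e.l B e.r x h1 h2 e')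

theorem symm [Finite G] (e : Ed Ω A B) : Ed Ω B A := by
  haveI : Fact (Nat.Prime 2) := ⟨Nat.prime_two⟩
  refine ⟨e.r, e.l, e.ne.symm, fun e' => ?_⟩
  have b0 : B ≠ ⊥ := fun e0 => e.ne (h.wc B e.r A e.l (e0 ▸ bot_le)).symm
  refine H83.inf_centralizer_ne_bot (two h B e.r) ((two h A e.l).to_le ax_le) ax_le_norm b0 ?_
  obtain ⟨⟨i, hi⟩, i1⟩ := ne_bot_iff_exists_ne_one.1 e.nb
  refine le_bot_iff.1 (e' ▸ fun b hb => ⟨hb.1, cent h A e.l i hi.1 ?_ b (hb.2 i hi).symm⟩)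
  exact fun e1 => i1 (Subtype.ext e1)

theorem cJ (e : Ed Ω A B) {a j : G} (ha : a ∈ A) (hj : j ∈ ax B A) (j1 : j ≠ 1) :
    a * j = j * a ↔ a ∈ ax A B :=
  ⟨fun c => ⟨ha, cent h B e.r j hj.1 j1 a c⟩, fun hi => comm h A e.l B e.r e.ne a hi j hj⟩

theorem brJ (e : Ed Ω A B) {a j : G} (ha : a ∈ A) (hj : j ∈ ax B A) : ⁅a, j⁆ ∈ ax A B := by
  by_cases j1 : j = 1
  · rw [j1, commutatorElement_one_right]; exact one_mem _
  refine (cJ h e (brL hj.2 ha) hj j1).1 ?_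
  refine (mul_inv_eq_iff_eq_mul.1 ?_).symm
  calc j * ⁅a, j⁆ * j⁻¹ = j * a * j⁻¹ * (j * j * a⁻¹ * (j * j)⁻¹) := by
        simp only [commutatorElement_def]; group
    _ = j * a * j⁻¹ * a := by rw [h.sq B e.r j hj.1, inv_eq h e.l ha]; group
    _ = a * (j * a * j⁻¹) := (mcomm h A e.l a ha _ (cjN hj.2 ha)).symm
    _ = ⁅a, j⁆ := by rw [commutatorElement_def, inv_eq h e.l ha]; group

theorem vmem (e : Ed Ω A B) (v : G) : v ∈ vv A B ↔ ∃ i ∈ ax A B, ∃ j ∈ ax B A, v = i * j := by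
  rw [vv, H83.mem_sup_right_norm (le_N_of_comm (comm h A e.l B e.r e.ne))]
  simp only [eq_comm]

theorem vcomm (e : Ed Ω A B) (v : G) (hv : v ∈ vv A B) (w : G) (hw : w ∈ vv A B) :
    v * w = w * v := by
  obtain ⟨i, hi, j, hj, rfl⟩ := (vmem h e v).1 hv
  obtain ⟨i', hi', j', hj', rfl⟩ := (vmem h e w).1 hw
  have c := comm h A e.l B e.r e.ne
  exact (Commute.mul_right (mcomm h A e.l i hi.1 i' hi'.1) (c i hi j' hj')).mul_left
    (Commute.mul_right (c i' hi' j hj).symm (mcomm h B e.r j hj.1 j' hj'.1))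

theorem vsq (e : Ed Ω A B) (v : G) (hv : v ∈ vv A B) : v * v = 1 := by
  obtain ⟨i, hi, j, hj, rfl⟩ := (vmem h e v).1 hv
  rw [mul_assoc, ← mul_assoc j, ← comm h A e.l B e.r e.ne i hi j hj, mul_assoc,
    h.sq B e.r j hj.1, mul_one, h.sq A e.l i hi.1]

theorem vinf (e : Ed Ω A B) : vv A B ⊓ A = ax A B := by
  refine le_antisymm (fun v hv => ?_) (le_inf le_sup_left ax_le)
  obtain ⟨i, hi, j, hj, rfl⟩ := (vmem h e v).1 hv.1
  rwa [one_of h e ((A.mul_mem_cancel_left hi.1).1 hv.2) hj.1, mul_one]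

omit h in
theorem vle (A B : Subgroup G) : vv A B ≤ N[A] := sup_le (ax_le.trans le_normalizer) ax_le_norm

theorem br_ij (e : Ed Ω A B) {a i j : G} (ha : a ∈ A) (hi : i ∈ A) (hj : j ∈ ax B A) :
    ⁅a, i * j⁆ = ⁅a, j⁆ := by
  rw [br_mul, commutatorElement_eq_one_iff_mul_comm.2 (mcomm h A e.l a ha i hi), one_mul,
    mcomm h A e.l i hi _ (brL hj.2 ha), mul_inv_cancel_right]

theorem brk (e : Ed Ω A B) (a : G) (ha : a ∈ A) (v : G) (hv : v ∈ vv A B) : ⁅a, v⁆ ∈ ax A B := by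
  obtain ⟨i, hi, j, hj, rfl⟩ := (vmem h e v).1 hv
  rw [br_ij h e ha hi.1 hj]
  exact brJ h e ha hj

theorem vnormL (e : Ed Ω A B) : A ≤ N[vv A B] := le_normalizer_iff.2 fun a ha v hv => by
  rw [show a * v * a⁻¹ = ⁅a, v⁆ * v by simp only [commutatorElement_def]; group]
  exact mul_mem (mem_sup_left (brk h e a ha v hv)) hv

theorem cA (e : Ed Ω A B) (a : G) (ha : a ∈ A) (v : G) (hv : v ∈ vv A B) (hv' : v ∉ A) :
    a * v = v * a ↔ a ∈ ax A B := by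
  obtain ⟨i, hi, j, hj, rfl⟩ := (vmem h e v).1 hv
  rw [← commutatorElement_eq_one_iff_mul_comm, br_ij h e ha hi.1 hj,
    commutatorElement_eq_one_iff_mul_comm]
  exact cJ h e ha hj fun j1 => hv' (by rw [j1, mul_one]; exact hi.1)

theorem phi_mul (e : Ed Ω A B) (a : G) (ha : a ∈ A) (v : G) (hv : v ∈ vv A B) (w : G)
    (hw : w ∈ vv A B) : ⁅a, v * w⁆ = ⁅a, v⁆ * ⁅a, w⁆ := by
  rw [br_mul, vcomm h e v hv _ (mem_sup_left (brk h e a ha w hw)), mul_inv_cancel_right]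

theorem phi_inj (e : Ed Ω A B) {a j j' : G} (ha : a ∈ A) (ha' : a ∉ ax A B) (hj : j ∈ ax B A)
    (hj' : j' ∈ ax B A) (e1 : ⁅a, j⁆ = ⁅a, j'⁆) : j = j' := by
  have e2 := phi_mul h e a ha j (mem_sup_right hj) j' (mem_sup_right hj')
  rw [e1, h.sq A e.l _ (brL hj'.2 ha), commutatorElement_eq_one_iff_mul_comm] at e2
  by_contra ne
  refine ha' ((cJ h e ha (mul_mem hj hj') fun e3 => ne ?_).1 e2)
  rw [eq_inv_of_mul_eq_one_left e3, inv_eq h e.r hj'.1]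

theorem phi_fun (e : Ed Ω A B) {a : G} (ha : a ∈ A) (ha' : a ∉ ax A B) :
    Function.Injective fun j : ax B A => (⟨⁅a, (j : G)⁆, brJ h e ha j.2⟩ : ax A B) :=
  fun j j' e1 => Subtype.ext (phi_inj h e ha ha' j.2 j'.2 (congrArg Subtype.val e1))

variable [Finite G]

theorem hh_le (e : Ed Ω A B) : hh B A ≤ hh A B := by
  obtain ⟨a, ha, ha'⟩ := ex_out h e
  exact Nat.card_le_card_of_injective _ (phi_fun h e ha ha')

theorem hh_eq (e : Ed Ω A B) : hh A B = hh B A := le_antisymm (hh_le h (symm h e)) (hh_le h e)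

theorem phi (e : Ed Ω A B) (a : G) (ha : a ∈ A) (ha' : a ∉ ax A B) (i : G) (hi : i ∈ ax A B) :
    ∃! j, j ∈ ax B A ∧ ⁅a, j⁆ = i := by
  obtain ⟨j, hj⟩ := ((phi_fun h e ha ha').bijective_of_nat_card_le (hh_eq h e).le).2 ⟨i, hi⟩
  have e1 : ⁅a, (j : G)⁆ = i := congrArg Subtype.val hj
  exact ⟨j, ⟨j.2, e1⟩, fun j' hj' => phi_inj h e ha ha' hj'.1 j.2 (hj'.2.trans e1.symm)⟩

omit h in
theorem hq_mul (A B : Subgroup G) : hh A B * qq A B = Nat.card A := by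
  rw [hh, ← H83.card_subgroupOf (ax_le (A := A) (B := B))]
  exact card_mul_index _

omit h in
theorem hh_pos (A B : Subgroup G) : 0 < hh A B := Nat.card_pos

theorem qq_of (hA : A ∈ Ω) {A' B' : Subgroup G} (hA' : A' ∈ Ω) (e : hh A B = hh A' B') :
    qq A B = qq A' B' :=
  Nat.eq_of_mul_eq_mul_left (hh_pos A B) (by rw [hq_mul, e, hq_mul, card_eq h hA hA'])

theorem brq (e : Ed Ω A B) (v : G) (hv : v ∈ vv A B) (hv' : v ∉ A) :
    Nat.card (br A v) = qq A B := by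
  rw [card_br A v (mcomm h A e.l) (vle A B hv), qq, relIndex, relIndex]
  congr 1
  ext a
  rw [mem_subgroupOf, mem_subgroupOf, mem_centralizer_singleton_iff]
  exact cA h e a a.2 v hv hv'

theorem ex_j (e : Ed Ω A B) : ∃ j ∈ ax B A, j ≠ 1 := by
  obtain ⟨⟨j, hj⟩, j1⟩ := ne_bot_iff_exists_ne_one.1 (symm h e).nb
  exact ⟨j, hj, fun e1 => j1 (Subtype.ext e1)⟩

theorem q_le (e : Ed Ω A B) {W : Subgroup G} {j : G} (hj : j ∈ ax B A) (j1 : j ≠ 1)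
    (hW : ∀ a ∈ A, ⁅a, j⁆ ∈ W) : qq A B ≤ Nat.card W := by
  rw [← brq h e j (mem_sup_right hj) fun hA => j1 (one_of h e hA hj.1)]
  refine card_le_of_le fun x hx => ?_
  obtain ⟨a, ha, rfl⟩ := (mem_br A j x (mcomm h A e.l) hj.2).1 hx
  exact hW a ha

theorem hq (e : Ed Ω A B) : hh A B * qq A B = Nat.card A ∧ 2 ≤ qq A B ∧ qq A B ≤ hh A B ∧
    (∃ k, hh A B = 2 ^ k) ∧ ∃ k, qq A B = 2 ^ k := by
  haveI : Fact (Nat.Prime 2) := ⟨Nat.prime_two⟩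
  obtain ⟨j, hj, j1⟩ := ex_j h e
  obtain ⟨a, ha, ha'⟩ := ex_out h e
  refine ⟨hq_mul A B, ?_, q_le h e hj j1 fun a ha => brJ h e ha hj,
    IsPGroup.iff_card.1 ((two h A e.l).to_le ax_le), (two h A e.l).index _⟩
  have h1 : qq A B ≠ 1 := fun e1 => ha' (relIndex_eq_one.1 e1 ha)
  have h0 : qq A B ≠ 0 := index_ne_zero_of_finite
  omega

theorem msymm (e : Mn Ω A B) : Mn Ω B A :=
  ⟨symm h e.toEd, fun P Q a => (e.max P Q a).trans (hh_eq h e.toEd).le⟩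

omit h in
theorem ax_eq (e : Mn Ω A B) (e' : Ed Ω A C) (le : ax A B ≤ ax A C) : ax A B = ax A C :=
  eq_of_le_of_card_ge le (e.max A C e')

omit h in
theorem mn_of_le (e : Mn Ω A B) (hC : C ∈ Ω) (ne : C ≠ A) (le : ax A B ≤ N[C]) :
    Mn Ω A C ∧ ax A C = ax A B := by
  have le' : ax A B ≤ ax A C := le_inf ax_le le
  have e' : Ed Ω A C := ⟨e.l, hC, ne.symm, fun e1 => e.nb (le_bot_iff.1 (e1 ▸ le'))⟩
  have := ax_eq e e' le'
  exact ⟨⟨e', fun P Q a => (e.max P Q a).trans (by rw [hh, hh, this])⟩, this.symm⟩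

theorem exMn (he : HasEd Ω) (A : Subgroup G) (hA : A ∈ Ω) : ∃ B, Mn Ω A B := by
  obtain ⟨P, Q, e⟩ := he
  obtain ⟨⟨P', Q'⟩, e', hm⟩ := Set.exists_max_image {x : Subgroup G × Subgroup G | Ed Ω x.1 x.2}
    (fun x => hh x.1 x.2) (Set.toFinite _) ⟨(P, Q), e⟩
  obtain ⟨g, rfl⟩ := h.trans P' e'.l A hA
  exact ⟨_, Mn.cj h ⟨e', fun P Q a => hm (P, Q) a⟩ g⟩

theorem vcard (e : Ed Ω A B) : Nat.card (vv A B) = hh A B * hh A B := by
  have := H1.card_sup_mul_card_inf_of_le_normalizer (le_N_of_comm (comm h A e.l B e.r e.ne))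
  rw [le_bot_iff.1 (h.ti A e.l B e.r e.ne ▸ inf_le_inf ax_le ax_le : ax A B ⊓ ax B A ≤ ⊥),
    card_bot, mul_one] at this
  nth_rewrite 2 [hh_eq h e]
  exact this

theorem vnorm (e : Ed Ω A B) : A ⊔ B ≤ N[vv A B] :=
  sup_le (vnormL h e) (vv_comm A B ▸ vnormL h (symm h e))

theorem sub0 (e : Ed Ω A B) (W : Subgroup G) (hW : A ⊔ B ≤ N[W]) (i : G) (hi : i ∈ ax A B) (j : G)
    (hj : j ∈ ax B A) (hw : i * j ∈ W) : j ∈ W := by
  obtain ⟨a, ha, ha'⟩ := ex_out h e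
  obtain ⟨b, hb, hb'⟩ := ex_out h (symm h e)
  have m : ∀ x ∈ W, ⁅b, ⁅a, x⁆⁆ ∈ W := fun x hx =>
    brR (hW (mem_sup_right hb)) (brR (hW (mem_sup_left ha)) hx)
  have inj : ∀ x ∈ ax B A, ∀ y ∈ ax B A, ⁅b, ⁅a, x⁆⁆ = ⁅b, ⁅a, y⁆⁆ → x = y := fun x hx y hy e1 =>
    phi_inj h e ha ha' hx hy (phi_inj h (symm h e) hb hb' (brJ h e ha hx) (brJ h e ha hy) e1)
  have mt : Set.MapsTo (fun x : G => ⁅b, ⁅a, x⁆⁆) ((W ⊓ ax B A : Subgroup G) : Set G)
      ((W ⊓ ax B A : Subgroup G) : Set G) := fun x hx => ⟨m x hx.1, brJ h (symm h e) hb (brJ h e ha hx.2)⟩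
  obtain ⟨y, hy, e1⟩ := (((Set.toFinite _).injOn_iff_bijOn_of_mapsTo mt).1
    fun x hx y hy => inj x hx.2 y hy.2).surjOn (show ⁅b, ⁅a, j⁆⁆ ∈ W ⊓ ax B A from
      ⟨br_ij h e ha hi.1 hj ▸ m _ hw, brJ h (symm h e) hb (brJ h e ha hj)⟩)
  exact inj y hy.2 j hj e1 ▸ hy.1

theorem sub2 (e : Ed Ω A B) (W : Subgroup G) (hV : W ≤ vv A B) (hW : A ⊔ B ≤ N[W]) (h0 : W ≠ ⊥) :
    qq A B ≤ Nat.card ↥(W ⊓ A) := by
  obtain ⟨j, hj, hjW, j1⟩ : ∃ j ∈ ax B A, j ∈ W ∧ j ≠ 1 := by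
    obtain ⟨⟨w, hw⟩, w1⟩ := ne_bot_iff_exists_ne_one.1 h0
    obtain ⟨i, hi, j, hj, rfl⟩ := (vmem h e w).1 (hV hw)
    by_cases j1 : j = 1
    · obtain ⟨b, hb, hb'⟩ := ex_out h (symm h e)
      subst j1
      refine ⟨⁅b, i⁆, brJ h (symm h e) hb hi, brR (hW (mem_sup_right hb)) (by simpa using hw),
        fun e1 => hb' ((cJ h (symm h e) hb hi fun i1 => w1 (Subtype.ext (by simpa using i1))).1
          (commutatorElement_eq_one_iff_mul_comm.1 e1))⟩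
    · exact ⟨j, hj, sub0 h e W hW i hi j hj hw, j1⟩
  exact q_le h e hj j1 fun a ha => ⟨brR (hW (mem_sup_left ha)) hjW, brL hj.2 ha⟩

theorem modU (e : Ed Ω A B) (U : Subgroup G) (hU : U ≤ A) (hn : ax B A ≤ N[U]) :
    U ≤ ax A B ∨ ax A B ≤ U := by
  refine or_iff_not_imp_left.2 fun e1 i hi => ?_
  obtain ⟨a, ha, ha'⟩ := SetLike.not_le_iff_exists.1 e1
  obtain ⟨j, ⟨hj, rfl⟩, -⟩ := phi h e a (hU ha) ha' i hi
  exact brL (hn hj) ha

theorem l4n (e : Ed Ω A B) (T : Subgroup G) (hT : IsPGroup 2 T) (hn : T ≤ N[A])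
    (hJ : ax B A ≤ T) : T ≤ N[ax A B] := by
  haveI : Fact (Nat.Prime 2) := ⟨Nat.prime_two⟩
  let U : Subgroup G := ⨅ t ∈ T, (ax A B).comap (MulAut.conj t).toMonoidHom
  have mU : ∀ {x}, x ∈ U ↔ ∀ t ∈ T, t * x * t⁻¹ ∈ ax A B := by
    intro x
    simp only [U, mem_iInf, mem_comap]
    rfl
  have UI : U ≤ ax A B := fun x hx => by simpa using mU.1 hx 1 (one_mem _)
  obtain ⟨a, ha, ha'⟩ := ex_out h e
  obtain ⟨v, hv, hv', hc⟩ := H83.exists_central_mod hT (two h A e.l) hn (W := U)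
    (le_normalizer_iff.2 fun t ht x hx => mU.2 fun s hs => by
      have := mU.1 hx _ (mul_mem hs ht)
      rwa [show s * t * x * (s * t)⁻¹ = s * (t * x * t⁻¹) * s⁻¹ by group] at this)
    (le_N_of_comm fun a ha x hx => mcomm h A e.l a ha x (UI hx).1)
    (lt_of_le_of_ne (UI.trans ax_le) fun e1 => ha' (UI (e1 ▸ ha)))
  have vI : v ∉ ax A B := fun hI => hv' (mU.2 fun t ht => by
    rw [show t * v * t⁻¹ = ⁅t, v⁆ * v by simp only [commutatorElement_def]; group]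
    exact mul_mem (UI (hc t (mem_sup_left ht))) hI)
  refine le_normalizer_iff.2 fun t ht i hi => mU.1 ?_ t ht
  obtain ⟨j, ⟨hj, rfl⟩, -⟩ := phi h e v hv vI i hi
  rw [← commutatorElement_inv]
  exact inv_mem (hc j (mem_sup_left (hJ hj)))

theorem l4 (e : Ed Ω A B) (e' : Ed Ω A C) (T : Subgroup G) (hT : IsPGroup 2 T) (hn : T ≤ N[A])
    (hJ : ax B A ≤ T) (hJ' : ax C A ≤ T) : ax A B ≤ ax A C ∨ ax A C ≤ ax A B :=
  (modU h e _ ax_le (hJ.trans (l4n h e' T hT hn hJ'))).symm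

theorem conjAx (e : Mn Ω A B) (e' : Ed Ω A C) : ∃ m ∈ N[A], ax A (cj m C) ≤ ax A B ∧
    (Mn Ω A C → ax A (cj m C) = ax A B) := by
  haveI : Fact (Nat.Prime 2) := ⟨Nat.prime_two⟩
  obtain ⟨T, hT, hJ⟩ := H83.exists_isSylowIn_ge (ax_le_norm (A := B) (B := A))
    ((two h B e.r).to_le ax_le)
  obtain ⟨m, hm, hJ'⟩ := hT.exists_conj_le (ax_le_norm (A := C) (B := A))
    ((two h C e'.r).to_le ax_le)
  have le : ax A (cj m C) ≤ ax A B := by
    rcases l4 h e.toEd (e'.cjN h hm) T hT.isPGroup hT.le hJ ((ax_cjN hm C).2 ▸ hJ') with e1 | e1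
    · exact (ax_eq e (e'.cjN h hm) e1).ge
    · exact e1
  exact ⟨m, hm, le, fun e1 => ax_eq (e1.cjN h hm) e.toEd le⟩

omit h [Finite G] in
theorem ba : BAStmt.{u} := fun _ h =>
  { mul_comm := mcomm h
    two := two h
    eq := peq h
    cent := cent h
    norm := norm h
    syl := syl h
    core := fun P hP T hn hT => le_sup_right.trans (syl h P hP (P ⊔ T)
      (H83.isPGroup_sup (two h P hP) hT le_normalizer_of_normal) le_sup_left)
    conj_in := conj_in h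
    mem_br := mem_br
    card_br := card_br
    comm := comm h
    symm := symm h
    card := fun e => ⟨hh_eq h e, qq_of h e.l e.r (hh_eq h e)⟩
    msymm := msymm h
    hq := hq h
    mnq := fun e e' =>
      have := le_antisymm (e'.max _ _ e.toEd) (e.max _ _ e'.toEd)
      ⟨this, qq_of h e.l e'.l this⟩
    mn_of_le := mn_of_le
    exMn := exMn h
    vmem := vmem h
    vsq := vsq h
    vcomm := vcomm h
    vcard := vcard h
    vinf := vinf h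
    vle := fun _ => vle _ _
    vnorm := vnorm h
    brk := brk h
    cA := cA h
    phi := phi h
    phi_mul := phi_mul h
    brq := brq h
    sub1 := fun e W _ hW i hi j hj hw =>
      (mul_mem_cancel_right (sub0 h e W hW i hi j hj hw)).1 hw
    sub2 := sub2 h
    modU := modU h
    l4n := l4n h
    l4 := l4 h
    conjAx := conjAx h }

end Cfsg.Agent.H64.TiBA
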